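import Mathlib
import Cfsg.Agent.H50.E83Defs
import Cfsg.Agent.H73.LB6
import Cfsg.Agent.H75.EX3

/-! Definitions and statements of the pieces of the vector stabiliser lemma for `E₈(3)`: a maximal
subgroup stabilising a rational line of the adjoint module has a nontrivial commutative normal
subgroup or order divisible by `3 ^ 7`. -/

set_option autoImplicit false

namespace Cfsg.Agent.H42.Fv

open Equiv Cfsg.Lie H37 H40 H34 H29 Module H50.E83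
open scoped Matrix

abbrev Ix : Type := chevE8.Idx
abbrev Rk : Type := Fin chevE8.rank

/-- The matrix of `x_r(t)` over a commutative ring. -/
def xR (A : Type) [CommRing A] (r : Rt) (t : A) : Matrix Ix Ix A :=
  Matrix.of fun row col =>
    match col with
    | Sum.inl i =>
      (match row with
       | Sum.inl i' => if i' = i then 1 else 0
       | Sum.inr u => if u = r then - (((chevE8.cartanSR.getD i.val #[]).getD r.val 0 : ℤ) : A) * t else 0)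
    | Sum.inr s =>
      if s = r then (match row with | Sum.inr u => if u = r then 1 else 0 | Sum.inl _ => 0)
      else if s.val = chevE8.negIdx.getD r.val 0 then
        (match row with
         | Sum.inl i => (((chevE8.coroot.getD r.val #[]).getD i.val 0 : ℤ) : A) * t
         | Sum.inr u => if u = s then 1 else if u = r then -(t ^ 2) else 0)
      else
        (match row with
         | Sum.inl _ => 0
         | Sum.inr u => (if u = s then 1 else 0) +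
             ((chevE8.chainCoeff r.val s.val u.val).map fun km => ((km.2 : ℤ) : A) * t ^ km.1).sum)

/-- The product of root elements along a list. -/
def xL (A : Type) [CommRing A] (L : List (Rt × A)) : Matrix Ix Ix A := (L.map fun p => xR A p.1 p.2).prod

/-- The action on the adjoint module over any field. -/
noncomputable def ac (F : Type) [Field F] (g : chevE8.group F) (v : Ix → F) : Ix → F :=
  (g.1.1 : Matrix Ix Ix F) *ᵥ v

/-- The value of the root `r` on the Cartan part of `v`. -/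
def al {A : Type} [CommRing A] (r : Rt) (v : Ix → A) : A :=
  ∑ i : Rk, v (Sum.inl i) * ((chevE8.cartan i r : ℤ) : A)

/-- The Cartan part of `v`. -/
def cp {A : Type} [Zero A] (v : Ix → A) : Ix → A := Sum.elim (fun i => v (Sum.inl i)) fun _ => 0

/-- `t = r + s` -/
def Sum2 (r s t : Rt) : Prop := C8.R.rc t = C8.R.rc r + C8.R.rc s

def Clo (A : Set Rt) : Prop := ∀ r ∈ A, ∀ s ∈ A, ∀ t, Sum2 r s t → t ∈ A

def Pos : Set Rt := {r | C8.R.Pos r}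

/-- The root coordinates of `v` outside `S` vanish. -/
def Supp {A : Type} [Zero A] (S : Set Rt) (v : Ix → A) : Prop := ∀ r, v (Sum.inr r) ≠ 0 → r ∈ S

/-- The roots vanishing on the Cartan part of `y`. -/
def Psi (y : V) : Set Rt := {r | al r y = 0}

/-- Normal form of an element of the Borel subalgebra. -/
def NFm (y : V) : Prop := Supp (Pos ∩ Psi y) y

/-- The Frobenius map of the group. -/
noncomputable def Ph : GK →* GK := H73.Phi C8 K 3 1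

/-- The twisted Frobenius map `g ↦ n * Ph g * n⁻¹`. -/
noncomputable def sg (n : GK) : GK →* GK := H75.EX.cj n Ph

/-- The Frobenius map of the module. -/
noncomputable def frV (v : V) : V := fun i => v i ^ 3

/-- The rational points of the conjugate `g Q g⁻¹`. -/
noncomputable def rat (g : GK) (Q : Subgroup GK) : Subgroup G0 where
  carrier := {m | g⁻¹ * ι m * g ∈ Q}
  one_mem' := by simp
  mul_mem' {a b} ha hb := by
    have := Q.mul_mem ha hb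
    simp only [Set.mem_setOf_eq, map_mul]
    convert this using 1; group
  inv_mem' {a} ha := by
    have := Q.inv_mem ha
    simp only [Set.mem_setOf_eq, map_inv]
    convert this using 1; group

theorem mem_rat {g : GK} {Q : Subgroup GK} {m : G0} : m ∈ rat g Q ↔ g⁻¹ * ι m * g ∈ Q := Iff.rfl

/-- `H` stabilises the line spanned by `w`. -/
def StabL (H : Subgroup G0) (w : V) : Prop := ∀ m ∈ H, ∃ c : K, act (ι m) w = c • w

/-- `H` has no nontrivial commutative normal subgroup. -/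
def NoAb (H : Subgroup G0) : Prop := ∀ A : Subgroup G0, A ≤ H → (∀ h ∈ H, ∀ a ∈ A, h * a * h⁻¹ ∈ A) →
  (∀ a ∈ A, ∀ b ∈ A, a * b = b * a) → A = ⊥

/-- Real additive functions on the roots. -/
def AddR (l : Rt → ℝ) : Prop := ∀ r, l r = ∑ j, (C8.R.rc r j : ℝ) * l (C8.R.simple j)

/-- The filtration of the module defined by `l`. -/
def Vge (l : Rt → ℝ) (m : ℝ) (v : V) : Prop :=
  (0 < m → ∀ i, v (Sum.inl i) = 0) ∧ ∀ r, l r < m → v (Sum.inr r) = 0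

/-- The stabiliser of the filtration. -/
def Pst (l : Rt → ℝ) : Subgroup GK where
  carrier := {g | ∀ m v, Vge l m (act g v) ↔ Vge l m v}
  one_mem' m v := by rw [map_one]; rfl
  mul_mem' {a b} ha hb m v := by rw [map_mul, Module.End.mul_apply]; exact (ha m _).trans (hb m v)
  inv_mem' {a} ha m v := by
    rw [← ha, ← Module.End.mul_apply, ← map_mul, mul_inv_cancel, map_one]; rfl

theorem mem_Pst {l : Rt → ℝ} {g : GK} : g ∈ Pst l ↔ ∀ m v, Vge l m (act g v) ↔ Vge l m v := Iff.rfl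

noncomputable def nrm (l : Rt → ℝ) : ℝ := ∑ r, l r ^ 2

/-- `(g, l)` is an optimal pair for `w`. -/
structure Opt (w : V) (g : GK) (l : Rt → ℝ) : Prop where
  add : AddR l
  dom : ∀ r ∈ Pos, 0 ≤ l r
  mem : Vge l 1 (act g⁻¹ w)
  min : ∀ g' l', AddR l' → Vge l' 1 (act g'⁻¹ w) → nrm l ≤ nrm l'

/-! ### Basic facts -/

theorem act_eq_ac (g : GK) (v : V) : act g v = ac K g v := act_apply g v

theorem ac_mul {F : Type} [Field F] (g h : chevE8.group F) (v : Ix → F) :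
    ac F (g * h) v = ac F g (ac F h v) := (Matrix.mulVec_mulVec _ _ _).symm

theorem ac_one {F : Type} [Field F] (v : Ix → F) : ac F 1 v = v := Matrix.one_mulVec v

theorem act_mul (g h : GK) (v : V) : act (g * h) v = act g (act h v) := by rw [map_mul]; rfl

theorem act_inv_act (g : GK) (v : V) : act g⁻¹ (act g v) = v := by
  rw [← act_mul, inv_mul_cancel, map_one]; rfl

theorem act_act_inv (g : GK) (v : V) : act g (act g⁻¹ v) = v := by
  rw [← act_mul, mul_inv_cancel, map_one]; rfl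

theorem xg_eq (F : Type) [Field F] (r : Rt) (t : F) :
    ((C8.xg F r t).1.1 : Matrix Ix Ix F) = xR F r t :=
  ((C8.V.coe_xG r t).trans (x_eq_xMat r.2 t)).trans (by
    ext i j
    rcases i with i | i <;> rcases j with j | j <;> rfl)

theorem xR_map {A B : Type} [CommRing A] [CommRing B] (f : A →+* B) (r : Rt) (t : A) :
    xR B r (f t) = (xR A r t).map f := by
  ext i j
  rcases i with i | i <;> rcases j with j | j <;> simp only [xR, Matrix.of_apply, Matrix.map_apply] <;>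
    split_ifs <;> simp [map_list_sum, Function.comp_def]

theorem xL_map {A B : Type} [CommRing A] [CommRing B] (f : A →+* B) (L : List (Rt × A)) :
    xL B (L.map fun p => (p.1, f p.2)) = (xL A L).map f := by
  induction L with
  | nil => simp [xL]
  | cons p L ih =>
    simp only [xL, List.map_cons, List.prod_cons, Matrix.map_mul] at ih ⊢
    rw [ih, xR_map]

theorem Up_eq (F : Type) [Field F] : (C8.split F).Up = (C8.split F).U Pos := rfl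

theorem al_cp {A : Type} [CommRing A] (r : Rt) (v : Ix → A) : al r (cp v) = al r v := rfl

theorem al_of_rc {A : Type} [CommRing A] {r s t : Rt} {a b : ℤ}
    (h : C8.R.rc t = a • C8.R.rc r + b • C8.R.rc s) (v : Ix → A) : al t v = a * al r v + b * al s v := by
  simp only [al, ← C8.wt_eq, RS.wt, h, map_add, map_smul, Finset.mul_sum, ← Finset.sum_add_distrib]
  exact Finset.sum_congr rfl fun i _ => by push_cast [smul_eq_mul]; ring

theorem al_add {A : Type} [CommRing A] {r s t : Rt} (h : Sum2 r s t) (v : Ix → A) :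
    al t v = al r v + al s v := by
  simpa using al_of_rc (a := 1) (b := 1) (by simpa [Sum2] using h) v

theorem al_neg {A : Type} [CommRing A] (r : Rt) (v : Ix → A) : al (C8.R.neg r) v = -al r v := by
  simpa using al_of_rc (r := r) (s := r) (a := -1) (b := 0) (by simp [C8.R.rc_neg]) v

theorem al_smul (r : Rt) (c : K) (v : V) : al r (c • v) = c * al r v := by
  simp [al, Finset.mul_sum, mul_assoc]

theorem clo_pos : Clo Pos := fun r hr s hs t h => by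
  show 0 ≤ C8.R.rc t
  rw [h]; exact add_nonneg hr hs

theorem clo_psi (y : V) : Clo (Psi y) := fun r hr s hs t h => by
  show al t y = 0
  rw [al_add h, show al r y = 0 from hr, show al s y = 0 from hs, add_zero]

theorem Clo.inter {A B : Set Rt} (hA : Clo A) (hB : Clo B) : Clo (A ∩ B) := fun r hr s hs t h =>
  ⟨hA r hr.1 s hs.1 t h, hB r hr.2 s hs.2 t h⟩

theorem Sum2.W {r s t : Rt} (h : Sum2 r s t) {w : Perm Rt} (hw : w ∈ C8.S.W) : Sum2 (w r) (w s) (w t) := by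
  simpa [Sum2] using C8.R.W_rel hw (k := t) (r := r) (s := s) (a := 1) (b := 1) (by simpa [Sum2] using h)

theorem Sum2.ht {r s t : Rt} (h : Sum2 r s t) : C8.R.ht t = C8.R.ht r + C8.R.ht s := by
  simp only [RS.ht_def, show C8.R.rc t = _ from h, Pi.add_apply, Finset.sum_add_distrib]

theorem sg_apply (n g : GK) : sg n g = n * Ph g * n⁻¹ := rfl

/-! ### The kit -/

def EntStmt : Prop := ∃ cf : Rt → Rt → Rt → ℤ, (∀ r s' s, cf r s' s ≠ 0 → Sum2 r s' s) ∧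
  ∀ (A : Type) [CommRing A] (r : Rt) (t : A) (v : Ix → A),
    (∀ i : Rk, (xR A r t *ᵥ v) (Sum.inl i) =
      v (Sum.inl i) + t * v (Sum.inr (C8.R.neg r)) * ((co chevE8 r i : ℤ) : A)) ∧
    ∀ s : Rt, (xR A r t *ᵥ v) (Sum.inr s) = v (Sum.inr s) +
      (if s = r then -(al r v * t) - t ^ 2 * v (Sum.inr (C8.R.neg r)) else 0) +
      ∑ s', (cf r s' s : A) * t * v (Sum.inr s')

def CommStmt : Prop := ∀ r ∈ Pos, ∀ s ∈ Pos, ∀ x ∈ P8.X r, ∀ y ∈ P8.X s,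
  x * y * x⁻¹ * y⁻¹ ∈ P8.U {t | Sum2 r s t}

def FiltStmt : Prop := ∀ A ⊆ Pos, Clo A → Filt P8.X A C8.R.ht

def StabStmt : Prop := ∀ (F : Type) [Field F], ∀ A ⊆ Pos, Clo A → ∀ y : Ix → F, Supp A y →
  ∀ u ∈ (C8.split F).U A, Supp A (ac F u y) ∧ cp (ac F u y) = cp y

def TactStmt : Prop := ∀ (F : Type) [Field F], ∀ h ∈ (C8.split F).H, ∃ c : Rt → Fˣ, ∀ v : Ix → F,
  (∀ i, ac F h v (Sum.inl i) = v (Sum.inl i)) ∧ ∀ r, ac F h v (Sum.inr r) = c r * v (Sum.inr r)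

def BstStmt : Prop := ∀ (F : Type) [Field F], ∀ b ∈ (C8.split F).B, ∀ y : Ix → F, Supp Pos y →
  Supp Pos (ac F b y)

def Nact2Stmt : Prop := ∀ n ∈ P8.N, ∃ c : Rt → Kˣ, ∀ v : V,
  (∀ r, act n v (Sum.inr (P8.ν n r)) = c r * v (Sum.inr r)) ∧
  (∀ r, al (P8.ν n r) (act n v) = al r v) ∧ cp (act n v) = act n (cp v)

def FrobStmt : Prop := (∀ g v, act (Ph g) (frV v) = frV (act g v)) ∧ (∀ g, Ph g = g ↔ g ∈ ι.range) ∧
  ∀ r (v : V), al r (frV v) = al r v ^ 3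

def RegStmt : Prop := ∃ h : V, Supp ∅ h ∧ ∀ r, al r h ≠ 0

def FixHStmt : Prop := ∀ h : V, Supp ∅ h →
  (∀ u ∈ P8.U (Psi h), act u h = h) ∧ ∀ t ∈ P8.H, act t h = h

def LineStmt : Prop := ∀ v : V, v ≠ 0 → ∃ m : G0, ∀ c : K, act (ι m) v ≠ c • v

/-! ### Every vector is conjugate into the Borel subalgebra -/

def AlgIndStmt : Prop := ∀ (σ : Type) [Fintype σ] (P : σ → MvPolynomial σ K) (c a : σ → K),
  (∀ i, a i ≠ 0) → (∀ i, P i - MvPolynomial.C (c i) - MvPolynomial.C (a i) * MvPolynomial.X i ∈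
    Ideal.span (Set.range (MvPolynomial.X : σ → MvPolynomial σ K)) ^ 2) → AlgebraicIndependent K P

abbrev R8 : Type := MvPolynomial Ix K

def DomStmt : Prop := ∃ (L : List (Rt × R8)) (y : Ix → R8), Supp Pos y ∧
  AlgebraicIndependent K (xL R8 L *ᵥ y)

def PlaceStmt : Prop := ∀ (E : Type) [Field E] [Algebra K E] (σ : Type) [Fintype σ] (v : σ → E),
  AlgebraicIndependent K v → ∀ w : σ → K, ∃ O : ValuationSubring E, ∀ S : List E, (∀ s ∈ S, s ∈ O) →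
    ∃ (A : Subalgebra K E) (ψ : A →ₐ[K] K), (∀ s ∈ S, s ∈ A) ∧ ∀ i, ∃ h : v i ∈ A, ψ ⟨v i, h⟩ = w i

def IwaStmt : Prop := ∀ (E : Type) [Field E] (O : ValuationSubring E) (g : chevE8.group E),
  ∃ L : List (Rt × E), (∀ p ∈ L, p.2 ∈ O) ∧ (L.map fun p => C8.xg E p.1 p.2).prod * g ∈ (C8.split E).B

def BorStmt : Prop := ∀ w : V, ∃ g : GK, Supp Pos (act g w)

/-! ### Normal forms -/

def NfStmt : Prop := ∀ y : V, Supp Pos y → ∃ u ∈ P8.Up, NFm (act u y)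

def TriStmt : Prop := ∀ A ⊆ Pos, ∀ Gd : Set Rt, Clo A → Clo Gd → ∀ y : V, Supp (Pos ∩ Gd) y →
  (∀ r ∈ A, r ∉ Gd → al r y ≠ 0) → ∀ u ∈ P8.U A, (∀ r ∈ A, r ∉ Gd → act u y (Sum.inr r) = 0) →
  u ∈ P8.U (A ∩ Gd)

def CenStmt : Prop := ∀ (x : GK) (y y' : V), NFm y → NFm y' → act x y = y' →
  ∃ u ∈ P8.U (Pos ∩ Psi y'), ∃ n ∈ P8.N, ∃ u' ∈ P8.U (Pos ∩ Psi y), x = u * n * u' ∧
    act n (cp y) = cp y'

/-! ### Lang's theorem and rational points -/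

def Bdd0Stmt : Prop := ∀ (h : V) (ρ : GK →* GL Ix K), (∀ r, H73.IsLine ρ (P8.X r)) →
  H34.Bdd (ρ.comp (P8.U (Psi h)).subtype) Set.univ

def Lang0Stmt : Prop := ∀ h : V, ∀ n ∈ P8.N, (∀ r ∈ Psi h, P8.ν n r ∈ Psi h) → ∀ a ∈ P8.U (Psi h),
  ∃ b ∈ P8.U (Psi h), b⁻¹ * sg n b = a

def LangUStmt : Prop := ∀ A ⊆ Pos, Clo A → ∀ n ∈ P8.N, (∀ r ∈ A, P8.ν n r ∈ A) → ∀ a ∈ P8.U A,
  ∃ b ∈ P8.U A, b⁻¹ * sg n b = a

def PosStmt : Prop := ∀ h : V, ∀ w ∈ C8.S.W, (∀ r ∈ Psi h, w r ∈ Psi h) →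
  ∃ m ∈ P8.N, m ∈ P8.U (Psi h) ∧ (∀ r ∈ Psi h, P8.ν m r ∈ Psi h) ∧
    ∀ r ∈ Pos ∩ Psi h, P8.ν m (w r) ∈ Pos

def CardAStmt : Prop := ∀ n ∈ P8.N, ∀ A ⊆ Pos, ∀ A' ⊆ A, ∀ (r₀ : Rt) (k : ℕ),
  (∀ r ∈ A, ∀ s ∈ A, ∀ t, Sum2 r s t → t ∈ A') → (∀ r ∈ A', P8.ν n r ∈ A') → 0 < k →
  (P8.ν n ^ k) r₀ = r₀ → (∀ j, 0 < j → j < k → (P8.ν n ^ j) r₀ ≠ r₀) →
  (∀ j : ℕ, (P8.ν n ^ j) r₀ ∈ A) → r₀ ∉ A' →
  3 ^ k * Nat.card ↥(P8.U A' ⊓ H75.EX.fixE (sg n)) ≤ Nat.card ↥(P8.U A ⊓ H75.EX.fixE (sg n))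

def CardBStmt : Prop := ∀ n ∈ P8.N, ∀ A ⊆ Pos, Clo A → (∀ r ∈ A, P8.ν n r ∈ A) →
  3 ^ A.ncard ≤ Nat.card ↥(P8.U A ⊓ H75.EX.fixE (sg n))

def DivStmt : Prop := ∀ (H : Subgroup G0) (g : GK), ∀ n ∈ P8.N, g⁻¹ * Ph g = n → ∀ A ⊆ Pos, Clo A →
  (∀ r ∈ A, P8.ν n r ∈ A) → 7 ≤ A.ncard → rat g (P8.U A) ≤ H → 3 ^ 7 ∣ Nat.card H

def LattStmt : Prop := ∀ π ∈ C8.S.W, ∀ Ψ : Set Rt, (∀ r ∈ Ψ, C8.R.neg r ∈ Ψ) → (∀ r ∈ Ψ, π r ∈ Ψ) →
  (Pos ∩ Ψ).ncard ≤ 7 → ∃ (s : ℕ) (f : Rt → ℤ), s.Coprime 3 ∧ IsAdd C8.R f ∧ (∀ r ∈ Ψ, f r = 0) ∧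
    (∀ r, (f (π r) : ZMod s) = 3 * f r) ∧ ¬ ∀ r, (f r : ZMod s) = 0

def CentStmt : Prop := ∀ n ∈ P8.N, ∀ Ψ : Set Rt, (∀ r ∈ Ψ, C8.R.neg r ∈ Ψ) → (∀ r ∈ Ψ, P8.ν n r ∈ Ψ) →
  (Pos ∩ Ψ).ncard ≤ 7 → ∃ t ∈ P8.H, t ≠ 1 ∧ sg n t = t ∧ ∀ r ∈ Ψ, ∀ x ∈ P8.X r, Commute t x

/-! ### Nonzero semisimple part -/

def SemiAStmt : Prop := ∀ (g₀ : GK) (y : V), NFm y → frV (act g₀ y) = act g₀ y →
  ∃ g : GK, ∃ n ∈ P8.N, g⁻¹ * Ph g = n ∧ act g (cp y) = act g₀ (cp y) ∧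
    (∀ r ∈ Psi y, P8.ν n r ∈ Psi y) ∧ ∀ r ∈ Pos ∩ Psi y, P8.ν n r ∈ Pos

def SemiBStmt : Prop := ∀ H : Subgroup G0, IsCoatom H → ∀ (g₀ : GK) (y : V), NFm y → cp y ≠ 0 →
  StabL H (act g₀ y) → ∀ m : G0, m ∈ H ↔ ∃ c : K, act (ι m) (act g₀ (cp y)) = c • act g₀ (cp y)

def SemiCStmt : Prop := ∀ H : Subgroup G0, NoAb H → ∀ g : GK, ∀ n ∈ P8.N, g⁻¹ * Ph g = n →
  ∀ h : V, Supp ∅ h → h ≠ 0 → (∀ r ∈ Psi h, P8.ν n r ∈ Psi h) →
  (∀ m : G0, m ∈ H ↔ ∃ c : K, act (ι m) (act g h) = c • act g h) → 7 < (Pos ∩ Psi h).ncard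

/-! ### Nilpotent vectors -/

def AddRStmt : Prop := ∀ l, AddR l → (∀ r s t, Sum2 r s t → l t = l r + l s) ∧
  (∀ r, l (C8.R.neg r) = -l r) ∧ ∀ w ∈ C8.S.W, AddR fun r => l (w r)

def DomRStmt : Prop := ∀ l, AddR l → ∃ w ∈ C8.S.W, ∀ r ∈ Pos, 0 ≤ l (w r)

def PstStmt : Prop := ∀ l, AddR l → P8.H ≤ Pst l ∧ P8.U {r | 0 ≤ l r} ≤ Pst l

def NvgStmt : Prop := ∀ (l : Rt → ℝ), ∀ n ∈ P8.N, ∀ m v,
  Vge l m (act n v) ↔ Vge (fun r => l (P8.ν n r)) m v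

def Kr1Stmt : Prop := ∀ (g₀ : GK) (y : V), Supp Pos y → cp y = 0 → ∃ g l, Opt (act g₀ y) g l

def Kr2Stmt : Prop := ∀ w g l g', Opt w g l → Vge l 1 (act g'⁻¹ w) → g⁻¹ * g' ∈ Pst l

def RatStmt : Prop := ∀ l g, AddR l → (∀ r ∈ Pos, 0 ≤ l r) → g⁻¹ * Ph g ∈ Pst l →
  ∃ m₀ : G0, ∃ n ∈ P8.N, (ι m₀ * n)⁻¹ * g ∈ Pst l

def Prop2Stmt : Prop := ∀ l, AddR l → (∃ r, 0 < l r) → ∀ m₀ : G0, ∀ n ∈ P8.N,
  rat (ι m₀ * n) (Pst l) ≠ ⊤

def NilStmt : Prop := ∀ H : Subgroup G0, IsCoatom H → ∀ (g₀ : GK) (y : V), Supp Pos y → cp y = 0 →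
  y ≠ 0 → frV (act g₀ y) = act g₀ y → StabL H (act g₀ y) → 3 ^ 7 ∣ Nat.card H

/-! ### The lemma -/

def FvStmt : Prop := ∀ H : Subgroup G0, IsCoatom H → NoAb H → ¬ 3 ^ 7 ∣ Nat.card H →
  ∀ w : V, w ≠ 0 → (∀ i, w i ^ 3 = w i) → StabL H w → False

end Cfsg.Agent.H42.Fv
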