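import Mathlib

/-! Definitions and statements of the pieces: groups in which cyclic `p`-subgroups of equal order are
conjugate. -/

set_option autoImplicit false

namespace Cfsg.Agent.H42.Pc

open Subgroup

universe u

/-- Cyclic `p`-subgroups of equal order are conjugate. -/
def PP (G : Type u) [Group G] : Prop := ∀ (p : ℕ), p.Prime → ∀ A B : Subgroup G, IsCyclic ↥A →
  IsCyclic ↥B → IsPGroup p ↥A → Nat.card ↥A = Nat.card ↥B →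
  ∃ g : G, B = A.map (MulAut.conj g).toMonoidHom

section
variable {G : Type u} [Group G]

def CC (y y' : G) : Prop := ∃ g : G, zpowers y' = zpowers (g * y * g⁻¹)
def Two (y : G) : Prop := ∃ k : ℕ, y ^ 2 ^ k = 1
def Sq (T : Subgroup G) : Subgroup G := closure {x | ∃ w ∈ T, x = w * w}
def Ext (T : Subgroup G) (y : G) : Subgroup G := T ⊔ zpowers y
def Dr (T : Subgroup G) (y : G) : Subgroup G := ⁅Ext T y, Ext T y⁆
/-- `T` is a Sylow `2`-subgroup of `S`. -/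
def Syl (S T : Subgroup G) : Prop := T ≤ S ∧ IsPGroup 2 T ∧ Odd (T.relIndex S)
/-- The number of elements of odd order of `S` commuting with `y`. -/
noncomputable def lo (S : Subgroup G) (y : G) : ℕ :=
  Nat.card {g : G // g ∈ S ∧ Commute g y ∧ Odd (orderOf g)}
def H1 (S : Subgroup G) : Prop := ∀ y y' : G, Two y → Two y' → y ∉ S → y' ∉ S → y * y ∈ S →
  y' * y' ∈ S → CC y y'

/-- The local configuration. -/
structure Cf (T : Subgroup G) : Prop where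
  nT : T.Normal
  pT : IsPGroup 2 T
  cc : ∀ y y' : G, y ∉ T → y' ∉ T → y * y ∈ T → y' * y' ∈ T → CC y y'
  ni : ∀ y : G, y * y = 1 → y ∈ T
  tr : ∀ y : G, y ∉ T → y * y ∈ T → ∃ w ∈ T, (y * w) * (y * w) ∈ Dr T y

structure Cf2 (T U : Subgroup G) : Prop where
  nT : T.Normal
  nU : U.Normal
  pU : IsPGroup 2 U
  mem : ∀ y : G, y ∈ U ↔ y * y ∈ T
  le : T ≤ U
  cc : ∀ y ∈ U, ∀ y' ∈ U, y ∉ T → y' ∉ T → CC y y'
  sq : ∀ y ∈ U, y * y ∈ Sq T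
  dr : ∀ y ∈ U, y ∉ T → ∀ w ∈ T, w * w ∈ Dr T y

end

/-! ### Reduction -/

def KeyStmt : Prop := ∀ (G : Type u) [Group G] [Finite G], PP G → ∀ (N : Subgroup G) [N.Normal]
  (p : ℕ), p.Prime → ∀ y y' : G, (∃ k, y ^ p ^ k = 1) → (∃ k, y' ^ p ^ k = 1) → y ∉ N → y' ∉ N →
  orderOf (y : G ⧸ N) = orderOf (y' : G ⧸ N) → orderOf y = orderOf y'

def QuotStmt : Prop := ∀ (G : Type u) [Group G] [Finite G], PP G → ∀ (N : Subgroup G) [N.Normal],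
  PP (G ⧸ N)

def OrdStmt : Prop := ∀ (G : Type u) [Group G] [Finite G], PP G → ∀ (S : Subgroup G) [S.Normal],
  H1 S ∧ (Even (Nat.card S) → ∀ y : G, y * y = 1 → y ∈ S)

def SocStmt : Prop := ∀ (G : Type u) [Group G] [Finite G] [Nontrivial G], PP G →
  (∀ N : Subgroup G, N.Normal → Group.IsSolvable N → N = ⊥) →
  ∃ S : Subgroup G, S.Normal ∧ IsSimpleGroup S ∧ ¬ IsMulCommutative S ∧
    centralizer (S : Set G) = ⊥

def MainStmt : Prop := ∀ (G : Type u) [Group G] [Finite G], PP G → ∀ (S : Subgroup G) [S.Normal],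
  IsSimpleGroup S → ¬ IsMulCommutative S → centralizer (S : Set G) = ⊥ → Group.IsSolvable (G ⧸ S)

def TopStmt : Prop := ∀ (G : Type u) [Group G] [Finite G], PP G → ¬ Group.IsSolvable G →
  ∃ (K L : Subgroup G) (_ : K.Normal) (_ : L.Normal), K ≤ L ∧ Group.IsSolvable ↥K ∧ Group.IsSolvable (G ⧸ L) ∧
    IsSimpleGroup (↥L ⧸ K.subgroupOf L) ∧ ¬ IsMulCommutative (↥L ⧸ K.subgroupOf L)

/-! ### No fusion -/

def CntStmt : Prop := ∀ (G : Type u) [Group G] [Finite G] (S : Subgroup G) [S.Normal] (y : G) (l : ℕ),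
  y * y ∈ S → (∀ y', y⁻¹ * y' ∈ S → Two y' → lo S y' = l) →
  Nat.card {y' : G // y⁻¹ * y' ∈ S ∧ Two y'} * l = Nat.card S

def OddStmt : Prop := ∀ (G : Type u) [Group G] [Finite G] (S : Subgroup G) (y : G), Odd (lo S y)

def UniStmt : Prop := ∀ (G : Type u) [Group G] [Finite G] (S : Subgroup G) [S.Normal] (y y' : G),
  CC y y' → lo S y' = lo S y ∧
    Nat.card ↥(S ⊓ centralizer {y'}) = Nat.card ↥(S ⊓ centralizer {y})

def OrbStmt : Prop := ∀ (S Ω : Type u) [Group S] [Finite S] [MulAction S Ω] [Finite Ω]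
  (T : Subgroup S) (A : Set Ω) (c l : ℕ), IsPGroup 2 T → Odd l → Nat.card Ω * l = Nat.card S →
  (∀ x : Ω, Nat.card (MulAction.stabilizer S x) = c) → Nat.card A = Nat.card T →
  (∀ x ∈ A, ∀ t ∈ T, t • x ∈ A) → (∀ x : Ω, ∃ s : S, s • x ∈ A) →
  ∀ x ∈ A, ∀ s : S, s • x ∈ A → ∃ t ∈ T, t • x = s • x

def SylStmt : Prop := ∀ (G : Type u) [Group G] [Finite G] (S T : Subgroup G) (y : G), Syl S T →
  y ∈ normalizer (S : Set G) → y ∈ normalizer (T : Set G) → Two y →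
  ∀ y', y⁻¹ * y' ∈ S → Two y' → ∃ s ∈ S, y⁻¹ * (s * y' * s⁻¹) ∈ T

def NfStmt : Prop := ∀ (G : Type u) [Group G] [Finite G] (S : Subgroup G) [S.Normal] (T : Subgroup G)
  (y : G), H1 S → Syl S T → y ∈ normalizer (T : Set G) → y ∉ S → y * y ∈ T →
  ∀ s ∈ S, y⁻¹ * (s * y * s⁻¹) ∈ T → ∃ w ∈ T, w * y * w⁻¹ = s * y * s⁻¹

def NcStmt : Prop := ∀ (G : Type u) [Group G] [Finite G] (S : Subgroup G) [S.Normal] (T : Subgroup G),
  H1 S → Syl S T → ∀ y ∈ normalizer (T : Set G), ∀ y' ∈ normalizer (T : Set G), y ∉ S → y' ∉ S →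
  y * y ∈ T → y' * y' ∈ T → ∃ n ∈ normalizer (T : Set G), zpowers y' = zpowers (n * y * n⁻¹)

def TrStmt : Prop := ∀ (G : Type u) [Group G] [Finite G] (S : Subgroup G) [S.Normal] (T : Subgroup G)
  (y : G), ⁅S, S⁆ = S → Syl S T → y ∈ normalizer (T : Set G) → y ∉ S → y * y ∈ T →
  ∃ w ∈ T, (y * w) * (y * w) ∈ Dr T y

def GlStmt : Prop := ∀ (G : Type u) [Group G] [Finite G] (S : Subgroup G) [S.Normal] (T : Subgroup G),
  IsSimpleGroup S → ¬ IsMulCommutative S → centralizer (S : Set G) = ⊥ → Syl S T →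
  ∃ O : Subgroup G, ∀ g, g ∈ O ↔ g ∈ centralizer (T : Set G) ∧ Odd (orderOf g)

def LocStmt : Prop := ∀ (G : Type u) [Group G] [Finite G], PP G → ∀ (S : Subgroup G) [S.Normal]
  (T : Subgroup G), IsSimpleGroup S → ¬ IsMulCommutative S → Syl S T →
  Cf (T.subgroupOf (normalizer (T : Set G)))

def QoStmt : Prop := ∀ (G : Type u) [Group G] [Finite G] (T O : Subgroup G) [O.Normal], Cf T →
  (∀ g, g ∈ O ↔ g ∈ centralizer (T : Set G) ∧ Odd (orderOf g)) →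
  Cf (T.map (QuotientGroup.mk' O)) ∧
    ∀ g ∈ centralizer ((T.map (QuotientGroup.mk' O) : Subgroup (G ⧸ O)) : Set (G ⧸ O)), Two g

def FinStmt : Prop := ∀ (G : Type u) [Group G] [Finite G] (T : Subgroup G), Cf T →
  (∀ g ∈ centralizer (T : Set G), Two g) → Group.IsSolvable G

def Fin0Stmt : Prop := ∀ (G : Type u) [Group G] [Finite G] (T O : Subgroup G), Cf T →
  (∀ g, g ∈ O ↔ g ∈ centralizer (T : Set G) ∧ Odd (orderOf g)) → Group.IsSolvable G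

/-! ### The local analysis -/

def BStmt : Prop := ∀ (G : Type u) [Group G] [Finite G] (T : Subgroup G), Cf T →
  ∀ y : G, y ∉ T → y * y ∈ T → ∀ w ∈ T, w * w ∈ Dr T y

def A0Stmt : Prop := ∀ (G : Type u) [Group G] (T : Subgroup G) [T.Normal] (y : G), y * y ∈ T →
  ∀ x ∈ Dr T y, ∃ v ∈ T, x⁻¹ * (v⁻¹ * (y⁻¹ * v * y)) ∈ Sq T

def AStmt : Prop := ∀ (G : Type u) [Group G] [Finite G] (T : Subgroup G), Cf T →
  ∀ y : G, y * y ∈ T → y * y ∈ Sq T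

def BbStmt : Prop := ∀ (G : Type u) [Group G] [Finite G] (T : Subgroup G) [T.Normal] (g : G),
  IsPGroup 2 T → Odd (orderOf g) → (∀ w ∈ T, w⁻¹ * (g * w * g⁻¹) ∈ Sq T) →
  g ∈ centralizer (T : Set G)

def N1Stmt : Prop := ∀ (G : Type u) [Group G] [Finite G] (T : Subgroup G), Cf T →
  (∀ g ∈ centralizer (T : Set G), Two g) →
  ∃ M : Subgroup G, M.Normal ∧ IsPGroup 2 M ∧ ∀ y : G, y * y ∈ T → y ∈ M

def UStmt : Prop := ∀ (G : Type u) [Group G] [Finite G] (T M : Subgroup G), Cf T → M.Normal →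
  IsPGroup 2 M → (∀ y : G, y * y ∈ T → y ∈ M) → ∃ U : Subgroup G, ∀ y : G, y ∈ U ↔ y * y ∈ T

def C2Stmt : Prop := ∀ (G : Type u) [Group G] [Finite G] (T : Subgroup G), Cf T →
  (∀ g ∈ centralizer (T : Set G), Two g) → ∃ U, Cf2 T U

def AbStmt : Prop := ∀ (G : Type u) [Group G] (T U : Subgroup G), Cf2 T U → (Sq T).Normal ∧ Sq T ≤ T ∧
  ∀ a ∈ U, ∀ b ∈ U, a⁻¹ * (b * a * b⁻¹) ∈ Sq T

def TransStmt : Prop := ∀ (G : Type u) [Group G] [Finite G] (T U : Subgroup G) (P : Sylow 2 G) (z : G),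
  Cf2 T U → z ∈ U → z ∉ T → (∀ g ∈ (P : Subgroup G), z⁻¹ * (g * z * g⁻¹) ∈ T) →
  ∀ w ∈ T, ∃ g ∈ (P : Subgroup G), (z * w)⁻¹ * (g * z * g⁻¹) ∈ Sq T

def PickStmt : Prop := ∀ (G : Type u) [Group G] [Finite G] (U : Subgroup G) [U.Normal] (P : Sylow 2 G),
  Even U.index → ∃ t ∈ (P : Subgroup G), t ∉ U ∧ t * t ∈ U ∧
    ∀ g ∈ (P : Subgroup G), t⁻¹ * (g * t * g⁻¹) ∈ U

def FixStmt : Prop := ∀ (G : Type u) [Group G] [Finite G] (T U P : Subgroup G) (t : G), Cf2 T U →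
  IsPGroup 2 P → (∀ g ∈ P, t⁻¹ * (g * t * g⁻¹) ∈ U) → (∃ a ∈ U, a⁻¹ * (t * a * t⁻¹) ∉ T) →
  ∃ a ∈ U, a⁻¹ * (t * a * t⁻¹) ∉ T ∧ ∀ g ∈ P,
    (a⁻¹ * (t * a * t⁻¹))⁻¹ * (g * (a⁻¹ * (t * a * t⁻¹)) * g⁻¹) ∈ T

def Cv1Stmt : Prop := ∀ (G : Type u) [Group G] [Finite G] (T U : Subgroup G) (P : Sylow 2 G) (t z : G),
  Cf2 T U → (∀ g ∈ (P : Subgroup G), t⁻¹ * (g * t * g⁻¹) ∈ U) → z ∈ U → z ∉ T →
  (∀ g ∈ (P : Subgroup G), z⁻¹ * (g * z * g⁻¹) ∈ T) → z⁻¹ * (t * z * t⁻¹) ∈ Sq T →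
  ∀ w ∈ T, w⁻¹ * (t * w * t⁻¹) ∈ Sq T

def Cv2Stmt : Prop := ∀ (G : Type u) [Group G] [Finite G] (T U : Subgroup G) (P : Sylow 2 G) (t : G),
  Cf2 T U → t ∉ U → t * t ∈ U → (∀ g ∈ (P : Subgroup G), t⁻¹ * (g * t * g⁻¹) ∈ U) →
  (∀ a ∈ U, a⁻¹ * (t * a * t⁻¹) ∈ T) →
  (∀ g ∈ (P : Subgroup G), (t * t)⁻¹ * (g * (t * t) * g⁻¹) ∈ T) ∧
    ∀ w ∈ T, ∃ a ∈ U, w⁻¹ * (a⁻¹ * (t * a * t⁻¹)) ∈ Sq T

def CentStmt : Prop := ∀ (G : Type u) [Group G] [Finite G] (T U : Subgroup G), Cf2 T U →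
  Even U.index → ∃ t : G, t ∉ U ∧ t * t ∈ U ∧ (∀ w ∈ T, w⁻¹ * (t * w * t⁻¹) ∈ Sq T) ∧
    ((∃ a ∈ U, a⁻¹ * (t * a * t⁻¹) ∉ T) ∨ ∀ w ∈ T, ∃ a ∈ U, w⁻¹ * (a⁻¹ * (t * a * t⁻¹)) ∈ Sq T)

def WStmt : Prop := ∀ (G : Type u) [Group G] [Finite G] (U Z : Subgroup G), U.Normal → Z.Normal →
  IsPGroup 2 U → Z ≤ U → Z ≠ ⊥ → ∃ W : Subgroup G, W.Normal ∧ W ≤ Z ∧ ¬ Z ≤ W ∧
    ∀ x ∈ Z, x * x ∈ W ∧ ∀ a ∈ U, x⁻¹ * (a * x * a⁻¹) ∈ W

def Q2Stmt : Prop := ∀ (G : Type u) [Group G] [Finite G] (T U W : Subgroup G) [W.Normal], Cf2 T U →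
  W ≤ T → Cf2 (T.map (QuotientGroup.mk' W)) (U.map (QuotientGroup.mk' W)) ∧
    (U.map (QuotientGroup.mk' W)).index = U.index ∧
    Sq (T.map (QuotientGroup.mk' W)) = (Sq T).map (QuotientGroup.mk' W)

def E1Stmt : Prop := ∀ (G : Type u) [Group G] (T U : Subgroup G) (t : G), Cf2 T U →
  (∀ x ∈ Sq T, x * x = 1 ∧ ∀ a ∈ U, Commute x a) → t * t ∈ U →
  (∀ w ∈ T, w⁻¹ * (t * w * t⁻¹) ∈ Sq T) → ∀ a ∈ U,
  Commute (a⁻¹ * (t * a * t⁻¹)) (t * t) ∧ ∀ w ∈ T, Commute (a⁻¹ * (t * a * t⁻¹)) w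

def E2Stmt : Prop := ∀ (G : Type u) [Group G] [Finite G] (T U : Subgroup G) (y : G), Cf2 T U →
  y ∈ U → y ∉ T → (∀ w ∈ T, Commute y w) → Sq T = ⊥

def EndStmt : Prop := ∀ (G : Type u) [Group G] [Finite G] (T U : Subgroup G), Cf2 T U →
  Even U.index → (∀ x ∈ Sq T, x * x = 1 ∧ ∀ a ∈ U, Commute x a) → Sq T = ⊥

end Cfsg.Agent.H42.Pc
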