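import Mathlib
import Cfsg.Prelude.Def_Blocks
import Cfsg.Prelude.Def_Solvable
import Cfsg.Agent.H22.VanP

/-! Pieces for groups whose vanishing elements have prime power order. -/

set_option autoImplicit false

namespace Cfsg.Agent.H42.Vp

open Subgroup Cfsg

universe u

abbrev Van {G : Type u} [Group G] (x : G) : Prop := H22.VanP.Van x

/-- Every `p`-element commuting with a non-identity element of `K` is central. -/
def Loc {G : Type u} [Group G] (p : ℕ) (K : Subgroup G) : Prop :=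
  ∀ x : G, (∃ m, x ^ p ^ m = 1) → ∀ k ∈ K, k ≠ 1 → Commute x k → x ∈ center G

def DStmt : Prop := ∀ (G : Type u) [Group G] [Finite G] (p : ℕ), p.Prime → ∀ (χ : IrrCharacter G)
  (g : G) (m : ℕ), orderOf g = p ^ m → (χ : G → ℂ) g = 0 → p ∣ charDegree (χ : G → ℂ)

def TStmt : Prop := ∀ (G : Type u) [Group G] [Finite G] (p : ℕ), p.Prime →
  (∀ g : G, Van g → ∃ m, orderOf g = p ^ m) →
  ∃ K : Subgroup G, K.Normal ∧ (Nat.card K).Coprime p ∧ ∃ k : ℕ, K.index = p ^ k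

def NStmt : Prop := ∀ (G : Type u) [Group G] [Finite G], ¬ IsMulCommutative G →
  ∃ g : G, Van g ∧ g ∉ center G

def Z0Stmt : Prop := ∀ (G : Type u) [Group G] [Finite G] (x g z : G), z ∈ center G → z ≠ 1 →
  g * x * g⁻¹ = x * z → Van x

def ZStmt : Prop := ∀ (G : Type u) [Group G] [Finite G] (p : ℕ), p.Prime → IsPGroup p G →
  ∀ x : G, x ∉ center G → Van x

def I1Stmt : Prop := ∀ (G : Type u) [Group G] [Finite G] (K : Subgroup G) [K.Normal] (x : G),
  (∀ θ : K → ℂ, IsIrrCharacter K θ → x ∈ H14.inertia K θ) →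
  ∀ k ∈ K, ∃ h ∈ K, x * k * x⁻¹ = h * k * h⁻¹

def I2Stmt : Prop := ∀ (G : Type u) [Group G] [Finite G] (p : ℕ), p.Prime → ∀ (K : Subgroup G)
  [K.Normal] (x : G), (Nat.card K).Coprime p → (∃ m, x ^ p ^ m = 1) →
  (∀ k ∈ K, ∃ h ∈ K, x * k * x⁻¹ = h * k * h⁻¹) → x ∈ centralizer (K : Set G)

def MStmt : Prop := ∀ (G : Type u) [Group G] [Finite G] (p : ℕ), p.Prime → ∀ (K : Subgroup G)
  [K.Normal], (Nat.card K).Coprime p → (∃ k : ℕ, K.index = p ^ k) →
  (∀ g : G, Van g → ∃ m, orderOf g = p ^ m) → Loc p K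

def F1Stmt : Prop := ∀ (G : Type u) [Group G] [Finite G] (p : ℕ), p.Prime → ∀ (K : Subgroup G)
  [K.Normal], (Nat.card K).Coprime p → (∃ k : ℕ, K.index = p ^ k) → K ≠ ⊥ → Loc p K →
  (∃ x : G, (∃ m, x ^ p ^ m = 1) ∧ x ∉ center G) →
  IsPGroup p (center G) ∧ center G = pCore p G

def F2Stmt : Prop := ∀ (G : Type u) [Group G] [Finite G] (p : ℕ), p.Prime → ∀ (K : Subgroup G)
  [K.Normal], (Nat.card K).Coprime p → (∃ k : ℕ, K.index = p ^ k) → K ≠ ⊥ → Loc p K →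
  (∃ x : G, (∃ m, x ^ p ^ m = 1) ∧ x ∉ center G) → IsPGroup p (center G) →
  ∃ H : Subgroup (G ⧸ center G), IsFrobeniusComplement H ∧ IsPGroup p H

end Cfsg.Agent.H42.Vp
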