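import Mathlib
import Cfsg.Agent.H42.FvDefs

/-! Assembly of the vector stabiliser lemma from its pieces. -/

set_option autoImplicit false

namespace Cfsg.Agent.H42.Fv

open Equiv Cfsg.Lie H37 H40 H34 H29 Module H50.E83
open scoped Matrix

theorem fv_of (bor : BorStmt) (nf : NfStmt) (sa : SemiAStmt) (sb : SemiBStmt) (sc : SemiCStmt)
    (dv : DivStmt) (nil : NilStmt) (fx : FixHStmt) : FvStmt := by
  intro H hH hab h3 w hw hr hs
  obtain ⟨g₁, h1⟩ := bor w
  obtain ⟨u, -, hy⟩ := nf _ h1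
  rw [← act_mul] at hy
  set y := act (u * g₁) w with hyd
  have hw' : act (u * g₁)⁻¹ y = w := act_inv_act _ _
  have hf : frV (act (u * g₁)⁻¹ y) = act (u * g₁)⁻¹ y := by
    rw [hw']; exact funext hr
  by_cases hc : cp y = 0
  · refine h3 (nil H hH (u * g₁)⁻¹ y (fun r h => (hy r h).1) hc (fun e => hw ?_) hf (hw' ▸ hs))
    rw [← hw', e, map_zero]
  · obtain ⟨g, n, hn, e1, e2, e3, e4⟩ := sa _ y hy hf
    have e5 := sb H hH _ y hy hc (hw' ▸ hs)
    rw [← e2] at e5
    have h0 : Supp ∅ (cp y) := fun r h => h rfl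
    have e6 := sc H hab g n hn e1 (cp y) h0 hc e3 e5
    refine h3 (dv H g n hn e1 (Pos ∩ Psi y) Set.inter_subset_left (clo_pos.inter (clo_psi y))
      (fun r h => ⟨e4 r h, e3 r h.2⟩) e6.le fun m hm => (e5 m).2 ⟨1, ?_⟩)
    have := (fx _ h0).1 _ (Split.U_sub (mem_rat.1 hm) fun r h => h.2)
    rw [act_mul, act_mul] at this
    rw [one_smul, ← act_act_inv g (act (ι m) _), this]

end Cfsg.Agent.H42.Fv
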