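import Cfsg.Agent.H42.FvAsm
import Cfsg.Agent.H80.FvEnt
import Cfsg.Agent.H40.FvComm
import Cfsg.Agent.H34.FvStab
import Cfsg.Agent.H56.FvTact
import Cfsg.Agent.H95.FvNact2
import Cfsg.Agent.H27.FvFrob
import Cfsg.Agent.H28.FvReg
import Cfsg.Agent.H52.FvFixH
import Cfsg.Agent.H31.FvAlgInd
import Cfsg.Agent.H15.FvDom
import Cfsg.Agent.H72.FvPlace
import Cfsg.Agent.H94.FvIwa
import Cfsg.Agent.H59.FvBor
import Cfsg.Agent.H67.FvNf
import Cfsg.Agent.H47.FvTri
import Cfsg.Agent.H38.FvCen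
import Cfsg.Agent.H36.FvBdd0
import Cfsg.Agent.H32.FvLang
import Cfsg.Agent.H7.FvPos
import Cfsg.Agent.H37.FvCardA
import Cfsg.Agent.H16.FvCardB
import Cfsg.Agent.H82.FvDiv
import Cfsg.Agent.H1.FvLatt
import Cfsg.Agent.H85.FvCent
import Cfsg.Agent.H10.FvSemiA
import Cfsg.Agent.H81.FvSemiB
import Cfsg.Agent.H68.FvSemiC
import Cfsg.Agent.H5.FvAddR
import Cfsg.Agent.H64.FvPst
import Cfsg.Agent.H52.FvKr1
import Cfsg.Agent.H30.FvKr2
import Cfsg.Agent.H60.FvRat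
import Cfsg.Agent.H91.FvProp2
import Cfsg.Agent.H33.FvNil

/-! The vector stabiliser lemma for `E₈(3)`. -/

set_option autoImplicit false

namespace Cfsg.Agent.H42.Fv

theorem entS : EntStmt := H80.FvEnt.entS
theorem stabS : StabStmt := H34.FvS.stab entS
theorem fixH : FixHStmt := H52.FvFixH.fixH entS H56.FvTact.tact
theorem triS : TriStmt := H47.FvTri.tri entS H40.FvComm.filt
theorem cenS : CenStmt := H38.FvCen.cen triS stabS nact2
theorem langU : LangUStmt := H32.FvLang.langU H40.FvComm.filt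
theorem pstS : PstStmt := H64.FvPst.pst entS H56.FvTact.tact H5.FvAddR.addR
theorem nvgS : NvgStmt := H64.FvPst.nvg nact2

theorem borS : BorStmt :=
  H59.FvBor.bor (H15.FvDom.dom entS H28.FvR.reg H31.FvAlgInd.algInd) H72.FvPlace.place H94.FvIwa.iwa
    (H56.FvTact.bst stabS)

theorem cardB : CardBStmt :=
  H16.FvCardB.cardB (H37.FvCardA.cardA H40.FvComm.comm langU entS H28.FvR.reg stabS)

theorem divS : DivStmt := H82.FvDiv.div cardB H27.FvFrob.frob

theorem nilS : NilStmt :=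
  H33.FvNil.nil (H52.FvKr1.kr1 H5.FvAddR.addR H5.FvAddR.domR nvgS)
    (H30.FvKr2.kr2 H5.FvAddR.addR pstS nvgS)
    (H60.FvRat.rat triS H28.FvR.reg langU pstS nvgS H5.FvAddR.addR H27.FvFrob.frob)
    (H91.FvProp2.prop2 entS H5.FvAddR.addR) divS pstS H27.FvFrob.frob

theorem fv : FvStmt :=
  fv_of borS (H67.FvNf.nf entS stabS)
    (H10.FvSemiA.semiA cenS H27.FvFrob.frob nact2
      (H32.FvLang.lang0 (H36.FvBdd0.bdd0 H40.FvComm.comm)) H7.FvPos.pos fixH)
    (H81.FvSemiB.semiB cenS fixH (H28.FvR.line entS))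
    (H68.FvSemiC.semiC cenS (H85.FvCent.cent H1.FvLatt.latt) nact2 fixH H27.FvFrob.frob)
    divS nilS fixH

end Cfsg.Agent.H42.Fv
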