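import Cfsg.Agent.H44.K5Defs

set_option autoImplicit false

namespace Cfsg.Agent.H42.K5Nei

open Cfsg.Agent.H44.K5 Matrix

theorem sq8 (x : ℤ) : (x % 2 = 1 ∧ x ^ 2 % 8 = 1) ∨ (x % 2 = 0 ∧ (x ^ 2 % 8 = 0 ∨ x ^ 2 % 8 = 4)) := by
  have : x % 8 = 0 ∨ x % 8 = 1 ∨ x % 8 = 2 ∨ x % 8 = 3 ∨ x % 8 = 4 ∨ x % 8 = 5 ∨ x % 8 = 6 ∨
    x % 8 = 7 := by omega
  rcases this with h | h | h | h | h | h | h | h <;> simp [sq, Int.mul_emod, h] <;> omega

theorem row (uni : UniStmt) (p : ℤ) (hp : p % 2 = 1) (B A : Matrix (Fin 5) (Fin 5) ℤ)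
    (hd : B.det = p ^ 5) (hA : B * Bᵀ = (p ^ 2) • A) :
    ∃ α : Fin 5 → ℤ, (α ᵥ* B) 0 % 2 = 1 ∧ (α ᵥ* B) ⬝ᵥ (α ᵥ* B) = p ^ 2 := by
  have p0 : p ≠ 0 := by rintro rfl; omega
  have p2 : 0 < p ^ 2 := by positivity
  have hs : Aᵀ = A := by
    have : (p ^ 2) • Aᵀ = (p ^ 2) • A := by
      rw [← transpose_smul, ← hA, transpose_mul, transpose_transpose]
    exact smul_right_injective _ p2.ne' this
  have hB : B.det ≠ 0 := by rw [hd]; positivity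
  have hq : ∀ x : Fin 5 → ℤ, p ^ 2 * (x ⬝ᵥ A *ᵥ x) = (x ᵥ* B) ⬝ᵥ (x ᵥ* B) := by
    intro x
    rw [← smul_eq_mul, ← dotProduct_smul, ← smul_mulVec, ← hA, ← mulVec_mulVec, dotProduct_mulVec,
      mulVec_transpose]
  have hpos : ∀ x : Fin 5 → ℤ, x ≠ 0 → 0 < x ⬝ᵥ A *ᵥ x := by
    intro x hx
    have h1 : x ᵥ* B ≠ 0 := fun h => hx (eq_zero_of_vecMul_eq_zero hB h)
    have h2 : 0 < (x ᵥ* B) ⬝ᵥ (x ᵥ* B) :=
      lt_of_le_of_ne (Finset.sum_nonneg fun i _ => mul_self_nonneg _)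
        (fun h => h1 (dotProduct_self_eq_zero.1 h.symm))
    rw [← hq] at h2
    exact (mul_pos_iff_of_pos_left p2).1 h2
  have hdet : A.det = 1 := by
    have := congrArg det hA
    rw [det_mul, det_transpose, hd, det_smul, Fintype.card_fin] at this
    have h10 : (p ^ 2) ^ 5 ≠ 0 := by positivity
    apply mul_left_cancel₀ h10
    rw [← this]; ring
  obtain ⟨U, hU⟩ := uni 5 le_rfl A hs hpos hdet
  have hW : (Uᵀ * B) * (Uᵀ * B)ᵀ = (p ^ 2) • (1 : Matrix (Fin 5) (Fin 5) ℤ) := by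
    rw [transpose_mul, transpose_transpose, ← hU, Matrix.mul_assoc, ← Matrix.mul_assoc B, hA,
      Matrix.smul_mul, Matrix.mul_smul, Matrix.mul_assoc]
  obtain ⟨W, hWe⟩ : ∃ W, W = Uᵀ * B := ⟨_, rfl⟩
  rw [← hWe] at hW
  have hWd : W.det ≠ 0 := by
    intro h
    have := congrArg det hW
    rw [det_mul, h, zero_mul, det_smul, det_one, mul_one] at this
    exact (pow_ne_zero _ p2.ne') this.symm
  have hW' : Wᵀ * W = (p ^ 2) • (1 : Matrix (Fin 5) (Fin 5) ℤ) := by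
    have h1 : W * (Wᵀ * W) = W * ((p ^ 2) • (1 : Matrix (Fin 5) (Fin 5) ℤ)) := by
      rw [← Matrix.mul_assoc, hW, Matrix.smul_mul, Matrix.mul_smul, Matrix.one_mul, Matrix.mul_one]
    have h2 := congrArg (fun X => W.adjugate * X) h1
    simp only [← Matrix.mul_assoc, adjugate_mul] at h2
    simp only [Matrix.smul_mul, Matrix.one_mul] at h2
    exact smul_right_injective _ hWd h2
  have h0 := congrFun (congrFun hW' 0) 0
  simp [Matrix.mul_apply, Fin.sum_univ_five, ← sq] at h0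
  have hj : ∃ j, W j 0 % 2 = 1 := by
    by_contra hc
    push Not at hc
    have a0 := sq8 (W 0 0); have a1 := sq8 (W 1 0); have a2 := sq8 (W 2 0)
    have a3 := sq8 (W 3 0); have a4 := sq8 (W 4 0); have a5 := sq8 p
    have := hc 0; have := hc 1; have := hc 2; have := hc 3; have := hc 4
    omega
  obtain ⟨j, hj⟩ := hj
  have e : (Uᵀ j) ᵥ* B = W j := by
    funext i; rw [hWe]; rfl
  refine ⟨Uᵀ j, by rw [e]; exact hj, ?_⟩
  rw [e]
  have h1 := congrFun (congrFun hW j) j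
  simpa [Matrix.mul_apply, dotProduct] using h1

theorem zer (P j b c d e : ℤ) (h : P * (P * j) = (P * j) ^ 2 + b ^ 2 + c ^ 2 + d ^ 2 + e ^ 2) :
    b = 0 ∧ c = 0 ∧ d = 0 ∧ e = 0 := by
  have j1 : 0 ≤ j ^ 2 - j := by
    rcases le_or_gt j 0 with h | h <;> nlinarith
  have j0 : 0 ≤ P ^ 2 * (j ^ 2 - j) := mul_nonneg (sq_nonneg _) j1
  have s : b ^ 2 + c ^ 2 + d ^ 2 + e ^ 2 ≤ 0 := by nlinarith
  have := sq_nonneg b; have := sq_nonneg c; have := sq_nonneg d; have := sq_nonneg e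
  refine ⟨?_, ?_, ?_, ?_⟩ <;> apply pow_eq_zero_iff (n := 2) (by norm_num) |>.1 <;> linarith

set_option maxHeartbeats 1600000 in
theorem nei (uni : UniStmt) : NeiStmt := by
  intro p hp h2 x0 y z t hx hN
  have hpz : Prime (p : ℤ) := Nat.prime_iff_prime_int.1 hp
  have hodd : (p : ℤ) % 2 = 1 := by have := hp.eq_two_or_odd.resolve_left h2; omega
  obtain ⟨P, hP⟩ : ∃ P : ℤ, P = p := ⟨_, rfl⟩
  rw [← hP] at hx hN hpz hodd ⊢
  have n2 : ¬ P ∣ 2 := by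
    intro h
    rw [hP] at h
    exact h2 ((Nat.prime_dvd_prime_iff_eq hp Nat.prime_two).1 (by exact_mod_cast h))
  obtain ⟨m, hm⟩ := hN
  obtain ⟨i, k0, hi⟩ := (hpz.coprime_iff_not_dvd.2 fun h => (hpz.dvd_or_dvd h).elim n2 hx :
    IsCoprime P (2 * x0))
  obtain ⟨x, hxe⟩ : ∃ x, x = x0 - P * (m * k0) := ⟨_, rfl⟩
  obtain ⟨s, hs⟩ : ∃ s, 1 + x ^ 2 + y ^ 2 + z ^ 2 + t ^ 2 = P ^ 2 * s :=
    ⟨m * i + (m * k0) ^ 2, by rw [hxe]; linear_combination hm - P * m * hi⟩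
  obtain ⟨c, k, hc⟩ : ∃ c k, c * x = 1 + P * k :=
    ⟨2 * k0, -i - 2 * k0 * (m * k0), by rw [hxe]; linear_combination hi⟩
  obtain ⟨α, ho, hn⟩ := row uni P hodd
    !![P ^ 2, 0, 0, 0, 0; c + P * k * x, 1, c * y, c * z, c * t; -P * y, 0, P, 0, 0;
      -P * z, 0, 0, P, 0; -P * t, 0, 0, 0, P]
    !![P ^ 2, c + P * k * x, -P * y, -P * z, -P * t;
      c + P * k * x, c ^ 2 * s + k ^ 2 * (1 + x ^ 2), -k * x * y, -k * x * z, -k * x * t;
      -P * y, -k * x * y, 1 + y ^ 2, y * z, y * t; -P * z, -k * x * z, y * z, 1 + z ^ 2, z * t;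
      -P * t, -k * x * t, y * t, z * t, 1 + t ^ 2]
    (by simp [det_succ_row_zero, Fin.sum_univ_succ]; ring)
    (by
      ext a b
      fin_cases a <;> fin_cases b <;> simp [Matrix.mul_apply, Fin.sum_univ_five] <;>
        first | ring1 | linear_combination c ^ 2 * hs - (c * x + 1 - P * k) * hc)
  simp [vecMul, dotProduct, Fin.sum_univ_five] at ho hn
  obtain ⟨w0, e0⟩ : ∃ w, w = α 0 * P ^ 2 + α 1 * (c + P * k * x) + -(α 2 * (P * y)) +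
    -(α 3 * (P * z)) + -(α 4 * (P * t)) := ⟨_, rfl⟩
  obtain ⟨w2, e2⟩ : ∃ w, w = α 1 * (c * y) + α 2 * P := ⟨_, rfl⟩
  obtain ⟨w3, e3⟩ : ∃ w, w = α 1 * (c * z) + α 3 * P := ⟨_, rfl⟩
  obtain ⟨w4, e4⟩ : ∃ w, w = α 1 * (c * t) + α 4 * P := ⟨_, rfl⟩
  have hn' : w0 ^ 2 + α 1 ^ 2 + w2 ^ 2 + w3 ^ 2 + w4 ^ 2 = P ^ 2 := by
    rw [e0, e2, e3, e4]; linear_combination hn
  have ho' : w0 % 2 = 1 := by rw [e0]; exact ho
  have a0 := sq8 w0; have a1 := sq8 (α 1); have a2 := sq8 w2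
  have a3 := sq8 w3; have a4 := sq8 w4; have a5 := sq8 P
  obtain ⟨a, ha⟩ : ∃ a, P + w0 = 2 * a := ⟨(P + w0) / 2, by omega⟩
  obtain ⟨b, hb⟩ : ∃ b, α 1 = 2 * b := ⟨α 1 / 2, by omega⟩
  obtain ⟨d2, h2'⟩ : ∃ b, w2 = 2 * b := ⟨w2 / 2, by omega⟩
  obtain ⟨d3, h3'⟩ : ∃ b, w3 = 2 * b := ⟨w3 / 2, by omega⟩
  obtain ⟨d4, h4'⟩ : ∃ b, w4 = 2 * b := ⟨w4 / 2, by omega⟩
  obtain ⟨r, hr⟩ : ∃ r, w0 = α 1 * c + P * r :=
    ⟨α 0 * P + α 1 * k * x - α 2 * y - α 3 * z - α 4 * t, by rw [e0]; ring⟩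
  have hv : ∀ u : ℤ, P ∣ 2 * u → P ∣ u := fun u h => (hpz.dvd_or_dvd h).resolve_left n2
  have hdot : w0 + α 1 * x + w2 * y + w3 * z + w4 * t = P ^ 2 * (α 0 + α 1 * c * s) := by
    rw [e0, e2, e3, e4]; linear_combination α 1 * c * hs - α 1 * x * hc
  have d1 : P ∣ b - a * x := hv _ ⟨-α 1 * k - x - r * x, by
    linear_combination -hb + x * ha - x * hr - α 1 * hc⟩
  have d2' : P ∣ d2 - a * y := hv _ ⟨α 2 - y - r * y, by linear_combination -h2' + e2 + y * ha - y * hr⟩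
  have d3' : P ∣ d3 - a * z := hv _ ⟨α 3 - z - r * z, by linear_combination -h3' + e3 + z * ha - z * hr⟩
  have d4' : P ∣ d4 - a * t := hv _ ⟨α 4 - t - r * t, by linear_combination -h4' + e4 + t * ha - t * hr⟩
  have hw0 : w0 = 2 * a - P := by linear_combination ha
  have eq : P * a = a ^ 2 + b ^ 2 + d2 ^ 2 + d3 ^ 2 + d4 ^ 2 := by
    rw [hw0, hb, h2', h3', h4'] at hn'
    have : 4 * (P * a) = 4 * (a ^ 2 + b ^ 2 + d2 ^ 2 + d3 ^ 2 + d4 ^ 2) := by linear_combination -hn'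
    exact mul_left_cancel₀ (by norm_num) this
  refine ⟨a, b, d2, d3, d4, ?_, ?_, d2', d3', d4', eq⟩
  · rintro ⟨j, hj⟩
    have P0 : P ≠ 0 := hpz.ne_zero
    rw [hj] at eq
    obtain ⟨z1, z2, z3, z4⟩ := zer P j b d2 d3 d4 eq
    rw [hb, h2', h3', h4', z1, z2, z3, z4] at hn' hdot
    have u1 : P ^ 2 * (α 0) ^ 2 = 1 := by
      apply mul_left_cancel₀ (pow_ne_zero 2 P0)
      have : w0 = P ^ 2 * α 0 := by linear_combination hdot
      rw [this] at hn'; linear_combination hn'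
    exact hpz.not_unit (IsUnit.of_mul_eq_one (P * α 0 ^ 2) (by linear_combination u1))
  · have : b - a * x0 = (b - a * x) + P * (-(a * (m * k0))) := by rw [hxe]; ring
    rw [this]; exact dvd_add d1 (dvd_mul_right _ _)

end Cfsg.Agent.H42.K5Nei
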