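import Cfsg.Agent.H42.N7KA
import Cfsg.Agent.H42.N7KB1

/-! Case (b) of the action of `N(T₀)` on `Z` is impossible; `f ∈ X` in the cases (a), (c''). -/

set_option autoImplicit false
set_option linter.unusedSectionVars false

namespace Cfsg.Agent.H42.N60

open Subgroup H85 H42.N7
open H42.N3 (cn_comm comm_of_cn cn_mem mem_N_closure)

universe u

variable {G : Type u} [Group G]

theorem card_orbit (N : Subgroup G) (z : G) :
    {a | ∃ m ∈ N, cn z m = a}.ncard * Nat.card ↥(N ⊓ centralizer {z}) = Nat.card N := by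
  let _ := MulAction.compHom G ((MulAut.conj : G →* MulAut G).comp N.subtype)
  have e1 : MulAction.orbit N z = {a | ∃ m ∈ N, cn z m = a} := by
    ext a
    exact ⟨fun ⟨m, e⟩ => ⟨m.1⁻¹, inv_mem m.2, by rw [cn, inv_inv]; exact e⟩,
      fun ⟨m, hm, e⟩ => ⟨⟨m⁻¹, inv_mem hm⟩, by
        change m⁻¹ * z * m⁻¹⁻¹ = a
        rwa [inv_inv]⟩⟩
  have e2 : MulAction.stabilizer N z = (N ⊓ centralizer {z}).subgroupOf N := by
    ext m
    rw [MulAction.mem_stabilizer_iff, mem_subgroupOf, mem_inf, and_iff_right m.2,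
      mem_centralizer_singleton_iff, ← mul_inv_eq_iff_eq_mul]
    rfl
  rw [← e1, ← MulAction.index_stabilizer, ← index_mul_card (MulAction.stabilizer N z), e2,
    Nat.card_congr (subgroupOfEquivOfLe inf_le_left).toEquiv]

theorem cn_cn (x g k : G) : cn (cn x g) k = cn x (g * k) := by simp [cn, mul_assoc]

theorem isConj_cn (x g : G) : IsConj x (cn x g) := isConj_iff.2 ⟨g⁻¹, by simp [cn]⟩

/-- substitution of generators in the model -/
def M.sub (t f z a b x : M) : M := bp x.i t * bp x.j f * bp x.m z * (bp x.k a * bp x.l b)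

theorem cn_φ (h : Hyp G) {g : G} {t f z a b : M} (x : M) (ht : cn h.t g = φ h t)
    (hf : cn h.f g = φ h f) (hz : cn h.z g = φ h z) (ha : x.k = true → cn h.a g = φ h a)
    (hb : x.l = true → cn h.b g = φ h b) : cn (φ h x) g = φ h (M.sub t f z a b x) := by
  have k : ∀ (c : Bool) (y : G) (y' : M), (c = true → cn y g = φ h y') →
      cn (bp c y) g = φ h (bp c y') := fun c y y' e => by cases c <;> simp [bp, cn, ← e]
  rw [φ_apply]
  simp only [cn_mul, M.sub, map_mul, k _ _ _ ha, k _ _ _ hb, k _ _ _ fun _ => ht,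
    k _ _ _ fun _ => hf, k _ _ _ fun _ => hz]

theorem mem_Z (h : Hyp G) {x : M} (h1 : x.k = false) (h2 : x.l = false) : φ h x ∈ h.Z := by
  rw [φ_apply, h1, h2]
  exact mul_mem (mul_mem (mul_mem (bp_mem (subset_closure (by simp)) _)
    (bp_mem (subset_closure (by simp)) _)) (bp_mem (subset_closure (by simp)) _))
    (by simp [bp])

/-- the action of `r` on `E₁` -/
def M.ρ : M → M := M.sub M.t M.f M.a (M.a * M.z) 1

/-- the action of `s` on `E₂` -/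
def M.σ : M → M := M.sub M.t (M.f * M.z * M.b) M.b 1 (M.b * M.z)

theorem cn_r (h : Hyp G) {x : M} (hx : x.l = false) : cn (φ h x) h.r = φ h x.ρ :=
  cn_φ h x (by rw [cn_comm h.rt.symm, φ_t]) (by rw [cn_comm h.rf.symm, φ_f]) (by rw [h.zr, φ_a])
    (fun _ => by rw [h.ar, map_mul, φ_a, φ_z]) fun e => by simp [hx] at e

theorem cn_s (h : Hyp G) {x : M} (hx : x.k = false) : cn (φ h x) h.s = φ h x.σ :=
  cn_φ h x (by rw [cn_comm h.st.symm, φ_t]) (by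
    rw [map_mul, map_mul, φ_f, φ_z, φ_b, ← cn_comm h.sf.symm, ← h.zs, ← cn_mul, mul_assoc, h.zz,
      mul_one]) (by rw [h.zs, φ_b]) (fun e => by simp [hx] at e)
    fun _ => by rw [h.bs, map_mul, φ_b, φ_z]

/-- the conjugates of `t` in `T₀` in case (b) -/
def M.Om (x : M) : Prop := x = M.t ∨ x = M.t * M.f ∨ x = (M.t * M.f).σ ∨ x = (M.t * M.f).σ.σ

instance : DecidablePred M.Om := fun _ => inferInstanceAs (Decidable (_ ∨ _))

theorem om_of (h : RB G) {x : M} (hx : IsConj h.t (φ h.toHyp x)) : x.Om := by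
  have k : ∀ y : M, IsConj h.t (φ h.toHyp y) → y.k = false → y.l = false →
      y = M.t ∨ y = M.t * M.f := fun y hy h1 h2 => (h.DZ _ (mem_Z h.toHyp h1 h2) hy).imp
    (fun e => φ_inj h.toHyp (e.trans (φ_t _).symm))
    fun e => φ_inj h.toHyp (by rw [e, map_mul, φ_t, φ_f])
  have h1 : x * x = 1 := φ_inj h.toHyp (by
    obtain ⟨c, hc⟩ := isConj_iff.1 hx
    rw [map_mul, ← hc, conj_mul, h.tt, map_one, mul_one, mul_inv_cancel])
  have kr : ∀ y : M, y.l = false → IsConj h.t (φ h.toHyp y) → IsConj h.t (φ h.toHyp y.ρ) :=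
    fun y hy e => e.trans (cn_r h.toHyp hy ▸ isConj_cn _ _)
  have ks : ∀ y : M, y.k = false → IsConj h.t (φ h.toHyp y) → IsConj h.t (φ h.toHyp y.σ) :=
    fun y hy e => e.trans (cn_s h.toHyp hy ▸ isConj_cn _ _)
  rcases (by decide : ∀ x : M, x * x = 1 → (x.l = false ∧ x.ρ.l = false) ∨
    (x.k = false ∧ x.σ.k = false)) x h1 with ⟨h2, h3⟩ | ⟨h2, h3⟩
  · exact (by decide : ∀ x : M, x.l = false →
      (∀ y ∈ [x, x.ρ, x.ρ.ρ], y.k = false → y.l = false → y = M.t ∨ y = M.t * M.f) → x.Om) x h2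
      (by simpa using ⟨k _ hx, k _ (kr _ h2 hx), k _ (kr _ h3 (kr _ h2 hx))⟩)
  · exact (by decide : ∀ x : M, x.k = false →
      (∀ y ∈ [x, x.σ, x.σ.σ], y.k = false → y.l = false → y = M.t ∨ y = M.t * M.f) → x.Om) x h2
      (by simpa using ⟨k _ hx, k _ (ks _ h2 hx), k _ (ks _ h3 (ks _ h2 hx))⟩)

/-- a Sylow subgroup of `N(E₂)` is a Sylow subgroup of `G` -/
theorem b1 [Finite G] (h : RB G) (K : Kit h.toHyp) : h.s ∈ normalizer (h.E2 : Set G) ∧
    (∀ n ∈ normalizer (h.E2 : Set G), ∀ x : M, x.Om → ∃ y : M, y.Om ∧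
      cn (φ h.toHyp x) n = φ h.toHyp y) ∧
    ∃ Q : Subgroup G, IsSyl 2 Q ⊤ ∧ h.T0 ≤ Q ∧ h.y ∈ Q ∧ Q ≤ normalizer (h.E2 : Set G) ∧
      Nat.card Q = 128 := by
  set ψ := φ h.toHyp with hψ
  have inj : Function.Injective ψ := φ_inj h.toHyp
  have hT : h.T = h.T0 := (K.cT.resolve_right fun e => e.1 h.e1).2
  have mE : ∀ x : M, x.k = false → ψ x ∈ h.E2 := fun x hx => map_E2 h.toHyp ▸ mem_map_of_mem _ hx
  have tE : h.t ∈ h.E2 := subset_closure (by simp)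
  have hN0 : h.T0 ≤ normalizer (h.E2 : Set G) := by
    rw [← H42.N3.m_E1, ← H42.N3.m_T0]; exact H42.N3.T0_N _
  have hs : h.s ∈ normalizer (h.E2 : Set G) := by
    rw [← H42.N3.m_E1]; exact H42.N3.r_N (H42.N3.mirror h.toHyp)
  have hy : h.y ∈ normalizer (h.E2 : Set G) := mem_N_closure (by
    have hf : h.f ∈ h.E2 := subset_closure (by simp)
    have hz : h.z ∈ h.E2 := subset_closure (by simp)
    rintro x (rfl | rfl | rfl | rfl)
    · exact h.ty ▸ mul_mem tE hf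
    · change _ ∈ h.E2
      rw [zab h.toPre]
      simp only [cn_mul, show ∀ x : G, cn x⁻¹ h.y = (cn x h.y)⁻¹ by simp [cn, mul_assoc], h.by,
        cn_comm h.ya.symm]
      simpa [map_mul, hψ, φ_a, φ_b, φ_f, φ_z, mul_assoc] using
        mE (M.a⁻¹ * (M.b * M.f * M.z)⁻¹ * M.a * (M.b * M.f * M.z)) (by decide)
    · exact (cn_comm h.yf.symm).symm ▸ hf
    · exact h.by ▸ mul_mem (mul_mem (subset_closure (by simp)) hf) hz)
  have om : ∀ n ∈ normalizer (h.E2 : Set G), ∀ x : M, x.Om → IsConj h.t (ψ x) →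
      ∃ y : M, y.Om ∧ cn (ψ x) n = ψ y := fun n hn x hx hc => by
    obtain ⟨y, hy⟩ := (mem_T0 h.toHyp).1 (H42.N3.E2_T0 h.toHyp (cn_mem hn (mE x
      ((by decide : ∀ x : M, x.Om → x.k = false) x hx))))
    exact ⟨y, om_of h (hy ▸ hc.trans (isConj_cn _ _)), hy.symm⟩
  have tψ : ψ M.t = h.t := φ_t _
  have om1 : ∀ n ∈ normalizer (h.E2 : Set G), cn h.t n ∈ ψ '' {x | x.Om} := fun n hn => by
    obtain ⟨y, h1, h2⟩ := om n hn M.t (Or.inl rfl) (tψ ▸ IsConj.refl _)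
    exact ⟨y, h1, tψ ▸ h2.symm⟩
  have c4 : (ψ '' {x | x.Om}).ncard = 4 := by
    rw [Set.ncard_image_of_injective _ inj, ← Nat.card_coe_set_eq]
    exact (Nat.card_eq_fintype_card (α := {x : M // x.Om})).trans rfl
  have o1 : {a | ∃ m ∈ normalizer (h.E2 : Set G), cn h.t m = a} = ψ '' {x | x.Om} := by
    refine Set.Subset.antisymm (by rintro _ ⟨n, hn, rfl⟩; exact om1 n hn) ?_
    have e1 : cn h.t h.y = ψ (M.t * M.f) := by rw [h.ty, map_mul, φ_t, φ_f]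
    rintro _ ⟨x, rfl | rfl | rfl | rfl, rfl⟩
    · exact ⟨1, one_mem _, by simp [cn, tψ]⟩
    · exact ⟨_, hy, e1⟩
    · exact ⟨_, mul_mem hy hs, by rw [← cn_cn, e1, cn_s _ rfl]⟩
    · exact ⟨_, mul_mem (mul_mem hy hs) hs, by rw [← cn_cn, ← cn_cn, e1, cn_s _ rfl, cn_s _ rfl]⟩
  have p0 : IsPGroup 2 h.T0 := hT ▸ h.syl.isPGroup
  have cT : ∀ S : Subgroup G, IsPGroup 2 S → h.T0 ≤ S → S ⊓ centralizer {h.t} = h.T0 :=
    fun S hS h1 => hT ▸ h.syl.eq_of_le hS.to_inf_left (le_inf (hT ▸ h1) h.syl.le) inf_le_right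
  have oc : ∀ x : M, x.Om → IsConj h.t (ψ x) := fun x hx => by
    obtain ⟨n, -, e⟩ := o1.ge ⟨x, hx, rfl⟩
    exact e ▸ isConj_cn _ _
  refine ⟨hs, fun n hn x hx => om n hn x hx (oc x hx), ?_⟩
  have yT : h.y ∈ normalizer (h.T0 : Set G) := mem_N_closure (by
    have hf : h.f ∈ h.T0 := subset_closure (by simp)
    have ht : h.t ∈ h.T0 := subset_closure (by simp)
    rintro x (rfl | rfl | rfl | rfl)
    · exact h.ty ▸ mul_mem ht hf
    · exact (cn_comm h.yf.symm).symm ▸ hf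
    · exact (cn_comm h.ya.symm).symm ▸ subset_closure (by simp)
    · exact h.by ▸ mul_mem (mul_mem (subset_closure (by simp)) hf)
        (H42.N3.E2_T0 h.toHyp (subset_closure (by simp))))
  have p1 : IsPGroup 2 ↥(h.T0 ⊔ zpowers h.y) := IsPGroup.to_sup_of_normal_left' p0 (by
    obtain ⟨k, hk⟩ := p0 ⟨_, h.yy⟩
    have : orderOf h.y ∣ 2 ^ (k + 1) := orderOf_dvd_of_pow_eq_one (by
      rw [pow_succ', pow_mul, sq]; exact congrArg Subtype.val hk)
    obtain ⟨j, -, e⟩ := (Nat.dvd_prime_pow Nat.prime_two).1 this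
    exact IsPGroup.of_card (n := j) (by rw [Nat.card_zpowers, e])) (zpowers_le.2 yT)
  obtain ⟨Q, hQ, hQ1⟩ := exists_isSyl_ge p1 (sup_le hN0 (zpowers_le.2 hy))
  have hQ0 : h.T0 ≤ Q := le_sup_left.trans hQ1
  have n1 := card_orbit (normalizer (h.E2 : Set G)) h.t
  have n2 := card_orbit Q h.t
  rw [cT Q hQ.isPGroup hQ0, K.cT0] at n2
  rw [o1, c4] at n1
  have n3 : 2 ^ 7 ∣ Nat.card Q := by
    have := hQ.toSylow.pow_dvd_card_of_pow_dvd_card (n := 7) (n1 ▸ Nat.mul_dvd_mul_left 4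
      (K.cT0 ▸ card_dvd_of_le (le_inf hN0 (hT ▸ h.syl.le))))
    rwa [IsSyl.coe_toSylow, Nat.card_congr (subgroupOfEquivOfLe hQ.le).toEquiv] at this
  have sub : {a | ∃ m ∈ Q, cn h.t m = a} ⊆ ψ '' {x | x.Om} := by
    rintro _ ⟨n, hn, rfl⟩; exact om1 n (hQ.le hn)
  have n4 := Set.ncard_le_ncard sub
  have n5 := Nat.le_of_dvd Nat.card_pos n3
  have o2 := Set.eq_of_subset_of_ncard_le sub (by omega)
  obtain ⟨S, hS, hQS⟩ := exists_isSyl_ge hQ.isPGroup (le_top (a := Q))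
  have tQ : h.t ∈ Q := hQ0 (subset_closure (by simp))
  by_cases e : Q = S
  · exact ⟨Q, e ▸ hS, hQ0, hQ1 (mem_sup_right (mem_zpowers _)), hQ.le, by omega⟩
  exfalso
  obtain ⟨g, -, -, hg, -, hg'⟩ := K.climb Q S hS.isPGroup tQ (lt_of_le_of_ne hQS e) ((cT S hS.isPGroup (hQ0.trans hQS)).le.trans hQ0)
  set u := cn h.t g with hu
  have uQ : u ∈ Q := cn_mem hg tQ
  have tr : ∀ x : M, x.Om → ∃ q ∈ Q, cn h.t q = ψ x := fun x hx => o2.ge ⟨x, hx, rfl⟩
  have mv : ∀ x : M, x.Om → ∃ y : M, y.Om ∧ y ≠ x ∧ cn (ψ x) u = ψ y := fun x hx => by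
    obtain ⟨q, hq, e⟩ := tr x hx
    obtain ⟨y, h1, h2⟩ := om u (hQ.le uQ) x hx (e ▸ isConj_cn _ _)
    refine ⟨y, h1, fun e1 => ?_, h2⟩
    rw [e1, ← e] at h2
    obtain ⟨w, hw⟩ := (mem_T0 h.toHyp).1 ((cT Q hQ.isPGroup hQ0).le (mem_inf.2
      ⟨cn_mem (le_normalizer (inv_mem hq)) uQ, mem_centralizer_singleton_iff.2 (by
        simpa [cn, mul_assoc] using congrArg (fun v => q * v * q⁻¹) (comm_of_cn h2).symm)⟩))
    obtain ⟨q', hq', e'⟩ := tr w (om_of h (hw ▸ (isConj_cn _ g).trans (isConj_cn _ _)))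
    exact hg' _ (mul_mem hq' hq) (by rw [← cn_cn, e', hψ, hw, cn_cn, inv_mul_cancel]; simp [cn, hu])
  have bk : ∀ x y : M, x.k = false → cn (ψ x) u = ψ y →
      ∃ w : M, w.Om ∧ ψ w = h.t * cn (ψ (y⁻¹ * x)) g⁻¹ := fun x y hx e => by
    obtain ⟨w, h1, h2⟩ := om1 _ (hQ.le (cn_mem (inv_mem hg)
      (hQ0 (H42.N3.E2_T0 h.toHyp (mE x hx)))))
    refine ⟨w, h1, ?_⟩
    rw [h2, map_mul, map_inv, ← e, hu]
    simp [cn, mul_assoc]
  obtain ⟨t', ht1, ht2, ht3⟩ := mv M.t (Or.inl rfl)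
  have fin : ∀ x : M, x.Om → ∃ y : M, y.Om ∧ t' * y = M.t * x := fun x hx => by
    obtain ⟨y, h1, h2, h3⟩ := mv x hx
    have hx' := (by decide : ∀ x : M, x.Om → x.k = false) x hx
    obtain ⟨w1, a1, b1⟩ := bk _ _ rfl ht3
    obtain ⟨w2, a2, b2⟩ := bk _ _ hx' h3
    obtain ⟨w3, a3, b3⟩ := bk (M.t * x) (t' * y) (show (false ^^ x.k) = false by simpa using hx')
      (by rw [map_mul, cn_mul, ht3, h3, map_mul])
    have k : ∀ w c : M, ψ w = h.t * cn (ψ c) g⁻¹ → (w = M.t ↔ c = 1) := fun w c e => by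
      rw [← inj.eq_iff, e, tψ, mul_eq_left, ← inj.eq_iff, map_one]
      simp [cn]
    have e3 : w3 = w1 * M.t * w2 := inj (by
      rw [map_mul, map_mul, b1, b2, b3, tψ, mul_assoc _ h.t, ← mul_assoc h.t h.t, h.tt, one_mul,
        mul_assoc, ← cn_mul, ← map_mul, (by decide : ∀ x y t' : M, x.Om → y.Om → t'.Om →
          (t' * y)⁻¹ * (M.t * x) = t'⁻¹ * M.t * (y⁻¹ * x)) x y t' hx h1 ht1])
    refine ⟨y, h1, inv_mul_eq_one.1 ((k _ _ b3).1 ?_)⟩
    exact (by decide : ∀ a b : M, a.Om → b.Om → (a * M.t * b).Om → a ≠ M.t → b ≠ M.t →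
      a * M.t * b = M.t) w1 w2 a1 a2 (e3 ▸ a3) (fun e => ht2 (inv_mul_eq_one.1 ((k _ _ b1).1 e)))
      (fun e => h2 (inv_mul_eq_one.1 ((k _ _ b2).1 e))) ▸ e3
  exact ht2 ((by decide : ∀ t' : M, t'.Om → (∀ x : M, x.Om → ∃ y : M, y.Om ∧ t' * y = M.t * x) →
    t' = M.t) t' ht1 fin)

end Cfsg.Agent.H42.N60
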