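import Cfsg.Agent.H93.LT4Defs
import Cfsg.Agent.H36.LTS2

/-! A standard subgroup of type `A₇` in a group of sectional rank at most four: the interfaces
(`stubs/notes/h42_a7.md`).  The structures repeat those of `H93.LTDefs` on a new base. -/

set_option autoImplicit false

namespace Cfsg.Agent.H42.N7

open Subgroup Cfsg.Agent.H85 Equiv

export Cfsg.Agent.H93.LT (cn EA TrStmt)

universe u

/-- `N` acts on `A / Z(A) ≅ A₇` through `ρ` -/
structure Rho {G : Type u} [Group G] (A N : Subgroup G) (ρ : G → Perm (Fin 7)) : Prop where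
  AN : A ≤ N
  nrm : N ≤ normalizer (A : Set G)
  perf : ⁅A, A⁆ = A
  mul : ∀ c ∈ N, ∀ d ∈ N, ρ (c * d) = ρ c * ρ d
  ker : ∀ c ∈ N, ρ c = 1 ↔ c ∈ centralizer (A : Set G)
  sgn : ∀ a ∈ A, Perm.sign (ρ a) = 1
  srj : ∀ σ : Perm (Fin 7), Perm.sign σ = 1 → ∃ a ∈ A, ρ a = σ
  odd : ∀ a ∈ A, ρ a = 1 → Odd (orderOf a)

/-- `G = X⟨t⟩`, `X` simple of sectional rank at most `4`, `A ⊴ C(t)`, `⟨t⟩` Sylow in `C(A) ∩ C(t)` -/
structure Base (G : Type u) [Group G] where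
  X : Subgroup G
  t : G
  Xn : X.Normal
  Xs : IsSimpleGroup X
  Xa : ¬ IsMulCommutative X
  X4 : Cfsg.SectionalPRankLE 2 4 X
  XG : X ⊔ zpowers t = ⊤
  tt : t * t = 1
  t1 : t ≠ 1
  A : Subgroup G
  ρ : G → Perm (Fin 7)
  rho : Rho A (centralizer {t}) ρ
  two : ∀ Q : Subgroup G, IsPGroup 2 Q → Q ≤ centralizer {t} → ∀ c ∈ Q, ρ c = 1 → c = 1 ∨ c = t
  AX : A ≤ X
  nc : ¬ X ≤ centralizer {t}

/-- the Sylow subgroup `T = ⟨t, f, a, b, e⟩` of `C(t)` with its fusion; `e = 1` when `|T| = 32` -/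
structure Pre (G : Type u) [Group G] extends Base G where
  L : Subgroup G
  T : Subgroup G
  f : G
  a : G
  b : G
  z : G
  e : G
  r : G
  s : G
  aa : a * a = 1
  bb : b * b = 1
  zz : z * z = 1
  z1 : z ≠ 1
  ab : cn a b = a * z
  za : Commute z a
  zb : Commute z b
  ta : Commute t a
  tb : Commute t b
  tf : Commute t f
  te : Commute t e
  fa : Commute f a
  fb : Commute f b
  ff' : f * f = 1 ∨ f * f = t
  he' : e = 1 ∨ (cn a e = b ∧ cn b e = a ∧ (cn f e = f * z ∨ cn f e = f * z * t) ∧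
    (e * e = 1 ∨ e * e = t))
  hT : T = closure {t, f, a, b, e}
  syl : IsSyl 2 T (centralizer {t})
  LC : L ≤ centralizer {t}
  Ln : centralizer {t} ≤ normalizer (L : Set G)
  LiT : L ⊓ T = closure {a, b}
  tL : t ∉ L
  fL : f ∉ L
  tfL : t * f ∉ L
  CL : ∀ c ∈ centralizer ({t} : Set G), ∃ l ∈ L, ∃ u ∈ T, c = l * u
  rt : Commute r t
  rf : Commute r f
  zr : cn z r = a
  ar : cn a r = a * z
  ro : Odd (orderOf r)
  st : Commute s t
  sf : Commute s (f * z)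
  zs : cn z s = b
  bs : cn b s = b * z
  so : Odd (orderOf s)

/-- the main case `T₀ = ⟨t⟩ × ⟨f⟩ × D₈` -/
structure Hyp (G : Type u) [Group G] extends Pre G where
  ff : f * f = 1
  he : e = 1 ∨ (cn a e = b ∧ cn b e = a ∧ cn f e = f * z ∧ (e * e = 1 ∨ e * e = t))

namespace Pre

variable {G : Type u} [Group G] (h : Pre G)

def D0 : Subgroup G := closure {h.a, h.b}
def P : Subgroup G := closure {h.z, h.f}
def Z : Subgroup G := closure {h.t, h.z, h.f}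
def V1 : Subgroup G := closure {h.z, h.a}
def V2 : Subgroup G := closure {h.z, h.b}
def W1 : Subgroup G := closure {h.z, h.f, h.a}
def W2 : Subgroup G := closure {h.z, h.f, h.b}
def E1 : Subgroup G := closure {h.t, h.z, h.f, h.a}
def E2 : Subgroup G := closure {h.t, h.z, h.f, h.b}
def T0 : Subgroup G := closure {h.t, h.f, h.a, h.b}

/-- `n` normalises `E₁` and `E₂` -/
def N0 (n : G) : Prop := n ∈ normalizer (h.E1 : Set G) ∧ n ∈ normalizer (h.E2 : Set G)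

end Pre

/-- the standard facts about `C(t)` -/
structure Kit {G : Type u} [Group G] (h : Hyp G) : Prop where
  aX : h.a ∈ h.X ∧ h.b ∈ h.X ∧ h.z ∈ h.X
  odX : ∀ x : G, Odd (orderOf x) → x ∈ h.X
  sqX : ∀ x : G, x * x ∈ h.X
  cmX : ∀ x y : G, x⁻¹ * y⁻¹ * x * y ∈ h.X
  muX : ∀ x y : G, x ∉ h.X → y ∉ h.X → x * y ∈ h.X
  cT0 : Nat.card h.T0 = 32
  cT : (h.e = 1 ∧ h.T = h.T0) ∨ (h.e ≠ 1 ∧ h.e ∉ h.T0 ∧ Nat.card h.T = 64)
  cE : Nat.card h.E1 = 16 ∧ Nat.card h.E2 = 16 ∧ EA h.E1 ∧ EA h.E2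
  big : ∃ u ∈ h.Z, u ≠ h.t ∧ IsConj h.t u
  zD : ¬ IsConj h.t h.z
  /-- fusion in `C(t)` -/
  pi : ∀ c ∈ centralizer ({h.t} : Set G), ∀ u ∈ h.T, cn u c ∈ h.T → u⁻¹ * cn u c ∈ h.D0
  /-- a `2`-subgroup centralising a conjugate of `t` is conjugate into `T` -/
  into : ∀ (u : G) (R : Subgroup G), IsConj h.t u → IsPGroup 2 R → R ≤ centralizer {u} →
    ∃ g : G, cn u g = h.t ∧ ∀ x ∈ R, cn x g ∈ h.T
  j16 : ∀ E : Subgroup G, E ≤ h.T → EA E → 16 ≤ Nat.card E → E = h.E1 ∨ E = h.E2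
  aut1 : ∀ c ∈ centralizer ({h.t} : Set G), c ∈ normalizer (h.E1 : Set G) →
    ∃ w ∈ closure ({h.b, h.r} : Set G), ∀ x ∈ h.E1, cn x c = cn x w
  aut2 : ∀ c ∈ centralizer ({h.t} : Set G), c ∈ normalizer (h.E2 : Set G) →
    ∃ w ∈ closure ({h.a, h.s} : Set G), ∀ x ∈ h.E2, cn x c = cn x w
  sylE1 : IsSyl 2 h.E1 (centralizer (h.E1 : Set G))
  sylE2 : IsSyl 2 h.E2 (centralizer (h.E2 : Set G))
  /-- a `2`-group containing `T₀` meets `C(t)` in `T₀` or in a conjugate of `T` -/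
  cT2 : ∀ R : Subgroup G, IsPGroup 2 R → h.T0 ≤ R → R ≤ centralizer {h.t} → R = h.T0 ∨
    (h.e ≠ 1 ∧ Nat.card R = 64 ∧ ∃ c ∈ R, cn h.a c = h.b ∧ cn h.b c = h.a ∧ cn h.f c = h.f * h.z)
  /-- `N_H(T₀) = T · O`, `O` the odd part of `C(T₀)` -/
  nT0 : ∃ O : Subgroup G, Odd (Nat.card O) ∧ O ≤ centralizer (h.T0 : Set G) ∧
    normalizer (h.T0 : Set G) ≤ normalizer (O : Set G) ∧
    ∀ c ∈ centralizer ({h.t} : Set G), c ∈ normalizer (h.T0 : Set G) →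
      ∃ u ∈ h.T, ∃ o ∈ O, c = u * o
  trZ : ∀ u ∈ h.Z, IsConj h.t u → ∃ n ∈ normalizer (h.T0 : Set G), cn h.t n = u
  tr1 : ∀ n ∈ normalizer (h.E1 : Set G), cn h.t n ∈ h.Z → ∃ m, h.N0 m ∧ cn h.t m = cn h.t n
  tr2 : ∀ n ∈ normalizer (h.E2 : Set G), cn h.t n ∈ h.Z → ∃ m, h.N0 m ∧ cn h.t m = cn h.t n
  /-- climbing -/
  climb : ∀ Q S : Subgroup G, IsPGroup 2 S → h.t ∈ Q → Q < S → S ⊓ centralizer {h.t} ≤ Q →
    ∃ g ∈ S, g ∉ Q ∧ g ∈ normalizer (Q : Set G) ∧ g * g ∈ Q ∧ ∀ q ∈ Q, cn h.t g ≠ cn h.t q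
  /-- transfer in `G` on elements of `X` -/
  trG : ∀ (S N B : Subgroup G) (u : G), IsSyl 2 S ⊤ → N ≤ S →
    (∀ x ∈ S, ∀ y ∈ S, x⁻¹ * y⁻¹ * x * y ∈ N) → u ∈ h.X → u * u = 1 → u ∈ S → u ∈ B →
    IsPGroup 2 B → B ≤ centralizer {u} → (∀ g : G, (∀ x ∈ B, cn x g ∈ S) → u⁻¹ * cn u g ∈ N) →
    u ∈ N
  /-- transfer in `X` -/
  trX : ∀ (S N B : Subgroup G) (u : G), IsSyl 2 S h.X → N ≤ S →
    (∀ x ∈ S, ∀ y ∈ S, x⁻¹ * y⁻¹ * x * y ∈ N) → u * u = 1 → u ∈ S → u ∈ B → B ≤ h.X →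
    IsPGroup 2 B → B ≤ centralizer {u} →
    (∀ g ∈ h.X, (∀ x ∈ B, cn x g ∈ S) → u⁻¹ * cn u g ∈ N) → u ∈ N
  /-- Thompson: no extremal conjugate of `t` in `N`; the kernel of the transfer is `X` -/
  trT : ∀ S N : Subgroup G, IsSyl 2 S ⊤ → N ≤ S → N.relIndex S = 2 →
    (∀ g : G, (∀ x ∈ h.T, cn x g ∈ S) → cn h.t g ∉ N) → h.t ∉ h.X ∧
      ∀ (u : G) (B : Subgroup G), u * u = 1 → u ∈ B → IsPGroup 2 B → B ≤ centralizer {u} →
        (∀ g : G, (∀ x ∈ B, cn x g ∈ S) → cn u g ∈ N) → u ∈ h.X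
  sylX : ∀ S : Subgroup G, IsSyl 2 S ⊤ → IsSyl 2 (S ⊓ h.X) h.X

def KitStmt : Prop := ∀ (G : Type u) [Group G] [Finite G] (h : Hyp G), Kit h

/-- the fields of `Kit` that need only the model of `T`, Sylow's theorem and transfer -/
structure KitA {G : Type u} [Group G] (h : Hyp G) : Prop where
  aX : h.a ∈ h.X ∧ h.b ∈ h.X ∧ h.z ∈ h.X
  odX : ∀ x : G, Odd (orderOf x) → x ∈ h.X
  sqX : ∀ x : G, x * x ∈ h.X
  cmX : ∀ x y : G, x⁻¹ * y⁻¹ * x * y ∈ h.X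
  muX : ∀ x y : G, x ∉ h.X → y ∉ h.X → x * y ∈ h.X
  cT0 : Nat.card h.T0 = 32
  cT : (h.e = 1 ∧ h.T = h.T0) ∨ (h.e ≠ 1 ∧ h.e ∉ h.T0 ∧ Nat.card h.T = 64)
  cE : Nat.card h.E1 = 16 ∧ Nat.card h.E2 = 16 ∧ EA h.E1 ∧ EA h.E2
  big : ∃ u ∈ h.Z, u ≠ h.t ∧ IsConj h.t u
  zD : ¬ IsConj h.t h.z
  /-- fusion in `C(t)` -/
  pi : ∀ c ∈ centralizer ({h.t} : Set G), ∀ u ∈ h.T, cn u c ∈ h.T → u⁻¹ * cn u c ∈ h.D0
  /-- a `2`-subgroup centralising a conjugate of `t` is conjugate into `T` -/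
  into : ∀ (u : G) (R : Subgroup G), IsConj h.t u → IsPGroup 2 R → R ≤ centralizer {u} →
    ∃ g : G, cn u g = h.t ∧ ∀ x ∈ R, cn x g ∈ h.T
  j16 : ∀ E : Subgroup G, E ≤ h.T → EA E → 16 ≤ Nat.card E → E = h.E1 ∨ E = h.E2
  /-- climbing -/
  climb : ∀ Q S : Subgroup G, IsPGroup 2 S → h.t ∈ Q → Q < S → S ⊓ centralizer {h.t} ≤ Q →
    ∃ g ∈ S, g ∉ Q ∧ g ∈ normalizer (Q : Set G) ∧ g * g ∈ Q ∧ ∀ q ∈ Q, cn h.t g ≠ cn h.t q
  /-- transfer in `G` on elements of `X` -/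
  trG : ∀ (S N B : Subgroup G) (u : G), IsSyl 2 S ⊤ → N ≤ S →
    (∀ x ∈ S, ∀ y ∈ S, x⁻¹ * y⁻¹ * x * y ∈ N) → u ∈ h.X → u * u = 1 → u ∈ S → u ∈ B →
    IsPGroup 2 B → B ≤ centralizer {u} → (∀ g : G, (∀ x ∈ B, cn x g ∈ S) → u⁻¹ * cn u g ∈ N) →
    u ∈ N
  /-- transfer in `X` -/
  trX : ∀ (S N B : Subgroup G) (u : G), IsSyl 2 S h.X → N ≤ S →
    (∀ x ∈ S, ∀ y ∈ S, x⁻¹ * y⁻¹ * x * y ∈ N) → u * u = 1 → u ∈ S → u ∈ B → B ≤ h.X →
    IsPGroup 2 B → B ≤ centralizer {u} →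
    (∀ g ∈ h.X, (∀ x ∈ B, cn x g ∈ S) → u⁻¹ * cn u g ∈ N) → u ∈ N
  /-- Thompson: no extremal conjugate of `t` in `N`; the kernel of the transfer is `X` -/
  trT : ∀ S N : Subgroup G, IsSyl 2 S ⊤ → N ≤ S → N.relIndex S = 2 →
    (∀ g : G, (∀ x ∈ h.T, cn x g ∈ S) → cn h.t g ∉ N) → h.t ∉ h.X ∧
      ∀ (u : G) (B : Subgroup G), u * u = 1 → u ∈ B → IsPGroup 2 B → B ≤ centralizer {u} →
        (∀ g : G, (∀ x ∈ B, cn x g ∈ S) → cn u g ∈ N) → u ∈ h.X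
  sylX : ∀ S : Subgroup G, IsSyl 2 S ⊤ → IsSyl 2 (S ⊓ h.X) h.X

def KitAStmt : Prop := ∀ (G : Type u) [Group G] [Finite G] (h : Hyp G), KitA h

def KitBStmt : Prop := ∀ (G : Type u) [Group G] [Finite G] (h : Hyp G), KitA h → Kit h

theorem kit_of (a : KitAStmt.{u}) (b : KitBStmt.{u}) : KitStmt.{u} :=
  fun G _ _ h => b G h (a G h)

/-- cases (a) (`g = e`) and (c'') (`g` interchanges `E₁` and `E₂`) -/
structure RA (G : Type u) [Group G] extends Hyp G where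
  x : G
  g : G
  tx : cn t x = t * z
  xf : Commute x f
  xa : Commute x a
  xb : Commute x b
  xP : x * x ∈ toPre.P
  orb : ∀ n, toPre.N0 n → cn t n = t ∨ cn t n = t * z
  alt : (g = e ∧ ∀ u ∈ toPre.Z, IsConj t u → u = t ∨ u = t * z) ∨
    (e = 1 ∧ cn a g = b ∧ cn b g = a ∧ cn f g = f * z ∧ cn t g = t * f * z ∧
      ∀ u ∈ toPre.P, ¬ IsConj t u)
  xg : cn x g ∈ closure {t, f, a, b, x}
  gg : g * g ∈ closure {t, f, a, b, x}

/-- case (b) -/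
structure RB (G : Type u) [Group G] extends Hyp G where
  y : G
  e1 : e = 1
  ty : cn t y = t * f
  yf : Commute y f
  ya : Commute y a
  «by» : cn b y = b * f * z
  yy : y * y ∈ toPre.T0
  DZ : ∀ u ∈ toPre.Z, IsConj t u → u = t ∨ u = t * f

/-- case (c) -/
structure RC (G : Type u) [Group G] extends Hyp G where
  y : G
  Y : G
  ty : cn t y = t * f
  tY : cn t Y = t * f * z
  yf : Commute y f
  Yf : Commute Y f
  yz : Commute y z
  Yz : Commute Y z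
  ya : Commute y a
  Yb : Commute Y b
  aY : cn a Y = a ∨ cn a Y = a * f
  «by» : cn b y = b ∨ cn b y = b * f * z
  yy : y * y ∈ toPre.P
  YY : Y * Y ∈ toPre.P
  yY : y⁻¹ * Y⁻¹ * y * Y ∈ toPre.Z
  ye : e ≠ 1 → cn y e = Y
  DP : ∀ u ∈ toPre.P, ¬ IsConj t u

/-- the data the conclusion depends on agree -/
def Same {G : Type u} [Group G] (h k : Hyp G) : Prop := k.X = h.X ∧ k.t = h.t ∧ k.T = h.T

def SigStmt : Prop :=
  ∀ (G : Type u) [Group G] [Finite G] (h : Hyp G), (∃ k : RA G, Same h k.toHyp) ∨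
    (∃ k : RB G, Same h k.toHyp) ∨ ∃ k : RC G, Same h k.toHyp

/-- both sides act by translations: (a), (c'') with `y = 1`, or (c) -/
structure TT (G : Type u) [Group G] extends Hyp G where
  x : G
  y : G
  g : G
  m : G
  w : G
  n : G
  tx : cn t x = t * z
  xx : x * x = 1
  xf : Commute x f
  xa : Commute x a
  xb : Commute x b
  yy : y * y = 1
  yf : Commute y f
  ya : Commute y a
  yb : Commute y b
  wx : x⁻¹ * w ∈ toPre.P
  alt : (y = 1 ∧ g = e ∧ ∀ u ∈ toPre.Z, IsConj t u → u = t ∨ u = t * z) ∨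
    (y = 1 ∧ e = 1 ∧ cn a g = b ∧ cn b g = a ∧ cn f g = f * z ∧ cn t g = t * f * z ∧
      (∀ u ∈ toPre.P, ¬ IsConj t u) ∧ ∀ c, toPre.N0 c → cn t c = t ∨ cn t c = t * z) ∨
    (cn t y = t * f ∧ g = e ∧ ∀ u ∈ toPre.P, ¬ IsConj t u)
  xg : cn x g ∈ closure {t, f, a, b, x, y}
  yg : cn y g ∈ closure {t, f, a, b, x, y}
  gg : g * g ∈ closure {t, f, a, b, x, y}
  fX : True
  tm : cn t m = t * a
  mf : Commute m f
  mz : Commute m z
  ma : Commute m a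
  tn : cn t n = t * b
  nf : Commute n f
  nz : Commute n z
  nb : Commute n b

/-- type E on both sides: `K₁ = ⟨z, f, a, x, y, m⟩` and `K₂ = ⟨z, f, b, x, y, n⟩` are elementary -/
structure EE0 (G : Type u) [Group G] extends TT G where
  xy : Commute x y
  mm : m * m = 1
  mx : Commute m x
  my : Commute m y
  bm : cn b m = b * x
  xr : cn x r = m
  mr : cn m r = x * m
  yr : Commute r y
  nn : n * n = 1
  nx : Commute n x
  ny : Commute n y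
  an : cn a n = a * w
  ws : cn w s = n
  ns : cn n s = w * n
  ys : y⁻¹ * cn y s ∈ closure {z, b, w, n}
  sw : g ≠ 1 → cn x g = w ∧ cn m g = n ∧ cn r g = s

structure EE (G : Type u) [Group G] extends EE0 G where
  mn : m * n * m * n ∈ closure {z, f, x, y}

/-- type H on both sides: `t` inverts `K₁ = ⟨z, f, a, x t, y t, m⟩` (no `y t` if `y = 1`) -/
structure HH (G : Type u) [Group G] extends TT G where
  xy : y ≠ 1 → cn x y = x * f * z
  mm : m * m = a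
  xm : cn x m = x * a
  ym : y ≠ 1 → cn y m = y * a
  mb : cn m b = (x * t * m)⁻¹
  xr : cn (x * t) r = m
  mr : cn m r = (x * t * m)⁻¹
  yr : Commute r y
  nn : n * n = b
  xn : cn x n = x * b
  yn : y ≠ 1 → cn y n = y * b
  na : cn n a = (w * t * n)⁻¹
  ws : cn (w * t) s = n
  ns : cn n s = (w * t * n)⁻¹
  ys : y ≠ 1 → ∃ p ∈ toPre.P, Commute s (y * x * t * p)

/-- type X on both sides -/
structure XX (G : Type u) [Group G] extends Hyp G where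
  y : G
  Y : G
  m : G
  n : G
  ty : cn t y = t * f
  tY : cn t Y = t * f * z
  yf : Commute y f
  Yf : Commute Y f
  yz : Commute y z
  Yz : Commute Y z
  ya : Commute y a
  Yb : Commute Y b
  aY : cn a Y = a * f
  «by» : cn b y = b * f * z
  yy : y * y = 1
  YY : Y * Y = 1
  yY : cn y Y = y * z
  ye : e ≠ 1 → cn y e = Y ∧ cn m e = n
  DP : ∀ u ∈ toPre.P, ¬ IsConj t u
  mm : m * m = 1
  zm : cn z m = z * f
  mf : Commute m f
  ma : Commute m a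
  tm : cn t m = t * f * a
  ym : cn y m = a * y
  mY : Commute m Y
  bm : cn b m = b * Y ∨ cn b m = f * b * Y
  mY' : IsConj Y m
  nn : n * n = 1
  zn : cn z n = f
  nb : Commute n b
  tn : cn t n = t * f * z * b
  an : (a * y)⁻¹ * cn a n ∈ toPre.P
  yn : y⁻¹ * cn y n ∈ toPre.P
  Yn : (b * Y)⁻¹ * cn Y n ∈ toPre.P

/-- type T (quaternion) on side 1, type X on side 2 -/
structure TQ0 (G : Type u) [Group G] extends Hyp G where
  y : G
  Y : G
  m : G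
  n : G
  e1 : e = 1
  ty : cn t y = t * f
  tY : cn t Y = t * f * z
  yf : Commute y f
  Yf : Commute Y f
  yz : Commute y z
  Yz : Commute Y z
  ya : Commute y a
  Yb : Commute Y b
  Ya : Commute Y a
  «by» : cn b y = b * f * z
  yy : y * y = 1
  YY : Y * Y = 1
  yY : cn y Y = y * f
  DP : ∀ u ∈ toPre.P, ¬ IsConj t u
  mm : m * m = f * a
  mz : Commute m z
  mf : Commute m f
  ma : Commute m a
  my : Commute m y
  tm : cn t m = a * t
  Ym : cn Y m = f * a * Y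
  bm : cn b m = b * t * y * Y
  yr : Commute r (y * a) ∨ Commute r (y * a * z)
  rU : r ∈ normalizer ((closure {z, f, a, y, y * Y * t, m} : Subgroup G) : Set G)
  nn : n * n = 1
  zn : cn z n = f
  nb : Commute n b
  ny : Commute n y
  tn : cn t n = z * f * b * t
  an : cn a n = a * y
  Yn : cn Y n = b * Y
  nX : n ∈ X

def NAStmt : Prop :=
  ∀ (G : Type u) [Group G] [Finite G], RA G → (∃ k : EE0 G, k.y = 1) ∨ ∃ k : HH G, k.y = 1

def NCStmt : Prop :=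
  ∀ (G : Type u) [Group G] [Finite G] (h : RC G),
    (∃ k : EE0 G, Same h.toHyp k.toHyp) ∨ (∃ k : HH G, Same h.toHyp k.toHyp) ∨
      (∃ k : XX G, Same h.toHyp k.toHyp) ∨ ∃ k : TQ0 G, Same h.toHyp k.toHyp

def AlEStmt : Prop :=
  ∀ (G : Type u) [Group G] [Finite G] (h : EE0 G), ∃ k : EE G, Same h.toHyp k.toHyp ∧ k.y = h.y

/-- the odd part of the centraliser of a `2`-group over `T₀` -/
def O1Stmt : Prop :=
  ∀ (G : Type u) [Group G] [Finite G] (h : Hyp G) (Q : Subgroup G), IsPGroup 2 Q → h.T0 ≤ Q →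
    Q ≤ normalizer (h.T0 : Set G) → h.T ≤ normalizer (Q : Set G) →
    ∃ O : Subgroup G, Odd (Nat.card O) ∧ O ≤ centralizer (Q : Set G) ∧
      normalizer (Q : Set G) ≤ normalizer (O : Set G) ∧
      (∀ c ∈ centralizer (Q : Set G), ∃ u ∈ Q, ∃ o ∈ O, c = u * o) ∧
      ∀ c ∈ centralizer ({h.t} : Set G), c ∈ normalizer (Q : Set G) →
        c ∈ normalizer (h.T0 : Set G) → ∃ u ∈ h.T, ∃ o ∈ O, c = u * o

namespace TT

variable {G : Type u} [Group G] (h : TT G)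

def T1 : Subgroup G := closure {h.t, h.f, h.a, h.b, h.x, h.y}
def ZU : Subgroup G := closure {h.z, h.f, h.x, h.y}
def K1 : Subgroup G := closure {h.z, h.f, h.x, h.y, h.a, h.m}
def K2 : Subgroup G := closure {h.z, h.f, h.x, h.y, h.b, h.n}
def U : Subgroup G := closure {h.z, h.f, h.x, h.y, h.a, h.b, h.m, h.n}
def U0 : Subgroup G := closure {h.a, h.b, h.m, h.n}
def T2 : Subgroup G := closure {h.z, h.f, h.x, h.y, h.a, h.b, h.m, h.n, h.t}
def T3 : Subgroup G := closure {h.z, h.f, h.x, h.y, h.a, h.b, h.m, h.n, h.t, h.g}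
/-- `R = K⟨t⟩` in type H -/
def R : Subgroup G := closure {h.z, h.f, h.a, h.x, h.y, h.m, h.t}

end TT

/-- large elementary subgroups of `S` lie in `U` -/
def TT.Big {G : Type u} [Group G] (h : TT G) (S : Subgroup G) : Prop :=
  ∀ A : Subgroup G, A ≤ S → EA A → Nat.card h.K1 ≤ Nat.card A → A ≤ h.U

/-- the basic facts on `U` -/
def EUStmt : Prop :=
  ∀ (G : Type u) [Group G] [Finite G] (h : EE G),
    (∀ u ∈ h.U, ¬ IsConj h.t u) ∧
    (∀ u ∈ h.U, (h.t * u) * (h.t * u) = 1 → ∃ v ∈ h.U, cn h.t v = h.t * u ∨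
      (h.y = 1 ∧ cn (h.t * h.f) v = h.t * u)) ∧
    ((h.y = 1 ∧ Nat.card h.K1 = 32 ∧ Nat.card h.U = 128) ∨
      (h.y ≠ 1 ∧ Nat.card h.K1 = 64 ∧ Nat.card h.U = 256)) ∧
    IsPGroup 2 h.T3 ∧ h.T3 ≤ normalizer (h.U : Set G) ∧ h.Big h.T2 ∧
    h.U ⊓ centralizer (h.U : Set G) = h.ZU ∧ h.T ≤ h.T3

/-! ### Type HH -/

namespace TT

variable {G : Type u} [Group G] (h : TT G)

open Classical in
/-- `y t`, or `1` if `y = 1` -/
noncomputable def κ : G := if h.y = 1 then 1 else h.y * h.t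

/-- `K = 4 × 4 × 2` or `4 × 4 × 4` -/
noncomputable def K : Subgroup G := closure {h.z, h.f, h.a, h.x * h.t, h.m, h.κ}

end TT

/-- elements of `N(R)` fixing the point `t W₁` -/
def SPStmt : Prop :=
  ∀ (G : Type u) [Group G] [Finite G] (h : HH G), ∀ c ∈ normalizer (h.R : Set G),
    h.t⁻¹ * cn h.t c ∈ h.W1 →
    ∃ k ∈ h.K, ∃ v ∈ closure ({h.b, h.r} : Set G), ∀ u ∈ h.E1, cn u (c * k) = cn u v

/-! ### The facts about `A₇` -/

abbrev A8 := alternatingGroup (Fin 8)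
abbrev A9 := alternatingGroup (Fin 9)

/-- the order of a centraliser -/
noncomputable abbrev cc {G : Type u} [Group G] (S : Set G) : ℕ := Nat.card (centralizer S)

/-- the case `T = ⟨t⟩ × D₈` -/
structure C1 (G : Type u) [Group G] extends Base G where
  L : Subgroup G
  T : Subgroup G
  a : G
  b : G
  z : G
  r : G
  s : G
  aa : a * a = 1
  bb : b * b = 1
  zz : z * z = 1
  z1 : z ≠ 1
  ab : cn a b = a * z
  za : Commute z a
  zb : Commute z b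
  ta : Commute t a
  tb : Commute t b
  hT : T = closure {t, a, b}
  syl : IsSyl 2 T (centralizer {t})
  LC : L ≤ centralizer {t}
  Ln : centralizer {t} ≤ normalizer (L : Set G)
  LiT : L ⊓ T = closure {a, b}
  tL : t ∉ L
  CL : ∀ c ∈ centralizer ({t} : Set G), ∃ l ∈ L, ∃ u ∈ T, c = l * u
  rt : Commute r t
  zr : cn z r = a
  ar : cn a r = a * z
  ro : Odd (orderOf r)
  st : Commute s t
  zs : cn z s = b
  bs : cn b s = b * z
  so : Odd (orderOf s)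

def RhoStmt : Prop :=
  ∀ (G : Type u) [Group G] [Finite G] (A : Subgroup G), Cfsg.IsQuasisimple A →
    Odd (Nat.card (center A)) → H93.LT.Qt A H93.LT.A7 → ∃ ρ, Rho A (normalizer (A : Set G)) ρ

def FrobStmt : Prop :=
  ∀ (G : Type u) [Group G] [Finite G] (A N : Subgroup G) (ρ : G → Perm (Fin 7)), Rho A N ρ →
    ∃ x ∈ A, ∃ g ∈ A, orderOf x = 7 ∧ cn x g = x ^ 2

def FrameStmt : Prop :=
  ∀ (G : Type u) [Group G] [Finite G] (h : Base G),
    (∃ p : Pre G, p.toBase = h) ∨ ∃ c : C1 G, c.toBase = h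

def EStmt : Prop := ∀ (G : Type u) [Group G] [Finite G] (p : Pre G), p.e = 1

def N1Stmt : Prop :=
  ∀ (G : Type u) [Group G] [Finite G] (h : C1 G), cc {h.t, h.z, h.a} ≠ cc {h.t, h.z, h.b}

def N2Stmt : Prop :=
  ∀ (G : Type u) [Group G] [Finite G] (h : Hyp G), cc {h.t, h.f} ≠ cc {h.t, h.f * h.z}

def N3Stmt : Prop :=
  ∀ (G : Type u) [Group G] [Finite G] (h : Hyp G),
    cc {h.t, h.z, h.a} ≠ cc {h.t, h.z, h.a * h.f} ∨
      cc {h.t, h.z, h.b} ≠ cc {h.t, h.z, h.b * h.f * h.z}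

/-! ### `Z*` -/

def ZsStmt : Prop :=
  ∀ (G : Type u) [Group G] [Finite G] (h : Base G) (T : Subgroup G),
    IsSyl 2 T (centralizer {h.t}) → ∃ u ∈ T, u ≠ h.t ∧ IsConj h.t u

def IsoStmt : Prop :=
  ∀ (G : Type u) [Group G] [Finite G] (h : Hyp G), ∃ u ∈ h.Z, u ≠ h.t ∧ IsConj h.t u

def C2Stmt : Prop := ∀ (G : Type u) [Group G] [Finite G] (p : Pre G), p.f * p.f = 1

/-! ### The cases (a), (c) -/

def EE1Stmt : Prop := ∀ (G : Type u) [Group G] [Finite G] (h : EE G), h.g ≠ 1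
def HHStmt : Prop := ∀ (G : Type u) [Group G] [Finite G] (h : HH G), h.g ≠ 1
def XXStmt : Prop := ∀ (G : Type u) [Group G] [Finite G], XX G → False
def TQStmt : Prop := ∀ (G : Type u) [Group G] [Finite G], TQ0 G → False

/-! ### Case (b) -/

/-- `Q = ⟨T, m⟩ ≅ 2 ≀ 2 ≀ 2` is a Sylow subgroup; `t, t f, t f z b, t f b` are the transpositions -/
structure RW (G : Type u) [Group G] extends RB G where
  m : G
  Q : Subgroup G
  sylQ : IsSyl 2 Q ⊤
  cQ : Nat.card Q = 128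
  T0Q : toPre.T0 ≤ Q
  mQ : m ∈ Q
  mX : m ∈ X
  mm : m * m = 1
  tm : cn t m = t * f * z * b
  fm : cn f m = z
  bm : Commute b m
  aa' : Commute a (cn a m)
  am : IsConj (a * cn a m) m

/-- the Sylow subgroups of `X` are those of `A₈` -/
def SylA8 (X : Type u) [Group X] : Prop :=
  ∀ (S : Sylow 2 X) (P : Sylow 2 A8), Nonempty ((S : Subgroup X) ≃* (P : Subgroup A8))

def B2Stmt : Prop :=
  ∀ (G : Type u) [Group G] [Finite G] (h : RB G), ∃ k : RW G, Same h.toHyp k.toHyp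

def B3Stmt : Prop := ∀ (G : Type u) [Group G] [Finite G] (h : RW G), h.t ∉ h.X ∧ SylA8 h.X

def KA8Stmt : Prop := ∀ (G : Type u) [Group G] [Finite G] (h : Base G), ¬ Nonempty (h.X ≃* A8)

def KSpStmt : Prop :=
  ∀ (F : Type) [Field F] [Fintype F], Odd (Fintype.card F) → ∀ x g : Cfsg.PSp 2 F,
    orderOf x = 7 → cn x g = x ^ 2 → 256 ∣ Nat.card (Cfsg.PSp 2 F)

def B4Stmt : Prop :=
  ∀ (G : Type u) [Group G] [Finite G] (h : Base G), SylA8 h.X → Nonempty (h.X ≃* A9)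

/-! ### The case `T = ⟨t⟩ × D₈` -/

namespace C1

variable {G : Type u} [Group G] (h : C1 G)

def E1 : Subgroup G := closure {h.t, h.z, h.a}
def E2 : Subgroup G := closure {h.t, h.z, h.b}

/-- the mirror image -/
def mir : C1 G :=
  { h with
    a := h.b, b := h.a, r := h.s, s := h.r, aa := h.bb, bb := h.aa
    ab := by
      have e : h.a * h.b = h.b * (h.a * h.z) := by rw [← h.ab, cn]; group
      rw [cn, inv_eq_of_mul_eq_one_right h.aa, e, mul_assoc, mul_assoc, h.za.eq, ← mul_assoc h.a,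
        h.aa, one_mul]
    za := h.zb, zb := h.za, ta := h.tb, tb := h.ta
    hT := by rw [h.hT, Set.pair_comm h.a], LiT := by rw [h.LiT, Set.pair_comm]
    rt := h.st, zr := h.zs, ar := h.bs, ro := h.so, st := h.rt, zs := h.zr, bs := h.ar, so := h.ro }

end C1

/-- the standard facts about `C(t)` -/
structure Kit1 {G : Type u} [Group G] (h : C1 G) : Prop where
  aX : h.a ∈ h.X ∧ h.b ∈ h.X ∧ h.z ∈ h.X
  cmX : ∀ x y : G, x⁻¹ * y⁻¹ * x * y ∈ h.X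
  tz : Commute h.t h.z
  ne : h.a ≠ 1 ∧ h.a ≠ h.z ∧ h.t ∉ closure ({h.a, h.b} : Set G)
  cT : Nat.card h.T = 16
  zD : ¬ IsConj h.t h.z
  into : ∀ (u : G) (R : Subgroup G), IsConj h.t u → IsPGroup 2 R → R ≤ centralizer {u} →
    ∃ g : G, cn u g = h.t ∧ ∀ x ∈ R, cn x g ∈ h.T
  rk : ∀ E : Subgroup G, E ≤ h.T → EA E → Nat.card E ≤ 8
  aut1 : ∀ c ∈ centralizer ({h.t} : Set G), c ∈ normalizer (h.E1 : Set G) →
    ∃ w ∈ closure ({h.b, h.r} : Set G), ∀ x ∈ h.E1, cn x c = cn x w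
  sylE1 : IsSyl 2 h.E1 (centralizer (h.E1 : Set G))
  /-- `2`-elements centralising `T` -/
  cenT : ∀ (c : G) (n : ℕ), c ^ 2 ^ n = 1 → Commute c h.t → Commute c h.a → Commute c h.b →
    c = 1 ∨ c = h.z ∨ c = h.t ∨ c = h.t * h.z
  climb : ∀ Q S : Subgroup G, IsPGroup 2 S → h.t ∈ Q → Q < S → S ⊓ centralizer {h.t} ≤ Q →
    ∃ g ∈ S, g ∉ Q ∧ g ∈ normalizer (Q : Set G) ∧ g * g ∈ Q ∧ ∀ q ∈ Q, cn h.t g ≠ cn h.t q
  trT : ∀ S N : Subgroup G, IsSyl 2 S ⊤ → N ≤ S → N.relIndex S = 2 →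
    (∀ g : G, cn h.t g ∉ N) → h.t ∉ h.X
  sylX : ∀ S : Subgroup G, IsSyl 2 S ⊤ → IsSyl 2 (S ⊓ h.X) h.X

structure CX (G : Type u) [Group G] extends C1 G where
  x : G
  tx : cn t x = t * z
  xx : x * x = 1
  xa : Commute x a
  xb : Commute x b

/-- the two sides -/
structure CS (G : Type u) [Group G] extends CX G where
  r' : G
  m : G
  l : G
  s' : G
  n : G
  k : G
  N1 : H36.LTS.SN t z 1 a b r' x m l
  N2 : H36.LTS.SN t z 1 b a s' x n k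

def Kit1Stmt : Prop := ∀ (G : Type u) [Group G] [Finite G] (h : C1 G), Kit1 h

def CXStmt : Prop := ∀ (G : Type u) [Group G] [Finite G], C1 G → Nonempty (CX G)

def CSStmt : Prop :=
  ∀ (G : Type u) [Group G] [Finite G], CX G → ∃ h : CS G, (h.m * h.l = h.x ∧ h.n * h.k = h.x) ∨
    (h.m * h.l = h.x * (h.t * h.a) ∧ h.n * h.k = h.x * (h.t * h.b))

/-- the Sylow subgroups of `X` do not have order `64` and class two -/
def Cl2Stmt : Prop :=
  ∀ (G : Type u) [Group G] [Finite G] (h : Base G) (S : Sylow 2 h.X),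
    Nat.card (S : Subgroup h.X) = 64 → ¬ IsMulCommutative (S : Subgroup h.X) →
    ¬ ⁅(⊤ : Subgroup (S : Subgroup h.X)), ⊤⁆ ≤ center (S : Subgroup h.X)

def CEStmt : Prop :=
  ∀ (G : Type u) [Group G] [Finite G] (h : CS G), h.m * h.l = h.x → h.n * h.k = h.x → False

def CHStmt : Prop :=
  ∀ (G : Type u) [Group G] [Finite G] (h : CS G), h.m * h.l = h.x * (h.t * h.a) →
    h.n * h.k = h.x * (h.t * h.b) → False

/-! ### Assembly -/

def BaseStmt : Prop :=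
  ∀ (G : Type u) [Group G] [Finite G] (h : Base G), h.t ∉ h.X ∧ Nonempty (h.X ≃* A9)

theorem alt2 (n2 : N2Stmt.{u}) {G : Type u} [Group G] [Finite G] (h : Hyp G) {g : G}
    (h1 : cn h.f g = h.f * h.z) (h2 : cn h.t g = h.t * h.f * h.z) : False := by
  refine n2 G h ?_
  have tz : Commute h.t h.z := by
    have : h.z = h.a⁻¹ * cn h.a h.b := by rw [h.ab, inv_mul_cancel_left]
    rw [this]
    exact h.ta.inv_right.mul_right ((h.tb.inv_right.mul_right h.ta).mul_right h.tb)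
  rw [cc, cc, ← card_cj g⁻¹ (centralizer {h.t, h.f})]
  congr 2
  ext c
  have k : ∀ u : G, u * (g⁻¹⁻¹ * c * g⁻¹) = g⁻¹⁻¹ * c * g⁻¹ * u ↔ Commute (cn u g) c := fun u =>
    ⟨fun e => by
      simpa [Commute, SemiconjBy, cn, mul_assoc] using congrArg (fun w => g⁻¹ * w * g) e,
    fun e => by simpa [cn, mul_assoc] using congrArg (fun w => g * w * g⁻¹) e.eq⟩
  simp only [mem_cj, mem_centralizer_iff, Set.mem_insert_iff, Set.mem_singleton_iff, forall_eq_or_imp,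
    forall_eq, k, h1, h2, mul_assoc h.t]
  exact ⟨fun e => ⟨by simpa only [mul_inv_cancel_right] using (e.1.mul_left e.2.inv_left).eq, e.2⟩,
    fun e => ⟨Commute.mul_left e.1 e.2, e.2⟩⟩

theorem tt_false (he : EStmt.{u}) (n2 : N2Stmt.{u}) {G : Type u} [Group G] [Finite G] (h : TT G)
    (hg : h.g ≠ 1) : False := by
  rcases h.alt with ⟨-, e, -⟩ | ⟨-, -, -, -, e1, e2, -⟩ | ⟨-, e, -⟩
  exacts [hg (e.trans (he G h.toPre)), alt2 n2 h.toHyp e1 e2, hg (e.trans (he G h.toPre))]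

theorem base_of (fr : FrameStmt.{u}) (he : EStmt.{u}) (n2 : N2Stmt.{u}) (c2 : C2Stmt.{u})
    (sig : SigStmt.{u}) (na : NAStmt.{u}) (nc : NCStmt.{u}) (ae : AlEStmt.{u}) (ee : EE1Stmt.{u})
    (hh : HHStmt.{u}) (xx : XXStmt.{u}) (tq : TQStmt.{u}) (b2 : B2Stmt.{u}) (b3 : B3Stmt.{u})
    (b4 : B4Stmt.{u}) (cx : CXStmt.{u}) (cs : CSStmt.{u}) (ce : CEStmt.{u}) (ch : CHStmt.{u}) :
    BaseStmt.{u} := by
  intro G _ _ h
  have e0 : EE0 G → False := fun l => by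
    obtain ⟨l', -⟩ := ae G l
    exact tt_false he n2 l'.toTT (ee G l')
  have h0 : HH G → False := fun l => tt_false he n2 l.toTT (hh G l)
  rcases fr G h with ⟨p, rfl⟩ | ⟨c, -⟩
  · let q : Hyp G := ⟨p, c2 G p, .inl (he G p)⟩
    rcases sig G q with ⟨k, -⟩ | ⟨k, e⟩ | ⟨k, -⟩
    · rcases na G k with ⟨l, -⟩ | ⟨l, -⟩
      exacts [(e0 l).elim, (h0 l).elim]
    · obtain ⟨l, e'⟩ := b2 G k
      have e1 : l.X = p.X := e'.1.trans e.1
      have e2 : l.t = p.t := e'.2.1.trans e.2.1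
      exact e1 ▸ e2 ▸ ⟨(b3 G l).1, b4 G l.toBase (b3 G l).2⟩
    · rcases nc G k with ⟨l, -⟩ | ⟨l, -⟩ | ⟨l, -⟩ | ⟨l, -⟩
      exacts [(e0 l).elim, (h0 l).elim, (xx G l).elim, (tq G l).elim]
  · obtain ⟨k⟩ := cx G c
    obtain ⟨l, ⟨e1, e2⟩ | ⟨e1, e2⟩⟩ := cs G k
    exacts [(ce G l e1 e2).elim, (ch G l e1 e2).elim]

/-! ### The frame in `N(A)` and the row -/

section
open H93.LT (St Qt A7)

def T0Stmt : Prop :=
  ∀ (G : Type u) [Group G] [Finite G] (h : St G), Qt h.A A7 → h.T ≤ h.T0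

def Y0Stmt : Prop :=
  ∀ (G : Type u) [Group G] [Finite G] (h : St G), Qt h.A A7 → ∃ y ∈ h.A, Commute y h.z ∧
    ∀ c ∈ h.C0, Commute c (y⁻¹ * cn y (h.a * h.b)) → c ∈ h.K ∨ c * h.z ∈ h.K

def Up7Stmt : Prop :=
  ∀ (G : Type u) [Group G] [Finite G] (h : St G), Qt h.A A7 → 4 ≤ Nat.card h.R → h.One →
    IsSyl 2 h.T ⊤

def Eq7Stmt : Prop :=
  ∀ (G : Type u) [Group G] [Finite G] (h : St G), Qt h.A A7 → 4 ≤ Nat.card h.R → IsSyl 2 h.T ⊤ →
    h.A ≤ normalClosure (h.K : Set G) → h.A.Normal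

/-- `BaseStmt` for a standard subgroup -/
def G0Stmt : Prop :=
  ∀ (G : Type u) [Group G] [Finite G] (X A : Subgroup G) (t : G), X.Normal → IsSimpleGroup X →
    ¬ IsMulCommutative X → Cfsg.SectionalPRankLE 2 4 X → A ≤ X → Cfsg.IsStandardSubgroup A →
    Odd (Nat.card (center A)) → Qt A A7 → orderOf t = 2 → t ∈ centralizer (A : Set G) →
    ¬ 4 ∣ Nat.card (centralizer (A : Set G)) → ¬ X ≤ centralizer {t} →
    t ∉ X ∧ Nonempty (X ≃* A9)

def S9Stmt : Prop :=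
  ∀ (G : Type u) [Group G] [Finite G] (X A : Subgroup G) (t x g : G), X.Normal →
    centralizer (X : Set G) = ⊥ → Nonempty (X ≃* A9) → t ∉ X → A ≤ X →
    Odd (Nat.card (center A)) → x ∈ A → g ∈ A → orderOf x = 7 → cn x g = x ^ 2 →
    Nonempty (G ≃* Perm (Fin 9)) ∧ X = commutator G ∧ center A = ⊥

end

end Cfsg.Agent.H42.N7
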