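import Cfsg.Agent.H42.N7KAl1

/-! Alignment of the two sides: the case `EE`. -/

set_option autoImplicit false
set_option linter.unusedSimpArgs false

namespace Cfsg.Agent.H42.N3

open Subgroup Cfsg.Agent.H85 Cfsg.Agent.H42.N7

universe u

variable {G : Type u} [Group G]

namespace E

variable (h : EE0 G)

/-- the group `T₁` -/
abbrev T1 : Subgroup G := closure {h.t, h.f, h.a, h.b, h.x, h.y}

theorem t1 : h.t ∈ T1 h := subset_closure (by simp)
theorem f1 : h.f ∈ T1 h := subset_closure (by simp)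
theorem a1 : h.a ∈ T1 h := subset_closure (by simp)
theorem b1 : h.b ∈ T1 h := subset_closure (by simp)
theorem x1 : h.x ∈ T1 h := subset_closure (by simp)
theorem y1 : h.y ∈ T1 h := subset_closure (by simp)
theorem z1 : h.z ∈ T1 h := z_mem h.toHyp (a1 h) (b1 h)
theorem P1 : h.P ≤ T1 h := (closure_le _).2 (by rintro v (rfl | rfl); exacts [z1 h, f1 h])
theorem w1 : h.w ∈ T1 h := (mul_mem_cancel_left (inv_mem (x1 h))).1 (P1 h h.wx)

/-- the data conjugated on each side by an element centralizing `T₁` -/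
def twist (o o' : G) (c : ∀ v ∈ T1 h, cn v o = v) (c' : ∀ v ∈ T1 h, cn v o' = v)
    (hs : h.g ≠ 1 → cn o h.g = o') : EE0 G :=
  { h with
    r := cn h.r o
    s := cn h.s o'
    m := cn h.m o
    n := cn h.n o'
    rt := comm_fix h.rt (c _ (t1 h))
    rf := comm_fix h.rf (c _ (f1 h))
    zr := cn_fix (c _ (z1 h)) (c _ (a1 h)) h.zr
    ar := cn_fix (c _ (a1 h)) (c _ (mul_mem (a1 h) (z1 h))) h.ar
    ro := (order_cn h.r o).symm ▸ h.ro
    st := comm_fix h.st (c' _ (t1 h))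
    sf := comm_fix h.sf (c' _ (mul_mem (f1 h) (z1 h)))
    zs := cn_fix (c' _ (z1 h)) (c' _ (b1 h)) h.zs
    bs := cn_fix (c' _ (b1 h)) (c' _ (mul_mem (b1 h) (z1 h))) h.bs
    so := (order_cn h.s o').symm ▸ h.so
    tm := cn_fix (c _ (t1 h)) (c _ (mul_mem (t1 h) (a1 h))) h.tm
    mf := comm_fix h.mf (c _ (f1 h))
    mz := comm_fix h.mz (c _ (z1 h))
    ma := comm_fix h.ma (c _ (a1 h))
    tn := cn_fix (c' _ (t1 h)) (c' _ (mul_mem (t1 h) (b1 h))) h.tn
    nf := comm_fix h.nf (c' _ (f1 h))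
    nz := comm_fix h.nz (c' _ (z1 h))
    nb := comm_fix h.nb (c' _ (b1 h))
    mm := by rw [← cn_mul', h.mm]; simp [cn]
    mx := comm_fix h.mx (c _ (x1 h))
    my := comm_fix h.my (c _ (y1 h))
    bm := cn_fix (c _ (b1 h)) (c _ (mul_mem (b1 h) (x1 h))) h.bm
    xr := by rw [← h.xr, ← cn_cn, c _ (x1 h)]
    mr := by rw [cn_cn, h.mr, cn_mul', c _ (x1 h)]
    yr := comm_fix h.yr (c _ (y1 h))
    nn := by rw [← cn_mul', h.nn]; simp [cn]
    nx := comm_fix h.nx (c' _ (x1 h))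
    ny := comm_fix h.ny (c' _ (y1 h))
    an := cn_fix (c' _ (a1 h)) (c' _ (mul_mem (a1 h) (w1 h))) h.an
    ws := by rw [← h.ws, ← cn_cn, c' _ (w1 h)]
    ns := by rw [cn_cn, h.ns, cn_mul', c' _ (w1 h)]
    ys := by
      have := (closure_le (cj o' (closure {h.z, h.b, h.w, cn h.n o'}))).2 (by
        rintro v (rfl | rfl | rfl | rfl) <;> refine mem_cj.2 (subset_closure ?_)
        · exact Or.inl (c' _ (z1 h))
        · exact Or.inr (Or.inl (c' _ (b1 h)))
        · exact Or.inr (Or.inr (Or.inl (c' _ (w1 h))))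
        · exact Or.inr (Or.inr (Or.inr rfl))) h.ys
      rw [mem_cj] at this
      convert this using 1
      nth_rw 1 [← c' _ (y1 h)]
      nth_rw 2 [← c' _ (y1 h)]
      simp only [cn]; group
    sw := fun k => ⟨(h.sw k).1, by rw [← hs k, ← (h.sw k).2.1]; simp only [cn]; group,
      by rw [← hs k, ← (h.sw k).2.2]; simp only [cn]; group⟩ }

theorem xz : Commute h.x h.z := comm_z h.toHyp h.xa h.xb
theorem yz : Commute h.y h.z := comm_z h.toHyp h.ya h.yb

theorem ty : cn h.t h.y = h.t ∨ cn h.t h.y = h.t * h.f := by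
  rcases h.alt with e | e | e
  · exact Or.inl (by simp [e.1])
  · exact Or.inl (by simp [e.1])
  · exact Or.inr e.1

theorem act : cn h.a (h.m * h.n * (h.m * h.n)) = h.a ∧ cn h.b (h.m * h.n * (h.m * h.n)) = h.b ∧
    h.t⁻¹ * cn h.t (h.m * h.n * (h.m * h.n)) ∈ h.P := by
  have hp := h.wx
  generalize e : h.x⁻¹ * h.w = p at hp
  have ew : h.w = h.x * p := by rw [← e, mul_inv_cancel_left]
  have cp : ∀ {v}, Commute v h.z → Commute v h.f → Commute p v := fun c1 c2 =>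
    (comm_P h.toHyp hp c1 c2).symm
  have pp : p * p = 1 := by
    rcases mem_P h.toHyp hp with k | k | k | k <;> rw [k]
    exacts [one_mul 1, h.zz, h.ff, by rw [mul_assoc, ← mul_assoc h.f, (fz h.toHyp).eq, mul_assoc,
      h.ff, mul_one, h.zz]]
  have ba : h.b * h.a = h.a * (h.b * h.z) := by rw [← ba h.toHyp, cn, ← mul_assoc, ← mul_assoc]; simp
  have l : ∀ {a b c : G}, a * b = c → ∀ w, a * (b * w) = c * w := fun e w => by rw [← mul_assoc, e]
  have r1 := h.xa.eq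
  have r2 := h.xb.eq
  have r3 := (cp h.za.symm h.fa.symm).eq
  have r4 := (cp h.zb.symm h.fb.symm).eq
  have r5 := (cp (xz h) h.xf).eq
  have r6 := (cp (Commute.refl _) (fz h.toHyp).symm).eq
  have r7 := h.za.eq
  have r8 := h.zb.eq
  have r9 := (xz h).symm.eq
  have k : cn h.t (h.m * h.n * (h.m * h.n)) = h.t * (h.z * p) ∧
      cn h.a (h.m * h.n * (h.m * h.n)) = h.a ∧ cn h.b (h.m * h.n * (h.m * h.n)) = h.b := by
    simp only [cn_mul, cn_mul', h.tm, h.tn, h.an, h.bm, ew, cn_comm h.ma.symm, cn_comm h.nb.symm,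
      cn_comm h.mx.symm, cn_comm h.nx.symm, cn_comm (cp h.mz h.mf), cn_comm (cp h.nz h.nf)]
    simp only [mul_assoc, ba, r1, r2, r3, r4, r5, r6, r7, r8, r9, l ba, l r1, l r2, l r3, l r4,
      l r5, l r6, l r7, l r8, l r9, h.aa, h.bb, h.xx, h.zz, pp, l h.aa, l h.bb, l h.xx, l h.zz, l pp,
      one_mul, mul_one, and_self]
  exact ⟨k.2.1, k.2.2, by
    rw [k.1, inv_mul_cancel_left]; exact mul_mem (subset_closure (by simp)) hp⟩

variable [Finite G]

theorem x_N : h.x ∈ normalizer (h.T0 : Set G) :=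
  N_T0 h.toHyp (h.tx ▸ Z_T0 h.toHyp (mul_mem (tZ _) (zZ _))) h.xf h.xa
    ((cn_comm h.xb.symm).symm ▸ bT0 h.toHyp)

theorem y_N : h.y ∈ normalizer (h.T0 : Set G) :=
  N_T0 h.toHyp (by
    rcases ty h with e | e <;> rw [e]
    exacts [Z_T0 h.toHyp (tZ _), Z_T0 h.toHyp (mul_mem (tZ _) (fZ _))]) h.yf h.ya
    ((cn_comm h.yb.symm).symm ▸ bT0 h.toHyp)

theorem pT1 : IsPGroup 2 (T1 h) := p_T1 h.toHyp (x_N h) (y_N h) h.xx h.yy
  (by rw [cn_comm h.xy, inv_mul_cancel]; exact one_mem _)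

theorem dec (k : KitA h.toHyp) : ∃ u ∈ h.Z, ∃ q ∈ closure {h.x, h.y},
    ∃ o ∈ centralizer (T1 h : Set G), Odd (orderOf o) ∧ h.m * h.n * (h.m * h.n) = u * o * q := by
  obtain ⟨ea, eb, et⟩ := act h
  have cc : ∀ {v}, Commute h.m v → Commute h.n v → Commute v (h.m * h.n * (h.m * h.n)) :=
    fun c1 c2 => ((c1.mul_left c2).mul_left (c1.mul_left c2)).symm
  have cz := cc h.mz h.nz
  have cf := cc h.mf h.nf
  have cx := cc h.mx h.nx
  have cy := cc h.my h.ny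
  generalize h.m * h.n * (h.m * h.n) = c at *
  have hZ : cn h.t c ∈ h.Z := (mul_mem_cancel_left (inv_mem (tZ h.toHyp))).1 (P_Z h.toHyp et)
  have hx : h.x ∈ closure {h.x, h.y} := subset_closure (by simp)
  have hy : h.y ∈ closure {h.x, h.y} := subset_closure (by simp)
  obtain ⟨q, hq, e⟩ : ∃ q ∈ closure {h.x, h.y}, cn h.t c = cn h.t q := by
    have two : cn h.t c = h.t ∨ cn h.t c = h.t * h.z → ∃ q ∈ closure {h.x, h.y},
        cn h.t c = cn h.t q := by
      rintro (e | e)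
      exacts [⟨1, one_mem _, by simpa using e⟩, ⟨_, hx, e.trans h.tx.symm⟩]
    rcases h.alt with e | e | e
    · exact two (e.2.2 _ hZ (isConj_iff.2 ⟨c⁻¹, by simp [cn]⟩))
    · refine two (e.2.2.2.2.2.2.2 c ⟨mem_N_closure ?_, mem_N_closure ?_⟩)
      · rintro v (rfl | rfl | rfl | rfl)
        exacts [Z_E1 h.toHyp hZ, (cn_comm cz).symm ▸ Z_E1 h.toHyp (zZ _),
          (cn_comm cf).symm ▸ Z_E1 h.toHyp (fZ _), ea.symm ▸ aE h.toHyp]
      · rintro v (rfl | rfl | rfl | rfl)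
        exacts [Z_E2 h.toHyp hZ, (cn_comm cz).symm ▸ Z_E2 h.toHyp (zZ _),
          (cn_comm cf).symm ▸ Z_E2 h.toHyp (fZ _), eb.symm ▸ bE h.toHyp]
    · rcases mem_P h.toHyp et with k | k | k | k <;> rw [inv_mul_eq_iff_eq_mul] at k
      · exact two (Or.inl (k.trans (mul_one _)))
      · exact two (Or.inr k)
      · exact ⟨_, hy, k.trans e.1.symm⟩
      · exact ⟨_, mul_mem hx hy, by
          rw [k, cn_mul, h.tx, cn_mul', e.1, cn_comm (yz h).symm, mul_assoc, (fz h.toHyp).eq]⟩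
  have cq : ∀ {v}, Commute h.x v → Commute h.y v → Commute v q⁻¹ := fun {v} c1 c2 =>
    Commute.inv_right (mem_centralizer_singleton_iff.1 ((closure_le (centralizer {v})).2 (by
      rintro _ (rfl | rfl)
      exacts [mem_centralizer_singleton_iff.2 c1, mem_centralizer_singleton_iff.2 c2]) hq)).symm
  obtain ⟨u, hu, o, ho, h1, h2⟩ := dec_C k (c := c * q⁻¹) (cent_T0 h.toHyp
    (comm_of_cn (by rw [cn_mul, e]; simp [mul_assoc])) (cf.mul_right (cq h.xf h.yf))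
    (Commute.mul_right (comm_of_cn ea) (cq h.xa h.ya))
    (Commute.mul_right (comm_of_cn eb) (cq h.xb h.yb))) (x_N h) (y_N h)
    (cx.mul_right (cq (Commute.refl _) h.xy.symm)) (cy.mul_right (cq h.xy (Commute.refl _)))
  exact ⟨u, hu, q, hq, o, ho, h1, eq_mul_of_mul_inv_eq h2⟩

theorem fin (k : KitA h.toHyp) {Q : Subgroup G} (pQ : IsPGroup 2 Q) (h1 : T1 h ≤ Q) (hm : h.m ∈ Q)
    (hn : h.n ∈ Q) : h.m * h.n * h.m * h.n ∈ closure {h.z, h.f, h.x, h.y} := by
  obtain ⟨u, hu, q, hq, o, ho, h2, e⟩ := dec h k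
  have hq1 : q ∈ T1 h := closure_mono (by intro v; simp; tauto) hq
  have hu1 : u ∈ T1 h := T0_T1 h.toHyp _ _ (Z_T0 h.toHyp hu)
  have h3 : o ∈ Q := (mul_mem_cancel_left (h1 hu1)).1 ((mul_mem_cancel_right (h1 hq1)).1
    (e ▸ mul_mem (mul_mem hm hn) (mul_mem hm hn)))
  rw [eq_one_of pQ h3 h2, mul_one] at e
  rw [mul_assoc, e]
  refine mul_mem (closure_mono (by intro v; simp; tauto) ((mem_Z h.toHyp hu).resolve_right fun k => ?_))
    (closure_mono (by intro v; simp; tauto) hq)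
  have c1 : Commute h.x (u * q) :=
    e ▸ ((h.mx.mul_left h.nx).mul_left (h.mx.mul_left h.nx)).symm
  have c2 : Commute h.x q := (mem_centralizer_singleton_iff.1 ((closure_le (centralizer {h.x})).2 (by
    rintro _ (rfl | rfl)
    exacts [mem_centralizer_singleton_iff.2 rfl, mem_centralizer_singleton_iff.2 h.xy.symm]) hq)).symm
  have c3 := ((c1.mul_right c2.inv_right).inv_right).mul_right (comm_P h.toHyp k (xz h) h.xf)
  rw [mul_inv_cancel_right, inv_mul_cancel_left] at c3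
  exact h.z1 (by simpa using (cn_comm c3.symm).symm.trans h.tx)

theorem m_N : h.m ∈ normalizer (T1 h : Set G) := mem_N_closure (by
  rintro v (rfl | rfl | rfl | rfl | rfl | rfl)
  exacts [h.tm ▸ mul_mem (t1 h) (a1 h), (cn_comm h.mf.symm).symm ▸ f1 h,
    (cn_comm h.ma.symm).symm ▸ a1 h, h.bm ▸ mul_mem (b1 h) (x1 h), (cn_comm h.mx.symm).symm ▸ x1 h,
    (cn_comm h.my.symm).symm ▸ y1 h])

theorem n_N : h.n ∈ normalizer (T1 h : Set G) := mem_N_closure (by
  rintro v (rfl | rfl | rfl | rfl | rfl | rfl)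
  exacts [h.tn ▸ mul_mem (t1 h) (b1 h), (cn_comm h.nf.symm).symm ▸ f1 h,
    h.an ▸ mul_mem (a1 h) (w1 h), (cn_comm h.nb.symm).symm ▸ b1 h, (cn_comm h.nx.symm).symm ▸ x1 h,
    (cn_comm h.ny.symm).symm ▸ y1 h])

theorem g_N (k : KitA h.toHyp) : h.g ∈ normalizer (T1 h : Set G) := by
  have he : h.g = h.e → ∀ v ∈ h.T0, cn v h.g ∈ T1 h := fun e v hv =>
    T0_T1 h.toHyp _ _ (e ▸ cn_mem (T_N k (eT _)) hv)
  have key : cn h.t h.g ∈ T1 h ∧ cn h.f h.g ∈ T1 h ∧ cn h.a h.g ∈ T1 h ∧ cn h.b h.g ∈ T1 h := by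
    rcases h.alt with e | e | e
    · exact ⟨he e.2.1 _ (Z_T0 h.toHyp (tZ _)), he e.2.1 _ (Z_T0 h.toHyp (fZ _)),
        he e.2.1 _ (aT0 h.toHyp), he e.2.1 _ (bT0 h.toHyp)⟩
    · obtain ⟨-, -, e1, e2, e3, e4, -⟩ := e
      rw [e1, e2, e3, e4]
      exact ⟨mul_mem (mul_mem (t1 h) (f1 h)) (z1 h), mul_mem (f1 h) (z1 h), b1 h, a1 h⟩
    · exact ⟨he e.2.1 _ (Z_T0 h.toHyp (tZ _)), he e.2.1 _ (Z_T0 h.toHyp (fZ _)),
        he e.2.1 _ (aT0 h.toHyp), he e.2.1 _ (bT0 h.toHyp)⟩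
  refine mem_N_closure ?_
  rintro v (rfl | rfl | rfl | rfl | rfl | rfl)
  exacts [key.1, key.2.1, key.2.2.1, key.2.2.2, h.xg, h.yg]

end E

theorem alE (hk : KitStmt.{u}) : AlEStmt.{u} := by
  intro G _ _ h
  have k := kitA_of (hk G h.toHyp)
  obtain ⟨O, hO, hN⟩ := exists_O1 k (T0_T1 h.toHyp h.x h.y)
  have nB : normalizer (E.T1 h : Set G) ≤ normalizer ((O ⊔ E.T1 h : Subgroup G) : Set G) :=
    le_normalizer_sup hN le_rfl
  have hm := E.m_N h
  have hn := E.n_N h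
  have hg := E.g_N h k
  have hc : h.m * h.n * (h.m * h.n) ∈ O ⊔ E.T1 h := by
    obtain ⟨u, hu, q, hq, o, ho, h2, e⟩ := E.dec h k
    rw [e]
    exact mul_mem (mul_mem (mem_sup_right (T0_T1 h.toHyp _ _ (Z_T0 h.toHyp hu)))
      (mem_sup_left ((hO o).2 ⟨ho, h2⟩))) (mem_sup_right (closure_mono (by intro v; simp; tauto) hq))
  have q1 := pquot_sup (E.pT1 h) (le_normalizer.trans hN)
  set B := O ⊔ E.T1 h
  have q2 := q1.trans (pquot_zp (nB hm) (k := 1) (by rw [pow_one, pow_two, h.mm]; exact one_mem _))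
  have q3 := q2.trans (pquot_zp (d := h.n) (N_sup (fun v hv => mem_sup_left (cn_mem (nB hn) hv)) (by
    have := mul_mem (inv_mem (mem_sup_right (mem_zpowers h.m)) : h.m⁻¹ ∈ B ⊔ zpowers h.m)
      (mem_sup_left hc)
    convert this using 1
    rw [cn, inv_eq_of_mul_eq_one_right h.nn]; group)) (k := 1)
    (by rw [pow_one, pow_two, h.nn]; exact one_mem _))
  set C := B ⊔ zpowers h.m ⊔ zpowers h.n
  have BC : B ≤ C := le_sup_left.trans le_sup_left
  have mC : h.m ∈ C := mem_sup_left (mem_sup_right (mem_zpowers _))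
  have nC : h.n ∈ C := mem_sup_right (mem_zpowers _)
  have TC : E.T1 h ≤ C := le_sup_right.trans BC
  have gC : h.g ∈ normalizer (C : Set G) := by
    by_cases e : h.g = 1
    · rw [e]; exact one_mem _
    refine N_sup (fun v hv => mem_cj.1 ((sup_le (fun v hv => mem_cj.2 (BC (cn_mem (nB hg) hv)))
      (zpowers_le_of_mem (mem_cj.2 ?_)) : _ ≤ cj h.g C) hv)) ?_
    · exact (h.sw e).2.1.symm.subst (motive := (· ∈ C)) nC
    · have := cn_mem (le_normalizer (TC h.gg)) mC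
      rwa [cn_mul, (h.sw e).2.1] at this
  have q4 := q3.trans (pquot_zp gC (k := 1) (by rw [pow_one, pow_two]; exact TC h.gg))
  have hΓ : C ⊔ zpowers h.g ≤ normalizer (O : Set G) := le_trans (sup_le (sup_le (sup_le (sup_le
    (fun o ho => centralizer_le_normalizer _ ((hO o).1 ho).1) le_normalizer) (zpowers_le_of_mem hm))
    (zpowers_le_of_mem hn)) (zpowers_le_of_mem hg)) hN
  obtain ⟨Q, hQ, hTQ⟩ := exists_isSyl_ge (H := C ⊔ zpowers h.g) ((pquot_zp hg (k := 1)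
    (by rw [pow_one, pow_two]; exact h.gg)).isPGroup (E.pT1 h)) (sup_le_sup_right TC _)
  have OΓ : O ≤ C ⊔ zpowers h.g := (le_sup_left.trans BC).trans le_sup_left
  obtain ⟨o, ho, e1⟩ := align hQ OΓ hΓ q4 (mem_sup_left mC) h.mm
  obtain ⟨o', ho', e2, e3⟩ : ∃ o' ∈ O, cn h.n o' ∈ Q ∧ (h.g ≠ 1 → cn o h.g = o') := by
    by_cases e : h.g = 1
    · obtain ⟨o', ho', e2⟩ := align hQ OΓ hΓ q4 (mem_sup_left nC) h.nn
      exact ⟨o', ho', e2, fun k => absurd e k⟩
    · refine ⟨_, cn_mem (hN hg) ho, ?_, fun _ => rfl⟩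
      rw [← (h.sw e).2.1, cn_cn]
      exact cn_mem (le_normalizer (hTQ (mem_sup_right (mem_zpowers _)))) e1
  let l := E.twist h o o' (fun v hv => cn_comm (((hO o).1 ho).1 v hv))
    (fun v hv => cn_comm (((hO o').1 ho').1 v hv)) e3
  exact ⟨⟨l, E.fin l (kitA_of (hk G l.toHyp)) hQ.isPGroup (le_sup_left.trans hTQ) e1 e2⟩,
    ⟨rfl, rfl, rfl⟩, rfl⟩

end Cfsg.Agent.H42.N3
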