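import Cfsg.Agent.H42.N7KSP

/-! Type H on both sides: the normal form. -/

set_option autoImplicit false
set_option linter.unusedSimpArgs false
set_option linter.unusedSectionVars false

namespace Cfsg.Agent.H42.N75

open Subgroup Cfsg.Agent.H85 Cfsg.Agent.H42.N7 Cfsg.Agent.H42.N3 Cfsg.Agent.H36.LTS

universe u

variable {G : Type u} [Group G] (h : HH G)

theorem cP {p v : G} (hp : p ∈ h.P) (c1 : Commute v h.z) (c2 : Commute v h.f) : Commute p v :=
  (comm_P h.toHyp hp c1 c2).symm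

theorem P_W : h.P ≤ h.W1 := closure_mono (by intro v; simp; tauto)

/-- normal form `y x b t z f a p` with `p` in `P` -/
macro "nfp" h:term:max hp:term:max "[" ls:Lean.Parser.Tactic.simpLemma,* "]"
    loc:(Lean.Parser.Tactic.location)? : tactic =>
  `(tactic| nf $h [ri (W_sq $h (P_W $h $hp)), rc (cP $h $hp (yz $h) (TT.yf (HH.toTT $h))),
    rc (cP $h $hp (xz $h) (TT.xf (HH.toTT $h))), rc (cP $h $hp (B $h).zb.symm (B $h).fb.symm),
    rc (cP $h $hp (B $h).zt.symm (B $h).ft.symm), rc (cP $h $hp (Commute.refl _) (B $h).fz.symm),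
    rc (cP $h $hp (B $h).fz (Commute.refl _)), rc (cP $h $hp (B $h).az (B $h).af), $ls,*] $(loc)?)

/-- `w = x p` -/
def p : G := h.x⁻¹ * h.w
theorem hp : p h ∈ h.P := h.wx
theorem ew : h.w = h.x * p h := by rw [p, mul_inv_cancel_left]

theorem aux_bm {b m k a : G} (bb : b * b = 1) (mm : m * m = a) (e : cv m b = (k * m)⁻¹) :
    cv b m = a⁻¹ * k⁻¹ * b := by
  rw [cv, (ri bb).1] at e
  rw [cv, ← mm, ← mul_one (m⁻¹ * b * m), ← bb, ← mul_assoc, mul_assoc m⁻¹, mul_assoc m⁻¹, e]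
  group

theorem bm : cv h.b h.m = h.a⁻¹ * (h.x * h.t)⁻¹ * h.b := aux_bm h.bb h.mm h.mb
theorem an : cv h.a h.n = h.b⁻¹ * (h.x * p h * h.t)⁻¹ * h.a := ew h ▸ aux_bm h.aa h.nn h.na
theorem tn : cv h.t h.n = h.t * h.b := h.tn
theorem xn : cv h.x h.n = h.x * h.b := h.xn
theorem yn (hy : h.y ≠ 1) : cv h.y h.n = h.y * h.b := h.yn hy

/-- the action of `m` and `n` -/
macro "act" h:term:max "[" ls:Lean.Parser.Tactic.simpLemma,* "]" : tactic =>
  `(tactic| simp only [cv_cv, cv_mul, cv_inv, cv_one, bm $h, an $h, tm $h, tn $h, xm $h, xn $h,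
    cv_of' (TT.mz (HH.toTT $h)), cv_of' (TT.mf (HH.toTT $h)), cv_of' (TT.ma (HH.toTT $h)),
    cv_of' (TT.nz (HH.toTT $h)), cv_of' (TT.nf (HH.toTT $h)), cv_of' (TT.nb (HH.toTT $h)),
    cv_of (cP $h (hp $h) (TT.mz (HH.toTT $h)) (TT.mf (HH.toTT $h))),
    cv_of (cP $h (hp $h) (TT.nz (HH.toTT $h)) (TT.nf (HH.toTT $h))), $ls,*])

def μ : G := h.m * h.n * h.m

theorem zμ : cv h.z (μ h) = h.z := by act h [μ]
theorem fμ : cv h.f (μ h) = h.f := by act h [μ]
theorem pμ : cv (p h) (μ h) = p h := by act h [μ]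
theorem aμ : cv h.a (μ h) = h.b * p h := by act h [μ]; nfp h (hp h) []
theorem bμ : cv h.b (μ h) = h.a * p h := by act h [μ]; nfp h (hp h) []
theorem tμ : cv h.t (μ h) = h.x * p h := by act h [μ]; nfp h (hp h) []
theorem xμ : cv h.x (μ h) = h.t * h.z * p h := by act h [μ]; nfp h (hp h) []
theorem yμ (hy : h.y ≠ 1) : cv h.y (μ h) = h.t * h.x * h.y * h.z * p h := by
  act h [μ, ym h hy, yn h hy]; nfp h (hp h) [rl (ty h hy), rl (xy h hy)]

def c3 : G := h.m * h.n * h.m * h.n * h.m * h.n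

theorem zc : cv h.z (c3 h) = h.z := by act h [c3]
theorem fc : cv h.f (c3 h) = h.f := by act h [c3]
theorem ac : cv h.a (c3 h) = h.a := by act h [c3]; nfp h (hp h) []
theorem bc : cv h.b (c3 h) = h.b := by act h [c3]; nfp h (hp h) []
theorem tc : cv h.t (c3 h) = h.t * h.z * p h := by act h [c3]; nfp h (hp h) []
theorem xc : cv h.x (c3 h) = h.x * h.z * p h := by act h [c3]; nfp h (hp h) []
theorem yc (hy : h.y ≠ 1) : cv h.y (c3 h) = h.y * h.z * p h := by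
  act h [c3, ym h hy, yn h hy]; nfp h (hp h) [rl (ty h hy), rl (xy h hy)]

theorem t1 : h.t ∈ h.T1 := by unfold TT.T1; memc
theorem f1 : h.f ∈ h.T1 := by unfold TT.T1; memc
theorem a1 : h.a ∈ h.T1 := by unfold TT.T1; memc
theorem b1 : h.b ∈ h.T1 := by unfold TT.T1; memc
theorem x1 : h.x ∈ h.T1 := by unfold TT.T1; memc
theorem y1 : h.y ∈ h.T1 := by unfold TT.T1; memc
theorem z1 : h.z ∈ h.T1 := z_mem h.toHyp (a1 h) (b1 h)
theorem P1 : h.P ≤ h.T1 := (closure_le _).2 (by rintro v (rfl | rfl); exacts [z1 h, f1 h])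
theorem p1 : p h ∈ h.T1 := P1 h (hp h)
theorem T01 : h.T0 ≤ h.T1 := T0_T1 h.toHyp h.x h.y

/-- `C_{T₁}(b)` -/
def S2 : Subgroup G := closure {h.z, h.f, h.b, h.x, h.y, h.t}
def R2 : Subgroup G := closure {h.z, h.f, h.b, h.x, h.y, h.n, h.t}

theorem S2_R2 : S2 h ≤ R2 h := closure_mono (by intro v; simp; tauto)
theorem P_S2 : h.P ≤ S2 h := closure_mono (by intro v; simp; tauto)

theorem C_b {u : G} (hu : u ∈ h.T1) (c : Commute u h.b) : u ∈ S2 h := by
  have : h.T1 ≤ closure (insert h.a {h.z, h.f, h.b, h.x, h.y, h.t}) :=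
    closure_mono (by intro v; simp; tauto)
  rcases mem_ins (h.aa ▸ one_mem _) (by
    rintro _ (rfl | rfl | rfl | rfl | rfl | rfl) <;> nf h [] <;> memc) (this hu) with
    k | ⟨w, k, rfl⟩
  · exact k
  · have : w ∈ centralizer {h.b} := (closure_le _).2 (by
      rintro _ (rfl | rfl | rfl | rfl | rfl | rfl) <;> refine mem_centralizer_singleton_iff.2 ?_
      exacts [h.zb, h.fb, rfl, h.xb, h.yb, h.tb]) k
    have := c.mul_left (Commute.inv_left (mem_centralizer_singleton_iff.1 this))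
    rw [mul_inv_cancel_right] at this
    exact (nab h.toHyp this).elim

theorem C_ab [Finite G] {u : G} (hu : u ∈ h.T0) (ca : Commute u h.a) (cb : Commute u h.b) :
    u ∈ h.Z := by
  have h1 : u ∈ h.E1 := (mem_T0 h.toHyp hu).resolve_right fun k => by
    have := ca.inv_left.mul_left (cm_of ((B h).cE k (aE h.toHyp)))
    rw [inv_mul_cancel_left] at this
    exact nab h.toHyp this.symm
  refine (mem_E1 h.toHyp h1).resolve_right fun k => ?_
  have := cb.inv_left.mul_left (Commute.symm (Z_cent h.toHyp k _ (bT0 h.toHyp)))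
  rw [inv_mul_cancel_left] at this
  exact nab h.toHyp this

theorem xyT : cv h.x h.y = h.x ∨ cv h.x h.y = h.x * h.f * h.z := by
  by_cases hy : h.y = 1
  exacts [.inl (by rw [hy, cv_one']), .inr (xy h hy)]

theorem tyT : cv h.t h.y = h.t ∨ cv h.t h.y = h.t * h.f := by
  by_cases hy : h.y = 1
  exacts [.inl (by rw [hy, cv_one']), .inr (ty h hy)]

theorem C_t {u : G} (hu : u ∈ h.T1) (c : Commute h.t u) : u ∈ h.T0 := by
  have zm : h.z ∈ h.T0 := Z_T0 h.toHyp (zZ _)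
  have k0 : ∀ {w}, w ∈ h.T0 → ∀ {v}, v ∈ h.Z → cv v w = v := fun hw _ hv =>
    cv_of' (Z_cent h.toHyp hv _ hw)
  have k1 : ∀ u ∈ closure (insert h.x {h.t, h.f, h.a, h.b}), u ∈ h.T0 ∨ cv h.t u = h.t * h.z :=
    fun u hu => (mem_ins (h.xx ▸ one_mem _) (by
      unfold Pre.T0 at zm
      rintro _ (rfl | rfl | rfl | rfl) <;> nf h [] <;> memc) hu).imp_right (by
      rintro ⟨w, hw, rfl⟩
      rw [cv_cv, tx, k0 hw (mul_mem (tZ _) (zZ _))])
  have zm' : h.z ∈ closure (insert h.x {h.t, h.f, h.a, h.b}) := closure_mono (Set.subset_insert _ _) zm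
  have : h.T1 ≤ closure (insert h.y (insert h.x {h.t, h.f, h.a, h.b})) :=
    closure_mono (by intro v; simp; tauto)
  have c' := cv_of c
  have n0 : h.t * h.z ≠ h.t := by simpa using h.z1
  rcases mem_ins (h.yy ▸ one_mem _) (by
    rintro _ (rfl | rfl | rfl | rfl | rfl)
    · rcases xyT h with e | e <;> rw [e] <;> memc
    · rcases tyT h with e | e <;> rw [e] <;> memc
    all_goals nf h []; memc) (this hu) with k | ⟨w, k, rfl⟩
  · exact (k1 u k).resolve_right fun e => n0 (e.symm.trans c')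
  · by_cases hy : h.y = 1
    · rw [hy, one_mul] at c' ⊢
      exact (k1 w k).resolve_right fun e => n0 (e.symm.trans c')
    · have cf : cv h.f w = h.f := cv_of' (cm_of ((cv_eq_closure (k := 1) (by
        rintro _ (rfl | rfl | rfl | rfl | rfl) <;> nf h []) k).trans (cv_one' _)))
      rw [cv_cv, ty h hy, cv_mul, cf] at c'
      obtain ⟨n1, -, n3, -⟩ := tf_ne h
      rcases k1 w k with e | e
      · rw [k0 e (tZ _)] at c'; exact (n1 c').elim
      · rw [e, mul_assoc] at c'; exact (n3 c').elim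

variable [Finite G]

theorem x_N : h.x ∈ normalizer (h.T0 : Set G) :=
  N_T0 h.toHyp (h.tx ▸ Z_T0 h.toHyp (mul_mem (tZ _) (zZ _))) h.xf h.xa
    ((cn_comm h.xb.symm).symm ▸ bT0 h.toHyp)

theorem y_N : h.y ∈ normalizer (h.T0 : Set G) :=
  N_T0 h.toHyp (by
    rcases tyT h with e | e <;> change cv _ _ ∈ _ <;> rw [e]
    exacts [Z_T0 h.toHyp (tZ _), Z_T0 h.toHyp (mul_mem (tZ _) (fZ _))]) h.yf h.ya
    ((cn_comm h.yb.symm).symm ▸ bT0 h.toHyp)

theorem pT1 : IsPGroup 2 h.T1 := p_T1 h.toHyp (x_N h) (y_N h) h.xx h.yy (by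
  rcases xyT h with e | e <;> change _ * cv _ _ ∈ _ <;> rw [e]
  · simp
  · rw [mul_assoc, inv_mul_cancel_left]; exact Z_T0 h.toHyp (mul_mem (fZ _) (zZ _)))

theorem T1_N : h.T1 ≤ normalizer (h.T0 : Set G) := (closure_le _).2 (by
  rintro v (rfl | rfl | rfl | rfl | rfl | rfl)
  exacts [le_normalizer (Z_T0 h.toHyp (tZ _)), le_normalizer (Z_T0 h.toHyp (fZ _)),
    le_normalizer (aT0 _), le_normalizer (bT0 _), x_N h, y_N h])

theorem m_N : h.m ∈ normalizer (h.T1 : Set G) := nrm_of fun _ => cv_closure (by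
  have := t1 h; have := f1 h; have := a1 h; have := b1 h; have := x1 h; have := y1 h
  rintro v (rfl | rfl | rfl | rfl | rfl | rfl)
  iterate 5 · act h []; memc
  by_cases hy : h.y = 1
  · rw [hy, cv_one]; memc
  · rw [ym h hy]; memc)

theorem n_N : h.n ∈ normalizer (h.T1 : Set G) := nrm_of fun _ => cv_closure (by
  have := t1 h; have := f1 h; have := a1 h; have := b1 h; have := x1 h; have := y1 h
  have := p1 h
  rintro v (rfl | rfl | rfl | rfl | rfl | rfl)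
  iterate 5 · act h []; memc
  by_cases hy : h.y = 1
  · rw [hy, cv_one]; memc
  · rw [yn h hy]; memc)

theorem g_N (k : KitA h.toHyp) : h.g ∈ normalizer (h.T1 : Set G) := by
  have he : h.g = h.e → ∀ v ∈ h.T0, cn v h.g ∈ h.T1 := fun e v hv =>
    T01 h (e ▸ cn_mem (T_N k (eT _)) hv)
  have key : cn h.t h.g ∈ h.T1 ∧ cn h.f h.g ∈ h.T1 ∧ cn h.a h.g ∈ h.T1 ∧ cn h.b h.g ∈ h.T1 := by
    rcases h.alt with e | e | e
    · exact ⟨he e.2.1 _ (Z_T0 h.toHyp (tZ _)), he e.2.1 _ (Z_T0 h.toHyp (fZ _)),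
        he e.2.1 _ (aT0 h.toHyp), he e.2.1 _ (bT0 h.toHyp)⟩
    · obtain ⟨-, -, e1, e2, e3, e4, -⟩ := e
      rw [e1, e2, e3, e4]
      exact ⟨mul_mem (mul_mem (t1 h) (f1 h)) (z1 h), mul_mem (f1 h) (z1 h), b1 h, a1 h⟩
    · exact ⟨he e.2.1 _ (Z_T0 h.toHyp (tZ _)), he e.2.1 _ (Z_T0 h.toHyp (fZ _)),
        he e.2.1 _ (aT0 h.toHyp), he e.2.1 _ (bT0 h.toHyp)⟩
  refine mem_N_closure ?_
  rintro v (rfl | rfl | rfl | rfl | rfl | rfl)
  exacts [key.1, key.2.1, key.2.2.1, key.2.2.2, h.xg, h.yg]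

theorem T_N1 (k : KitA h.toHyp) : h.T ≤ normalizer (h.T1 : Set G) := by
  rw [h.hT]
  refine (closure_le _).2 ?_
  rintro v (rfl | rfl | rfl | rfl | rfl)
  exacts [le_normalizer (t1 h), le_normalizer (f1 h), le_normalizer (a1 h), le_normalizer (b1 h), by
    rcases h.alt with e | e | e
    exacts [e.2.1 ▸ g_N h k, e.2.1 ▸ one_mem _, e.2.1 ▸ g_N h k]]

theorem c_inner (K : Kit h.toHyp) : ∃ τ ∈ h.T1, ∀ v ∈ h.T1, cv v (c3 h) = cv v τ := by
  have key : ∀ τ, cv h.t τ = h.t * h.z * p h → cv h.f τ = h.f → cv h.a τ = h.a → cv h.b τ = h.b →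
      cv h.x τ = h.x * h.z * p h → (h.y ≠ 1 → cv h.y τ = h.y * h.z * p h) →
      ∀ v ∈ h.T1, cv v (c3 h) = cv v τ := fun τ e1 e2 e3 e4 e5 e6 v => cv_eq_closure (by
    rintro v (rfl | rfl | rfl | rfl | rfl | rfl)
    exacts [by rw [tc, e1], by rw [fc, e2], by rw [ac, e3], by rw [bc, e4], by rw [xc, e5], by
      by_cases hy : h.y = 1
      · rw [hy, cv_one, cv_one]
      · rw [yc h hy, e6 hy]])
  have cE : c3 h ∈ normalizer (h.E1 : Set G) := nrm_of fun _ => cv_closure (by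
    have := W_E h (P_W h (hp h))
    unfold Pre.E1 at *
    rintro v (rfl | rfl | rfl | rfl)
    · rw [tc]; memc
    · rw [zc]; memc
    · rw [fc]; memc
    · rw [ac]; memc)
  rcases mem_P h.toHyp (hp h) with e | e | e | e <;> rw [e] at key
  · refine ⟨_, mul_mem (t1 h) (x1 h), key _ ?_ ?_ ?_ ?_ ?_ fun hy => ?_⟩
    iterate 5 nf h []
    nf h [rl (ty h hy), rl (xy h hy)]
  · refine ⟨_, one_mem _, key _ ?_ ?_ ?_ ?_ ?_ fun hy => ?_⟩ <;> nf h []
  · by_cases hy : h.y = 1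
    · exact (noF0 h K hy cE (.inr (by rw [tc, e, mul_assoc]))).elim
    refine ⟨_, mul_mem (x1 h) (y1 h), key _ ?_ ?_ ?_ ?_ ?_ fun _ => ?_⟩ <;>
      nf h [rl (ty h hy), rl (xy h hy)]
  · by_cases hy : h.y = 1
    · exact (noF0 h K hy cE (.inl (by rw [tc, e]; nf h []))).elim
    refine ⟨_, mul_mem (t1 h) (y1 h), key _ ?_ ?_ ?_ ?_ ?_ fun _ => ?_⟩ <;>
      nf h [rl (ty h hy), rl (xy h hy)]

/-- an element acting on `T₁` as `m n m` and mapping `m` into `n T₁` -/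
theorem exists_μ (hk : KitStmt.{u}) : ∃ ν τ, (∀ v ∈ h.T1, cv v ν = cv v (μ h)) ∧ τ ∈ S2 h ∧
    cv h.m ν = h.n * τ := by
  have K := hk G h.toHyp
  obtain ⟨O, oO, OC, NO, h4, -⟩ := H42.N42.o1 hk G h.toHyp h.T1 (pT1 h) (T01 h) (T1_N h)
    (T_N1 h (kitA_of K))
  obtain ⟨τ, hτ, eτ⟩ := c_inner h K
  obtain ⟨u, hu, o, ho, e⟩ := h4 (c3 h * τ⁻¹) fun v hv => cm_of (by
    rw [cv_cv, eτ v hv, ← cv_cv, mul_inv_cancel, cv_one'])
  have hm := m_N h
  have hn := n_N h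
  obtain ⟨τ', hτ', e'⟩ : ∃ τ' ∈ h.T1, cv h.m (μ h) = h.n * τ' * o⁻¹ := by
    have h1 : τ⁻¹ * u⁻¹ * (cv h.a (h.m * h.n)⁻¹ * cv h.b h.m⁻¹ * h.a) ∈ h.T1 :=
      mul_mem (mul_mem (inv_mem hτ) (inv_mem hu)) (mul_mem (mul_mem
        (cv_nrm (a1 h) (inv_mem (mul_mem hm hn))) (cv_nrm (b1 h) (inv_mem hm))) (a1 h))
    refine ⟨_, h1, ?_⟩
    have c1 : Commute (u⁻¹ * (cv h.a (h.m * h.n)⁻¹ * cv h.b h.m⁻¹ * h.a)) o :=
      OC ho _ ((mul_mem_cancel_left (inv_mem hτ)).1 (mul_assoc τ⁻¹ _ _ ▸ h1))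
    rw [mul_assoc τ⁻¹, mul_assoc, mul_assoc τ⁻¹, c1.inv_right.eq, ← mul_assoc o⁻¹, ← mul_inv_rev,
      ← e, c3, μ, ← h.mm, ← h.nn]
    simp only [cv]; group
  have one : ∀ x ∈ h.T1, x ∈ O → x = 1 := fun x h1 h2 =>
    eq_one_of (pT1 h) h1 (H42.N42.odd_order oO h2)
  have n'N : h.n * τ' ∈ normalizer (h.T1 : Set G) := mul_mem hn (le_normalizer hτ')
  have inv : cv o (h.n * τ') = o⁻¹ := by
    have h1 : cv h.m (μ h) * cv h.m (μ h) ∈ h.T1 := by
      rw [← cv_mul, h.mm, aμ]; exact mul_mem (b1 h) (p1 h)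
    have h2 : h.n * τ' * (h.n * τ') ∈ h.T1 := by
      have := mul_mem (mul_mem (b1 h) (cv_nrm hτ' hn)) hτ'
      rw [← h.nn] at this
      convert this using 1
      simp only [cv]; group
    have h3 := mul_mem (inv_mem h2) h1
    rw [e', show (h.n * τ' * (h.n * τ'))⁻¹ * (h.n * τ' * o⁻¹ * (h.n * τ' * o⁻¹)) =
      (o * cv o (h.n * τ'))⁻¹ by simp only [cv]; group] at h3
    exact eq_inv_of_mul_eq_one_right (one _ (inv_mem_iff.1 h3) (mul_mem ho (cv_nrm ho (NO n'N))))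
  obtain ⟨j, hj⟩ := H42.N42.odd_order oO ho
  have e2 : cv h.m (μ h * (o ^ j)⁻¹) = h.n * τ' := by
    have h1 : cv (o ^ j) (h.n * τ') = (o ^ j)⁻¹ := by
      rw [← inv_pow, ← inv]
      simpa only [cv, inv_inv] using (conj_pow (i := j) (a := (h.n * τ')⁻¹) (b := o)).symm
    have h2 : o ^ j * o ^ j * o = 1 := by
      rw [← pow_add, ← pow_succ, ← two_mul, ← hj, pow_orderOf_eq_one]
    rw [cv_cv, e']
    calc cv (h.n * τ' * o⁻¹) (o ^ j)⁻¹ = h.n * τ' * (cv (o ^ j) (h.n * τ') * o⁻¹ * (o ^ j)⁻¹) := by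
          simp only [cv]; group
      _ = h.n * τ' * (o ^ j * o ^ j * o)⁻¹ := by rw [h1]; group
      _ = _ := by rw [h2]; simp
  have e3 : ∀ v ∈ h.T1, cv v (μ h * (o ^ j)⁻¹) = cv v (μ h) := fun v hv => by
    rw [cv_cv]
    exact cv_of (OC (inv_mem (pow_mem ho j)) _ (cv_nrm hv (mul_mem (mul_mem hm hn) hm)))
  refine ⟨_, τ', e3, C_b h hτ' ?_, e2⟩
  have c1 := cm_cv h.ma (μ h * (o ^ j)⁻¹)
  rw [e2, e3 _ (a1 h), aμ] at c1
  have c2 : Commute (h.n * τ') (p h) := (cP h (hp h) h.nz h.nf).symm.mul_left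
    (cm_of ((cv_eq_closure (k := 1) (by
      rintro _ (rfl | rfl | rfl | rfl | rfl | rfl) <;> nfp h (hp h) []) hτ').trans (cv_one' _)))
  have c3 := c1.mul_right c2.inv_right
  rw [mul_inv_cancel_right] at c3
  simpa using h.nb.inv_left.mul_left c3

section nu

variable {ν τ : G} (e : ∀ v ∈ h.T1, cv v ν = cv v (μ h)) (hτ : τ ∈ S2 h) (em : cv h.m ν = h.n * τ)
include e

theorem W_to {u : G} (hu : u ∈ h.W1) : cv u ν ∈ h.W2 := cv_closure (by
  have : p h ∈ h.W2 := closure_mono (by intro v; simp; tauto) (hp h)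
  unfold Pre.W2 at *
  rintro v (rfl | rfl | rfl)
  · rw [e _ (z1 h), zμ]; memc
  · rw [e _ (f1 h), fμ]; memc
  · rw [e _ (a1 h), aμ]; memc) hu

theorem x1ν : cv (h.x * h.z * p h) ν = h.t := by
  rw [e _ (mul_mem (mul_mem (x1 h) (z1 h)) (p1 h)), cv_mul, cv_mul, xμ, zμ, pμ]; nfp h (hp h) []

theorem a'ν : cv (h.a * p h) ν = h.b := by
  rw [e _ (mul_mem (a1 h) (p1 h)), cv_mul, aμ, pμ]; nfp h (hp h) []

theorem from_S2 {u : G} (hu : u ∈ S2 h) : cv u ν⁻¹ ∈ h.R := cv_closure (by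
  have hp' := K_R h (W_K h (P_W h (hp h)))
  have i1 := cv_inv_of ((e _ (z1 h)).trans (zμ h))
  have i2 := cv_inv_of ((e _ (f1 h)).trans (fμ h))
  have i3 := cv_inv_of (a'ν h e)
  have i4 : cv h.x ν⁻¹ = h.t * p h := cv_inv_of (by
    rw [e _ (mul_mem (t1 h) (p1 h)), cv_mul, tμ, pμ]; nfp h (hp h) [])
  have i5 := cv_inv_of (x1ν h e)
  unfold TT.R at *
  rintro v (rfl | rfl | rfl | rfl | rfl | rfl)
  · rw [i1]; memc
  · rw [i2]; memc
  · rw [i3]; memc
  · rw [i4]; memc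
  · by_cases hy : h.y = 1
    · rw [hy, cv_one]; exact one_mem _
    · have i6 : cv h.y ν⁻¹ = h.t * h.x * h.y * p h := cv_inv_of (by
        rw [e _ (mul_mem (mul_mem (mul_mem (t1 h) (x1 h)) (y1 h)) (p1 h)), cv_mul, cv_mul, cv_mul,
          tμ, xμ, yμ h hy, pμ]
        nfp h (hp h) [rl (ty h hy), rl (xy h hy)])
      rw [i6]; memc
  · rw [i5]; memc) hu

include hτ em

theorem from_R2 {u : G} (hu : u ∈ R2 h) : cv u ν⁻¹ ∈ h.R := cv_closure (by
  have k : ∀ v ∈ ({h.z, h.f, h.b, h.x, h.y, h.t} : Set G), cv v ν⁻¹ ∈ h.R := fun v hv =>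
    from_S2 h e (subset_closure hv)
  rintro v (rfl | rfl | rfl | rfl | rfl | rfl | rfl)
  iterate 5 exact k _ (by simp)
  · rw [← mul_inv_cancel_right h.n τ, cv_mul, cv_inv_of em]
    exact mul_mem (K_R h (mK h)) (from_S2 h e (inv_mem hτ))
  · exact k _ (by simp)) hu

theorem to_R2 {u : G} (hu : u ∈ h.R) : cv u ν ∈ R2 h := cv_closure (by
  have h1 := S2_R2 h (P_S2 h (hp h))
  have h2 := S2_R2 h hτ
  unfold R2 at *
  rintro v (rfl | rfl | rfl | rfl | rfl | rfl | rfl)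
  · rw [e _ (z1 h), zμ]; memc
  · rw [e _ (f1 h), fμ]; memc
  · rw [e _ (a1 h), aμ]; memc
  · rw [e _ (x1 h), xμ]; memc
  · by_cases hy : h.y = 1
    · rw [hy, cv_one]; exact one_mem _
    · rw [e _ (y1 h), yμ h hy]; memc
  · rw [em]; memc
  · rw [e _ (t1 h), tμ]; memc) hu

end nu

theorem fs : cv h.f h.s = h.f * h.z * h.b := by
  have : cv (h.f * h.z * h.z) h.s = _ := cv_mul _ _ _
  rwa [fzz h.toHyp, cv_of' h.sf, show cv h.z h.s = h.b from h.zs] at this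

theorem s_R2 {u : G} (hu : u ∈ R2 h) : cv u h.s ∈ R2 h := by
  have h1 : cv h.z h.s ∈ R2 h := by rw [show cv h.z h.s = h.b from h.zs]; unfold R2; memc
  have h2 : cv h.f h.s ∈ R2 h := by rw [fs]; unfold R2; memc
  have h3 : ∀ q ∈ h.P, cv q h.s ∈ R2 h := fun q => cv_closure (by
    rintro v (rfl | rfl); exacts [h1, h2])
  have h4 : cv h.t h.s ∈ R2 h := by rw [cv_of' h.st]; unfold R2; memc
  have h5 : cv h.x h.s ∈ R2 h := by
    have : h.x = h.w * h.t * h.t * p h := by rw [ew]; nfp h (hp h) []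
    rw [this, cv_mul, cv_mul, show cv (h.w * h.t) h.s = h.n from h.ws]
    exact mul_mem (mul_mem (by unfold R2; memc) h4) (h3 _ (hp h))
  have h6 := S2_R2 h (P_S2 h (hp h))
  refine cv_closure ?_ hu
  rintro v (rfl | rfl | rfl | rfl | rfl | rfl | rfl)
  exacts [h1, h2, by rw [show cv h.b h.s = h.b * h.z from h.bs]; unfold R2; memc, h5, by
    by_cases hy : h.y = 1
    · rw [hy, cv_one]; exact one_mem _
    · obtain ⟨q, hq, c⟩ := h.ys hy
      have h7 := S2_R2 h (P_S2 h hq)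
      have : h.y = h.y * h.x * h.t * q * q⁻¹ * h.t⁻¹ * h.x⁻¹ := by group
      rw [this, cv_mul, cv_mul, cv_mul, cv_of' c, cv_inv, cv_inv, cv_inv]
      refine mul_mem (mul_mem (mul_mem ?_ (inv_mem (h3 q hq))) (inv_mem h4)) (inv_mem h5)
      unfold R2 at *; memc,
    by rw [show cv h.n h.s = _ from h.ns, ew]; unfold R2 at *; memc, h4]

theorem r_R : h.r ∈ normalizer (h.R : Set G) := nrm_of fun _ => cv_closure (by
  have h4 : cv h.t h.r = h.t := cv_of' h.rt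
  rintro v (rfl | rfl | rfl | rfl | rfl | rfl | rfl)
  · rw [show cv h.z h.r = _ from h.zr]; unfold TT.R; memc
  · rw [cv_of' h.rf]; unfold TT.R; memc
  · rw [show cv h.a h.r = _ from h.ar]; unfold TT.R; memc
  · rw [← mul_inv_cancel_right h.x h.t, cv_mul, cv_inv, h4, show cv (h.x * h.t) h.r = _ from h.xr]
    unfold TT.R; memc
  · rw [cv_of' h.yr]; unfold TT.R; memc
  · rw [show cv h.m h.r = _ from h.mr]; unfold TT.R; memc
  · rw [h4]; unfold TT.R; memc)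

/-- The transported element of order three. -/
structure Sg (σ : G) : Prop where
  nR : σ ∈ normalizer (h.R : Set G)
  x1 : cv (h.x * h.z * p h) σ = h.x * h.z * p h
  fz : cv (h.f * h.z) σ = h.f * h.z
  z : cv h.z σ = h.a * p h
  a : cv (h.a * p h) σ = h.a * p h * h.z

theorem sg {ν τ : G} (e : ∀ v ∈ h.T1, cv v ν = cv v (μ h)) (hτ : τ ∈ S2 h)
    (em : cv h.m ν = h.n * τ) : Sg h (ν * h.s * ν⁻¹) := by
  have i1 := (e _ (z1 h)).trans (zμ h)
  have i2 : cv (h.f * h.z) ν = h.f * h.z := by rw [cv_mul, i1, e _ (f1 h), fμ]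
  refine ⟨nrm_of fun u hu => ?_, ?_, ?_, ?_, ?_⟩ <;> rw [cv_cv, cv_cv]
  · exact from_R2 h e hτ em (s_R2 h (to_R2 h e hτ em hu))
  · rw [x1ν h e, cv_of' h.st, cv_inv_of (x1ν h e)]
  · rw [i2, cv_of' h.sf, cv_inv_of i2]
  · rw [i1, show cv h.z h.s = _ from h.zs, cv_inv_of (a'ν h e)]
  · rw [a'ν h e, show cv h.b h.s = _ from h.bs, cv_mul, cv_inv_of (a'ν h e), cv_inv_of i1]

/-- The invariant of a point. -/
def φ (u : G) : G := h.t * u * (h.t * u)

theorem pt_ncomm {u : G} (hu : h.t * u ∈ h.K) : ¬ Commute u h.m := fun c => by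
  have := cv_of (((cmK h hu (mK h)).mul_left c.inv_left).symm)
  rw [mul_inv_cancel_right, mt] at this
  exact (a_ne h.toHyp).1 (by rw [← h.mm]; nth_rw 1 [← this]; simp)

theorem pt_sq {u : G} (hu : h.t * u ∈ h.K) : u * u = 1 := by
  have := K_inv h hu
  rw [cv, eq_inv_iff_mul_eq_one] at this
  rw [← this]; nf h []

theorem pt_conj {c u : G} (hc : c ∈ normalizer (h.R : Set G)) (hu : h.t * u ∈ h.K) :
    h.t * cv u c ∈ h.K := by
  have uR : u ∈ h.R := (mul_mem_cancel_left (tR h)).1 (K_R h hu)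
  refine (R_cases h (cv_nrm uR hc)).resolve_left fun k => pt_ncomm h hu ?_
  have := cm_cv (W_cent h (K_omega h k (by rw [← cv_mul, pt_sq h hu, cv_one]))
    (cv_nrm (K_R h (mK h)) hc)) c⁻¹
  rwa [cv_inv_of rfl, cv_inv_of rfl] at this

theorem W_N {c u : G} (hc : c ∈ normalizer (h.R : Set G)) (hu : u ∈ h.W1) : cv u c ∈ h.W1 := by
  rcases R_cases h (cv_nrm (K_R h (W_K h hu)) hc) with k | k
  · exact K_omega h k (by rw [← cv_mul, W_sq h hu, cv_one])
  · refine (pt_ncomm h k ?_).elim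
    have := cm_cv (W_cent h hu (cv_nrm (K_R h (mK h)) (inv_mem hc))) c
    rwa [← cv_cv h.m, inv_mul_cancel, cv_one'] at this

theorem pt_mul {u v : G} (hu : h.t * u ∈ h.K) : u * v = (h.t * u)⁻¹ * (h.t * v) := by
  rw [mul_inv_rev, (ri (pt_sq h hu)).1]; group

theorem pt_pair {u v : G} (hu : h.t * u ∈ h.K) (hv : h.t * v ∈ h.K) :
    u * v * (u * v) = (φ h u)⁻¹ * φ h v := by
  rw [pt_mul h hu, (cmK h hv (inv_mem hu)).mul_mul_mul_comm, φ, φ, ← mul_inv_rev]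

theorem pt_W {u v : G} (hu : h.t * u ∈ h.K) (hv : h.t * v ∈ h.K) (e : φ h u = φ h v) :
    u * v ∈ h.W1 :=
  K_omega h (pt_mul h hu ▸ mul_mem (inv_mem hu) hv) (by rw [pt_pair h hu hv, e, inv_mul_cancel])

theorem pt_t : h.t * h.t ∈ h.K := h.tt ▸ one_mem _
theorem φ_t : φ h h.t = 1 := by rw [φ, h.tt, one_mul]

theorem φ_r (u : G) : φ h (cv u h.r) = cv (φ h u) h.r := by
  rw [φ, φ, cv_mul, cv_mul, cv_of' h.rt]

theorem pt_x1 : h.t * (h.x * h.z * p h) ∈ h.K := by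
  have := mul_mem (kK h) (W_K h (P_W h (hp h)))
  convert this using 1
  nfp h (hp h) []

theorem φ_x1 : φ h (h.x * h.z * p h) = h.z := by rw [φ]; nfp h (hp h) []

theorem φ_σ {σ u : G} (S : Sg h σ) (hu : h.t * u ∈ h.K) :
    φ h (cv u σ) = h.z * cv (h.z * φ h u) σ := by
  have h1 := pt_pair h (pt_x1 h) (pt_conj h S.nR hu)
  have h2 := congrArg (cv · σ) (pt_pair h (pt_x1 h) hu)
  simp only [cv_mul _ (_ * u), cv_mul _ u, S.x1] at h2
  rw [h2, φ_x1, (ri h.zz).1] at h1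
  rw [h1, ← mul_assoc, h.zz, one_mul]

theorem br_V {v u : G} (hv : v ∈ closure ({h.b, h.r} : Set G)) (hu : u ∈ h.V1) : cv u v ∈ h.V1 :=
  cv_nrm hu ((closure_le _).2 (by
    rintro _ (rfl | rfl) <;> refine nrm_of fun _ => cv_closure ?_ <;> unfold Pre.V1 <;>
      rintro _ (rfl | rfl)
    · nf h []; memc
    · nf h []; memc
    · rw [show cv h.z h.r = _ from h.zr]; memc
    · rw [show cv h.a h.r = _ from h.ar]; memc) hv)

theorem no_c (hk : KitStmt.{u}) {c : G} (hc : c ∈ normalizer (h.R : Set G))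
    (e : φ h (cv h.t c) = 1) (ez : cv h.z c = h.f * h.z) : False := by
  obtain ⟨k, hk, v, hv, ev⟩ := sp hk G h c hc (by
    rw [(ri h.tt).1]
    exact pt_W h (pt_t h) (pt_conj h hc (pt_t h)) ((φ_t h).trans e.symm))
  have h1 : cv h.z (c * k) = cv h.z v := ev _ (Z_E1 h.toHyp (zZ _))
  rw [cv_cv, ez, cv_of (cmK h (mul_mem (fK h) (zK h)) hk)] at h1
  exact fV h ((mul_mem_cancel_right (zV h.toHyp)).1 (h1 ▸ br_V h hv (zV h.toHyp)))

theorem p_cases (hk : KitStmt.{u}) {σ : G} (S : Sg h σ) : p h = 1 ∨ p h = h.z := by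
  have r2 : cv h.f h.r = h.f := cv_of' h.rf
  have r3 : cv h.z h.r = h.a := h.zr
  have r4 : cv h.a h.r = h.a * h.z := h.ar
  have hr := r_R h
  have p1 := pt_conj h S.nR (pt_t h)
  have p2 := pt_conj h hr p1
  have q1 : φ h (cv h.t σ) = h.z * (h.a * p h) := by rw [φ_σ h S (pt_t h), φ_t, mul_one, S.z]
  rcases mem_P h.toHyp (hp h) with e | e | e | e
  exacts [.inl e, .inr e, by
    refine (no_c h hk (mul_mem (mul_mem (mul_mem S.nR hr) hr) S.nR) ?_ ?_).elim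
    · simp only [cv_cv]
      rw [φ_σ h S (pt_conj h hr p2), φ_r, φ_r, q1,
        show cv (cv (h.z * (h.a * p h)) h.r) h.r = h.a * p h by
          simp only [e, cv_mul, r2, r3, r4]; nf h [], cv_mul, S.z, S.a]
      nfp h (hp h) []
    · simp only [cv_cv]
      rw [S.z, show cv (cv (h.a * p h) h.r) h.r = h.f * h.z by
        simp only [e, cv_mul, r2, r3, r4]; nf h [], S.fz], by
    refine (no_c h hk (mul_mem (mul_mem S.nR hr) S.nR) ?_ ?_).elim
    · simp only [cv_cv]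
      rw [φ_σ h S p2, φ_r, q1, show cv (h.z * (h.a * p h)) h.r = h.a * p h by
          simp only [e, cv_mul, r2, r3, r4]; nf h [], cv_mul, S.z, S.a]
      nfp h (hp h) []
    · simp only [cv_cv]
      rw [S.z, show cv (h.a * p h) h.r = h.f * h.z by
        simp only [e, cv_mul, r2, r3, r4]; nf h [], S.fz]]

theorem no_swap (K : Kit h.toHyp) (he : h.e = 1) {d : G} (hd : cv h.t d = h.t)
    (hE : ∀ u ∈ h.E1, cv u d ∈ h.E2) : False := by
  have k := kitA_of K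
  have e1 : cj d⁻¹ h.E1 = h.E2 := eq_of_le_of_card_ge
    ((cj_le_iff_le_cj_inv _).2 fun u hu => by rw [inv_inv]; exact mem_cj.2 (hE u hu))
    (by rw [card_cj, K.cE.1, K.cE.2.1])
  have S := syl_N1 (kitA_mirror k)
  rw [m_T0] at S
  obtain ⟨g, hg, e2⟩ := S.exists_cj_le (isPGroup_cj d⁻¹ (pT0 h.toHyp)) (le_inf
    (cj_le_of_mem (T0_ct h.toHyp) (inv_mem (ct.2 (cm_of hd))))
    (by rw [m_E1, ← e1, ← cj_normalizer]; exact cj_mono _ (T0_N h.toHyp)))
  rw [← cj_mul] at e2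
  obtain ⟨O, -, OC, -, h4⟩ := K.nT0
  obtain ⟨u, hu, o, ho, e3⟩ := h4 _ (mul_mem hg.1 (inv_mem (ct.2 (cm_of hd))))
    (jay k (e2.trans (T0_T h.toHyp))).1
  have hu' : u ∈ h.T0 := (mem_T k hu).resolve_right fun e => e.1 he
  have h5 : g * d⁻¹ ∈ normalizer (h.E1 : Set G) := e3 ▸ mul_mem (T0_N h.toHyp hu')
    (centralizer_le_normalizer _ (centralizer_le (E1_T0 h.toHyp) (OC ho)))
  have h6 := cv_nrm (hE _ (cv_nrm (aE h.toHyp) h5)) (inv_mem (m_E1 h.toHyp ▸ hg.2))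
  rw [← cv_cv, ← cv_cv, show g * d⁻¹ * (d * g⁻¹) = 1 by group, cv_one'] at h6
  exact a_E2 k h6

theorem C_W2 {c : G} (h1 : Commute c h.z) (h2 : Commute c h.f) (h3 : Commute c h.b) {u : G}
    (hu : u ∈ h.W2) : cv u c = u :=
  (cv_eq_closure (k := 1) (by
    rintro _ (rfl | rfl | rfl) <;> rw [cv_one']
    exacts [cv_of' h1, cv_of' h2, cv_of' h3]) hu).trans (cv_one' u)

theorem tr2 (hg : h.g = 1) {c : G} (hc : h.t * cv h.t c ∈ h.W2) :
    ∃ k, cv h.t k = cv h.t c ∧ ∀ u ∈ h.W2, cv u k = u := by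
  have cx := @C_W2 _ _ h _ _ (xz h) h.xf h.xb
  have cy := @C_W2 _ _ h _ _ (yz h) h.yf h.yb
  have cn := @C_W2 _ _ h _ _ h.nz h.nf h.nb
  have zW : h.z ∈ h.W2 := by unfold Pre.W2; memc
  have fW : h.f ∈ h.W2 := by unfold Pre.W2; memc
  have key : ∀ v, (v = 1 ∨ v = h.z ∨ v = h.b ∨ v = h.z * h.b) →
      ∃ k, cv h.t k = h.t * v ∧ ∀ u ∈ h.W2, cv u k = u := by
    rintro v (rfl | rfl | rfl | rfl)
    · exact ⟨1, by rw [cv_one', mul_one], fun u _ => cv_one' u⟩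
    · exact ⟨_, tx h, fun _ => cx⟩
    · exact ⟨_, tn h, fun _ => cn⟩
    · exact ⟨h.x * h.n, by rw [cv_cv, tx, cv_mul, tn, cn zW]; nf h [],
        fun u hu => by rw [cv_cv, cx hu, cn hu]⟩
  have key' : ∀ v, (v = 1 ∨ v = h.z ∨ v = h.b ∨ v = h.z * h.b) → cv h.t c = h.t * (v * h.f) →
      ∃ k, cv h.t k = cv h.t c ∧ ∀ u ∈ h.W2, cv u k = u := fun v hv e => by
    by_cases hy : h.y = 1
    · exfalso
      have a : ∀ u ∈ h.Z, IsConj h.t u → u = h.t ∨ u = h.t * h.z := by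
        rcases h.alt with a | a | a
        · exact a.2.2
        · have := a.2.2.1
          rw [hg] at this
          exact (nab h.toHyp (by rw [← this]; simp)).elim
        · have := a.1
          rw [hy] at this
          exact ((tf_ne h).1 (by simpa using this.symm)).elim
      obtain ⟨n1, n2, n3, n4⟩ := tf_ne h
      have k1 : ∀ d, cv h.t d ≠ h.t * h.f := fun d e =>
        (a _ (mul_mem (tZ _) (fZ _)) (e ▸ isConj_cv _ _)).elim n1 n2
      have s1 : cv h.t h.s = h.t := cv_of' h.st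
      have s2 : cv h.z h.s = h.b := h.zs
      have s3 : cv h.b h.s = h.b * h.z := h.bs
      rcases hv with rfl | rfl | rfl | rfl
      · exact k1 c (by rw [e, one_mul])
      · exact (a _ (mul_mem (tZ _) (mul_mem (zZ _) (fZ _))) (e ▸ isConj_cv _ _)).elim n3 n4
      · exact k1 (c * h.s) (by simp only [cv_cv, e, cv_mul, s1, s2, s3, fs]; nf h [])
      · exact k1 (c * h.s * h.s) (by simp only [cv_cv, e, cv_mul, s1, s2, s3, fs]; nf h [])
    · obtain ⟨k, e1, e2⟩ := key v hv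
      exact ⟨h.y * k, by rw [cv_cv, ty h hy, cv_mul, e1, e2 _ fW, e, mul_assoc],
        fun u hu => by rw [cv_cv, cy hu, e2 u hu]⟩
  have hc' : h.t * cv h.t c ∈ closure {h.z, h.f * h.z, h.b} := by
    have : h.W2 ≤ closure {h.z, h.f * h.z, h.b} := (closure_le _).2 (by
      rintro _ (rfl | rfl | rfl)
      exacts [m1, (mul_mem_cancel_right m1).1 m2, by memc])
    exact this hc
  have e0 : cv h.t c = h.t * (h.t * cv h.t c) := by rw [← mul_assoc, h.tt, one_mul]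
  rcases (B h).mir.memW hc' with e | e | e | e | e | e | e | e <;> rw [e] at e0
  · exact e0 ▸ key _ (.inl rfl)
  · exact key' h.z (by simp) (by rw [e0]; nf h [])
  · exact e0 ▸ key _ (by simp)
  · exact key' 1 (by simp) (by rw [e0]; nf h [])
  · exact e0 ▸ key _ (by simp)
  · exact key' (h.z * h.b) (by simp) (by rw [e0]; nf h [])
  · exact e0 ▸ key _ (by simp)
  · exact key' h.b (by simp) (by rw [e0]; nf h [])

theorem p_and_g (hk : KitStmt.{u}) : (p h = 1 ∨ p h = h.z) ∧ h.g ≠ 1 := by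
  obtain ⟨ν, τ, e, hτ, em⟩ := exists_μ h hk
  have S := sg h e hτ em
  generalize ν * h.s * ν⁻¹ = σ at S
  have hp' := p_cases h hk S
  refine ⟨hp', fun hg => ?_⟩
  have r3 : cv h.z h.r = h.a := h.zr
  have r4 : cv h.a h.r = h.a * h.z := h.ar
  have hr := r_R h
  have q1 : φ h (cv h.t σ) = h.z * (h.a * p h) := by rw [φ_σ h S (pt_t h), φ_t, mul_one, S.z]
  obtain ⟨c, hc, ec⟩ : ∃ c ∈ normalizer (h.R : Set G), φ h (cv h.t c) = h.z := by
    rcases hp' with k | k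
    · exact ⟨_, mul_mem S.nR hr, by
        rw [cv_cv, φ_r, q1]; simp only [k, cv_mul, r3, r4, cv_one]; nf h []⟩
    · exact ⟨_, mul_mem (mul_mem S.nR hr) hr, by
        rw [cv_cv, cv_cv, φ_r, φ_r, q1]; simp only [k, cv_mul, r3, r4, cv_one]; nf h []⟩
  have h1 := W_to h e (pt_W h (pt_x1 h) (pt_conj h hc (pt_t h)) ((φ_x1 h).trans ec.symm))
  rw [cv_mul, x1ν h e, ← cv_cv] at h1
  obtain ⟨k, k1, k2⟩ := tr2 h hg h1
  have WE : h.W2 ≤ h.E2 := closure_mono fun _ k => Or.inr k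
  refine no_swap h (hk G h.toHyp) (by
    rcases h.alt with a | a | a
    exacts [a.2.1 ▸ hg, a.2.1, a.2.1 ▸ hg]) (d := c * ν * k⁻¹) (by rw [cv_cv, cv_inv_of k1])
    fun u => cv_closure ?_
  rintro v (rfl | hv)
  · rw [cv_cv, cv_inv_of k1]; exact Z_E2 h.toHyp (tZ _)
  · have h2 := W_to h e (W_N h hc (subset_closure hv))
    rw [cv_cv, cv_cv, cv_inv_of (k2 _ h2)]
    exact WE h2


omit [Finite G] h in
theorem hh (hk : KitStmt.{u}) : HHStmt.{u} := fun _ _ _ h => (p_and_g h hk).2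

end Cfsg.Agent.H42.N75
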