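/-
Symmetries and coordinates for the configuration `T₀ = ⟨t⟩ × ⟨f⟩ × D₈`.
-/
import Mathlib
import Cfsg.Agent.H42.N7Defs
import Cfsg.Agent.H24.MKit

set_option autoImplicit false

namespace Cfsg.Agent.H42.N81

open Subgroup Cfsg.Agent.H85 Cfsg.Agent.H42.N7
open Cfsg.Agent.H24.MH hiding Pre

universe u

variable {G : Type u} [Group G]

theorem cn_mul (x y g : G) : cn (x * y) g = cn x g * cn y g := by simp [mul_assoc]
theorem cn_cn (x g k : G) : cn x (g * k) = cn (cn x g) k := by simp [mul_assoc]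
theorem cn_of {x g : G} (c : Commute x g) : cn x g = x := by
  rw [cn, mul_assoc, c.eq, inv_mul_cancel_left]
theorem of_cn {x g : G} (e : cn x g = x) : Commute x g := by
  rw [cn, mul_assoc, inv_mul_eq_iff_eq_mul] at e; exact e
theorem cn_inv {x y g : G} (e : cn x g = y) : cn y g⁻¹ = x := by rw [← e]; simp [mul_assoc]
theorem cn_inj {x y g : G} (e : cn x g = cn y g) : x = y := by simpa using e
theorem cn_mem {Q : Subgroup G} {x g : G} (hg : g ∈ normalizer (Q : Set G)) (hx : x ∈ Q) :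
    cn x g ∈ Q := mem_cj.1 ((cj_eq_of_mem_normalizer hg).symm ▸ hx)

theorem cl_mul {s : Set G} {x : G} (y : G) (hx : x ∈ closure s) :
    closure (insert (y * x) s) = closure (insert y s) := by
  have a : ∀ w, closure s ≤ closure (insert w s) := fun w => closure_mono (Set.subset_insert _ _)
  have b : ∀ w, w ∈ closure (insert w s) := fun w => subset_closure (Set.mem_insert _ _)
  refine le_antisymm ((closure_le _).2 (Set.insert_subset (mul_mem (b y) (a y hx))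
    fun w hw => a y (subset_closure hw))) ((closure_le _).2 (Set.insert_subset ?_
      fun w hw => a _ (subset_closure hw)))
  simpa using mul_mem (b (y * x)) (inv_mem (a _ hx))

theorem ea_comm {E : Subgroup G} (e : EA E) {x y : G} (hx : x ∈ E) (hy : y ∈ E) : Commute x y := by
  have := e _ (mul_mem hx hy)
  rw [← eq_inv_iff_mul_eq_one, mul_inv_rev, inv_eq_of_mul_eq_one_right (e x hx),
    inv_eq_of_mul_eq_one_right (e y hy)] at this
  exact this

section basic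
variable (h : Hyp G)

theorem z_eq : h.z = h.a⁻¹ * cn h.a h.b := by rw [h.ab, inv_mul_cancel_left]

theorem ba : cn h.b h.a = h.b * h.z := by
  have e : h.a * h.b = h.b * (h.a * h.z) := by rw [← h.ab]; group
  rw [cn, inv_eq_of_mul_eq_one_right h.aa, e, mul_assoc, mul_assoc, h.za.eq, ← mul_assoc h.a, h.aa,
    one_mul]

theorem comm_z {x : G} (ca : Commute x h.a) (cb : Commute x h.b) : Commute x h.z :=
  z_eq h ▸ ca.inv_right.mul_right ((cb.inv_right.mul_right ca).mul_right cb)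

theorem tz : Commute h.t h.z := comm_z h h.ta h.tb
theorem fz : Commute h.f h.z := comm_z h h.fa h.fb

theorem z_mem {s : Set G} (ha : h.a ∈ s) (hb : h.b ∈ s) : h.z ∈ closure s :=
  z_eq h ▸ mul_mem (inv_mem (subset_closure ha)) (mul_mem (mul_mem (inv_mem (subset_closure hb))
    (subset_closure ha)) (subset_closure hb))

theorem ze : cn h.z h.e = h.z := by
  rcases h.he with e | ⟨e1, e2, -⟩
  · simp [e]
  · have : cn h.z h.e = (cn h.a h.e)⁻¹ * cn (cn h.a h.e) (cn h.b h.e) := by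
      rw [z_eq h]; simp [mul_assoc]
    rw [this, e1, e2, ba, inv_mul_cancel_left]

theorem zL : h.z ∈ h.L := (mem_inf.1 (h.LiT ▸ z_mem h (by simp) (by simp))).1

theorem fzz : h.f * h.z * h.z = h.f := by rw [mul_assoc, h.zz, mul_one]

theorem fzfz : h.f * h.z * (h.f * h.z) = 1 := by
  rw [mul_assoc, ← mul_assoc h.z, ← (fz h).eq, fzz, h.ff]

theorem he_mir : h.e = 1 ∨ (cn h.b h.e = h.a ∧ cn h.a h.e = h.b ∧
    cn (h.f * h.z) h.e = h.f * h.z * h.z ∧ (h.e * h.e = 1 ∨ h.e * h.e = h.t)) :=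
  h.he.imp_right fun ⟨a, b, c, d⟩ => ⟨b, a, by rw [cn_mul, c, ze], d⟩

/-- The mirror image. -/
def mir : Hyp G :=
  { h.toBase with
    L := h.L, T := h.T, f := h.f * h.z, a := h.b, b := h.a, z := h.z, e := h.e, r := h.s, s := h.r
    aa := h.bb, bb := h.aa, zz := h.zz, z1 := h.z1, ab := ba h, za := h.zb, zb := h.za
    ta := h.tb, tb := h.ta, tf := h.tf.mul_right (tz h), te := h.te
    fa := h.fb.mul_left h.zb, fb := h.fa.mul_left h.za
    ff' := Or.inl (fzfz h)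
    he' := (he_mir h).imp_right fun ⟨a, b, c, d⟩ => ⟨a, b, Or.inl c, d⟩
    hT := by
      rw [Set.insert_comm h.t, cl_mul _ (z_mem h (by simp) (by simp)), Set.insert_comm h.f,
        Set.insert_comm h.b, h.hT]
    syl := h.syl, LC := h.LC, Ln := h.Ln, LiT := by rw [Set.pair_comm, h.LiT]
    tL := h.tL, fL := fun r => h.fL ((mul_mem_cancel_right (zL h)).1 r)
    tfL := fun r => h.tfL ((mul_mem_cancel_right (zL h)).1 (by rwa [mul_assoc]))
    CL := h.CL, rt := h.st, rf := h.sf, zr := h.zs, ar := h.bs, ro := h.so, st := h.rt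
    sf := (fzz h).symm ▸ h.rf, zs := h.zr, bs := h.ar, so := h.ro, ff := fzfz h, he := he_mir h }

theorem ftft : h.f * h.t * (h.f * h.t) = 1 := by
  rw [mul_assoc, ← mul_assoc h.t, h.tf.eq, mul_assoc, h.tt, mul_one, h.ff]

theorem he_ft : h.e = 1 ∨ (cn h.a h.e = h.b ∧ cn h.b h.e = h.a ∧
    cn (h.f * h.t) h.e = h.f * h.t * h.z ∧ (h.e * h.e = 1 ∨ h.e * h.e = h.t)) :=
  h.he.imp_right fun ⟨a, b, c, d⟩ => ⟨a, b, by
    rw [cn_mul, c, cn_of h.te, mul_assoc, mul_assoc, (tz h).eq], d⟩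

/-- Replacing `f` by `f t`. -/
def ft : Hyp G :=
  { h with
    f := h.f * h.t, tf := h.tf.mul_right (Commute.refl _)
    fa := h.fa.mul_left h.ta, fb := h.fb.mul_left h.tb
    ff' := Or.inl (ftft h)
    he' := (he_ft h).imp_right fun ⟨a, b, c, d⟩ => ⟨a, b, Or.inl c, d⟩
    hT := by
      rw [Set.insert_comm h.t, cl_mul _ (subset_closure (by simp)), Set.insert_comm h.f, h.hT]
    fL := h.tf.eq ▸ h.tfL
    tfL := by rw [← h.tf.eq, ← mul_assoc, h.tt, one_mul]; exact h.fL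
    rf := h.rf.mul_right h.rt
    sf := by rw [mul_assoc, (tz h).eq, ← mul_assoc]; exact h.sf.mul_right h.st
    ff := ftft h, he := he_ft h }

theorem cl_aux (x y : G) (s : Set G) (w : G) {c : G} (hc : c = x ∨ c = y) :
    closure (insert x (insert y (insert (w * c) s))) = closure (insert x (insert y (insert w s))) := by
  rw [Set.insert_comm y, Set.insert_comm x, cl_mul _ (subset_closure (by rcases hc with r | r <;> simp [r])),
    Set.insert_comm w, Set.insert_comm w]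

theorem mir_E1 : (mir h).E1 = h.E2 := cl_aux _ _ _ _ (Or.inr rfl)
theorem mir_E2 : (mir h).E2 = h.E1 := cl_aux _ _ _ _ (Or.inr rfl)
theorem ft_E1 : (ft h).E1 = h.E1 := cl_aux _ _ _ _ (Or.inl rfl)
theorem ft_E2 : (ft h).E2 = h.E2 := cl_aux _ _ _ _ (Or.inl rfl)
theorem mir_Z : (mir h).Z = h.Z := by
  show closure {h.t, h.z, h.f * h.z} = closure {h.t, h.z, h.f}
  simpa using cl_aux h.t h.z ∅ h.f (Or.inr rfl)
theorem mir_P : (mir h).P = h.P := by
  show closure {h.z, h.f * h.z} = closure {h.z, h.f}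
  rw [Set.pair_comm, cl_mul _ (subset_closure (by simp)), Set.pair_comm]
theorem mir_T0 : (mir h).T0 = h.T0 := by
  show closure {h.t, h.f * h.z, h.b, h.a} = closure {h.t, h.f, h.a, h.b}
  rw [Set.insert_comm h.t, cl_mul _ (z_mem h (by simp) (by simp)), Set.insert_comm h.f,
    Set.pair_comm h.b]
theorem mir_N0 {n : G} : (mir h).N0 n ↔ h.N0 n := by
  rw [H42.N7.Pre.N0, mir_E1, mir_E2]; exact and_comm
theorem ft_N0 {n : G} : (ft h).N0 n ↔ h.N0 n := by rw [H42.N7.Pre.N0, ft_E1, ft_E2]; rfl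

/-- Coordinates of `E₁`: `t = 1`, `f = 2`, `a = 4`, `z = 8`. -/
def σ : ℕ → G := vecL [h.t, h.f, h.a, h.z]

theorem pre : H24.MH.Pre (σ h) :=
  pre_vecL h.tf h.ta (tz h) h.fa (fz h) h.za.symm h.tt h.ff h.aa h.zz

theorem s_val : σ h 0 = 1 ∧ σ h 1 = h.t ∧ σ h 2 = h.f ∧ σ h 3 = h.t * h.f ∧ σ h 4 = h.a ∧
    σ h 6 = h.a * h.f ∧ σ h 8 = h.z ∧ σ h 9 = h.t * h.z ∧ σ h 10 = h.f * h.z ∧
    σ h 11 = h.t * h.f * h.z ∧ σ h 12 = h.a * h.z ∧ σ h 14 = h.a * h.f * h.z := by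
  simp [σ, vecL, mul_assoc, h.fa.eq, h.fa.left_comm]

theorem span_le {s : Set G} (L : List ℕ) (h0 : 0 ∈ L) (hl : ∀ u ∈ L, u < 16)
    (hx : ∀ u ∈ L, ∀ v ∈ L, u ^^^ v ∈ L) (hs : ∀ x ∈ s, ∃ v ∈ L, σ h v = x) {x : G}
    (m : x ∈ closure s) : ∃ v ∈ L, σ h v = x := by
  induction m using closure_induction with
  | mem x hx => exact hs x hx
  | one => exact ⟨0, h0, (pre h).zero⟩
  | mul x y _ _ a b =>
    obtain ⟨u, hu, rfl⟩ := a
    obtain ⟨v, hv, rfl⟩ := b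
    exact ⟨_, hx u hu v hv, pre h u (hl u hu) v (hl v hv)⟩
  | inv x _ a =>
    obtain ⟨u, hu, rfl⟩ := a
    exact ⟨u, hu, ((pre h).inv (hl u hu)).symm⟩

theorem of_E1 {x : G} (m : x ∈ h.E1) : ∃ v < 16, σ h v = x := by
  simpa using span_le h (List.range 16) (by decide) (by decide) (by decide) (by
    rintro _ (rfl | rfl | rfl | rfl)
    exacts [⟨1, by decide, vecL_1 ..⟩, ⟨8, by decide, vecL_8 ..⟩, ⟨2, by decide, vecL_2 ..⟩,
      ⟨4, by decide, vecL_4 ..⟩]) m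

theorem s_mem (v : ℕ) : σ h v ∈ h.E1 := vecL_mem (by
  simp only [List.forall_mem_cons, List.not_mem_nil, IsEmpty.forall_iff, implies_true, and_true]
  refine ⟨?_, ?_, ?_, ?_⟩ <;> exact subset_closure (by simp)) v

/-- The codes of `Z`. -/
def Zc : List ℕ := [0, 1, 2, 3, 8, 9, 10, 11]

theorem of_Z {x : G} (m : x ∈ h.Z) : ∃ v ∈ Zc, σ h v = x :=
  span_le h Zc (by decide) (by decide) (by decide) (by
    rintro _ (rfl | rfl | rfl)
    exacts [⟨1, by decide, vecL_1 ..⟩, ⟨8, by decide, vecL_8 ..⟩, ⟨2, by decide, vecL_2 ..⟩]) m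

theorem of_P {x : G} (m : x ∈ h.P) : x = 1 ∨ x = h.f ∨ x = h.z ∨ x = h.f * h.z := by
  simpa [s_val h, eq_comm] using span_le h [0, 2, 8, 10] (by decide) (by decide) (by decide) (by
    rintro _ (rfl | rfl)
    exacts [⟨8, by decide, vecL_8 ..⟩, ⟨2, by decide, vecL_2 ..⟩]) m

theorem zP : h.z ∈ h.P := subset_closure (by simp)
theorem fP : h.f ∈ h.P := subset_closure (by simp)
theorem tZ : h.t ∈ h.Z := subset_closure (by simp)
theorem PZ : h.P ≤ h.Z := closure_mono (by simp)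
theorem ZE1 : h.Z ≤ h.E1 := closure_mono (by simp [Set.insert_subset_iff])
theorem ZE2 : h.Z ≤ h.E2 := closure_mono (by simp [Set.insert_subset_iff])
theorem aE1 : h.a ∈ h.E1 := subset_closure (by simp)
theorem bE2 : h.b ∈ h.E2 := subset_closure (by simp)

theorem Z_cases {x : G} (m : x ∈ h.Z) : ∃ p ∈ h.P, x = p ∨ x = h.t * p := by
  have z := zP h
  have f := fP h
  obtain ⟨v, hv, rfl⟩ := of_Z h m
  simp only [Zc, List.mem_cons, List.not_mem_nil, or_false] at hv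
  rcases hv with rfl | rfl | rfl | rfl | rfl | rfl | rfl | rfl <;> simp only [s_val h]
  exacts [⟨1, one_mem _, Or.inl rfl⟩, ⟨1, one_mem _, Or.inr (mul_one _).symm⟩, ⟨_, f, Or.inl rfl⟩,
    ⟨_, f, Or.inr rfl⟩, ⟨_, z, Or.inl rfl⟩, ⟨_, z, Or.inr rfl⟩, ⟨_, mul_mem f z, Or.inl rfl⟩,
    ⟨_, mul_mem f z, Or.inr (mul_assoc _ _ _)⟩]

theorem s_Z {v : ℕ} (hv : v ∈ Zc) : σ h v ∈ h.Z := by
  have z := PZ h (zP h)
  have f := PZ h (fP h)
  have t := tZ h
  simp only [Zc, List.mem_cons, List.not_mem_nil, or_false] at hv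
  rcases hv with rfl | rfl | rfl | rfl | rfl | rfl | rfl | rfl <;> simp only [s_val h] <;>
    simp only [one_mem, mul_mem, z, f, t]

theorem E1_T0 : h.E1 ≤ h.T0 := (closure_le _).2 (by
  rintro _ (rfl | rfl | rfl | rfl)
  exacts [subset_closure (by simp), z_mem h (by simp) (by simp), subset_closure (by simp),
    subset_closure (by simp)])

theorem E2_T0 : h.E2 ≤ h.T0 := mir_E1 h ▸ mir_T0 h ▸ E1_T0 (mir h)

theorem T0_eq : h.T0 = h.E1 ⊔ h.E2 := le_antisymm ((closure_le _).2 (by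
  rintro _ (rfl | rfl | rfl | rfl)
  exacts [mem_sup_left (ZE1 h (tZ h)), mem_sup_left (ZE1 h (PZ h (fP h))), mem_sup_left (aE1 h),
    mem_sup_right (bE2 h)])) (sup_le (E1_T0 h) (E2_T0 h))

theorem T0_T : h.T0 ≤ h.T := h.hT ▸ closure_mono (by simp [Set.insert_subset_iff])

theorem D0_T0 : h.D0 ≤ h.T0 := closure_mono (by simp [Set.insert_subset_iff])

theorem eT : h.e ∈ h.T := h.hT ▸ subset_closure (by simp)

theorem ncomm : ¬ Commute h.a h.b := fun c => h.z1 (by simpa [cn_of c] using h.ab.symm)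

theorem cen_T0 {x c : G} (hx : x ∈ h.Z) (hc : c ∈ h.T0) : cn x c = x := by
  have : h.Z ≤ centralizer {h.t, h.f, h.a, h.b} := (closure_le _).2 (by
    rintro _ (rfl | rfl | rfl) _ (rfl | rfl | rfl | rfl)
    exacts [rfl, h.tf.symm, h.ta.symm, h.tb.symm, tz h, fz h, h.za.symm, h.zb.symm, h.tf, rfl,
      h.fa.symm, h.fb.symm])
  rw [← centralizer_closure] at this
  exact cn_of (this hx c hc).symm

theorem ac_of {n : G} {c0 c1 c2 c3 : ℕ} (l0 : c0 < 16) (l1 : c1 < 16) (l2 : c2 < 16) (l3 : c3 < 16)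
    (e0 : cn h.t n = σ h c0) (e1 : cn h.f n = σ h c1) (e2 : cn h.a n = σ h c2)
    (e3 : cn h.z n = σ h c3) : Act (σ h) n⁻¹ (c0 + 16 * c1 + 256 * c2 + 4096 * c3) := by
  refine (pre h).act_of_basis (by omega) ?_ ?_ ?_ ?_ <;> simp only [s_val h, inv_inv, col_eq]
  · rw [← cn, e0]; congr 1; omega
  · rw [← cn, e1]; congr 1; omega
  · rw [← cn, e2]; congr 1; omega
  · rw [← cn, e3]; congr 1; omega

theorem ac_cn {n : G} {M : ℕ} (a : Act (σ h) n⁻¹ M) {v : ℕ} (hv : v < 16) :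
    cn (σ h v) n = σ h (mm M v) := by simpa using a.2 v hv

theorem acB : Act (σ h) h.b⁻¹ 35873 :=
  ac_of h (c0 := 1) (c1 := 2) (c2 := 12) (c3 := 8) (by decide) (by decide) (by decide) (by decide)
    (by rw [cn_of h.tb, s_val h |>.2.1]) (by simp only [cn_of h.fb, s_val h])
    (by simp only [h.ab, s_val h]) (by simp only [cn_of h.zb, s_val h])

theorem acR : Act (σ h) h.r⁻¹ 19489 :=
  ac_of h (c0 := 1) (c1 := 2) (c2 := 12) (c3 := 4) (by decide) (by decide) (by decide) (by decide)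
    (by simp only [cn_of h.rt.symm, s_val h]) (by simp only [cn_of h.rf.symm, s_val h])
    (by simp only [h.ar, s_val h]) (by simp only [h.zr, s_val h])

theorem ac_norm [Finite G] {n : G} {M : ℕ} (a : Act (σ h) n⁻¹ M) : n ∈ normalizer (h.E1 : Set G) :=
  inv_mem_iff.1 (mem_normalizer_of_cj_le (by
    rintro _ ⟨x, hx, rfl⟩
    obtain ⟨v, hv, rfl⟩ := of_E1 h hx
    show n⁻¹ * σ h v * n⁻¹⁻¹ ∈ _
    exact (a.2 v hv).symm ▸ s_mem h _))

theorem exists_ac {n : G} (hn : n ∈ normalizer (h.E1 : Set G)) : ∃ M, Act (σ h) n⁻¹ M := by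
  obtain ⟨_, l0, e0⟩ := of_E1 h (cn_mem hn (ZE1 h (tZ h)))
  obtain ⟨_, l1, e1⟩ := of_E1 h (cn_mem hn (ZE1 h (PZ h (fP h))))
  obtain ⟨_, l2, e2⟩ := of_E1 h (cn_mem hn (aE1 h))
  obtain ⟨_, l3, e3⟩ := of_E1 h (cn_mem hn (ZE1 h (PZ h (zP h))))
  exact ⟨_, ac_of h l0 l1 l2 l3 e0.symm e1.symm e2.symm e3.symm⟩

theorem ac_cl {s : Set G} (L : List ℕ) (h0 : I4 ∈ L)
    (hx : ∀ M ∈ L, (∀ N ∈ L, mm M N ∈ L) ∧ ∃ N ∈ L, N < 65536 ∧ mm M N = I4)
    (hs : ∀ x ∈ s, ∃ M ∈ L, Act (σ h) x⁻¹ M) {x : G} (m : x ∈ closure s) :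
    ∃ M ∈ L, Act (σ h) x⁻¹ M := by
  induction m using closure_induction with
  | mem x hx => exact hs x hx
  | one => exact ⟨_, h0, by rw [inv_one]; exact Act.one⟩
  | mul x y _ _ a b =>
    obtain ⟨M, hM, a⟩ := a
    obtain ⟨N, hN, b⟩ := b
    exact ⟨_, (hx N hN).1 M hM, mul_inv_rev x y ▸ b.mul a⟩
  | inv x _ a =>
    obtain ⟨M, hM, a⟩ := a
    obtain ⟨N, hN, l, e⟩ := (hx M hM).2
    exact ⟨N, hN, a.inv e l⟩

theorem comm12 {u w : G} (hu : u ∈ h.E1) (hw : w ∈ h.T0) : cn u w = u ∨ cn u w = u * h.z := by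
  obtain ⟨v, hv, rfl⟩ := of_E1 h hu
  have k : ∀ c < 16, Act (σ h) (σ h c)⁻¹ I4 := fun c hc => ((pre h).inv hc).symm ▸ (pre h).act_self hc
  obtain ⟨M, hM, a⟩ := ac_cl h [I4, 35873] (by decide) (by decide) (by
    rintro _ (rfl | rfl | rfl | rfl)
    exacts [⟨_, by decide, (s_val h).2.1 ▸ k 1 (by decide)⟩,
      ⟨_, by decide, (s_val h).2.2.1 ▸ k 2 (by decide)⟩,
      ⟨_, by decide, (s_val h).2.2.2.2.1 ▸ k 4 (by decide)⟩, ⟨_, by decide, acB h⟩]) hw
  rw [ac_cn h a hv]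
  refine ((by decide : ∀ M ∈ [I4, 35873], ∀ v < 16, mm M v = v ∨ mm M v = v ^^^ 8) M hM v hv).imp
    (congrArg _) fun e => ?_
  rw [e, pre h v hv 8 (by decide), show σ h 8 = h.z from vecL_8 ..]

theorem fix2 {w w' A B : G} (hw : w ∈ h.Z) (hw' : w' ∈ h.Z) (hA : A = h.a * w ∨ A = h.a * w * h.z)
    (hB : B = h.b * w' ∨ B = h.b * w' * h.z) :
    ∃ c ∈ h.D0, cn A c = h.a * w ∧ cn B c = h.b * w' := by
  have a0 : h.a ∈ h.D0 := subset_closure (by simp)
  have b0 : h.b ∈ h.D0 := subset_closure (by simp)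
  have zT := E1_T0 h (ZE1 h (PZ h (zP h)))
  have k : ∀ w ∈ h.Z, ∀ x, x * h.z * w * h.z = x * w := fun w hw x => by
    rw [mul_assoc x, ← (of_cn (cen_T0 h hw zT)).eq, mul_assoc, mul_assoc, h.zz, mul_one]
  have ca := fun w hw => cen_T0 h (x := w) hw (D0_T0 h a0)
  have cb := fun w hw => cen_T0 h (x := w) hw (D0_T0 h b0)
  have za := cn_of h.za
  have zb := cn_of h.zb
  have aa := cn_of (Commute.refl h.a)
  have bb := cn_of (Commute.refl h.b)
  rcases hA with rfl | rfl <;> rcases hB with rfl | rfl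
  · exact ⟨1, one_mem _, by simp, by simp⟩
  · exact ⟨_, a0, by rw [cn_mul, aa, ca w hw], by rw [cn_mul, cn_mul, ba, ca _ hw', za, k _ hw']⟩
  · exact ⟨_, b0, by rw [cn_mul, cn_mul, h.ab, cb _ hw, zb, k _ hw], by rw [cn_mul, bb, cb _ hw']⟩
  · exact ⟨_, mul_mem a0 b0, by
      rw [cn_cn, cn_mul _ _ h.a, cn_mul _ _ h.a, aa, ca w hw, za, cn_mul, cn_mul, h.ab, cb _ hw, zb,
        k _ hw], by
      rw [cn_cn, cn_mul _ _ h.a, cn_mul _ _ h.a, ba, ca _ hw', za, k _ hw', cn_mul, bb, cb _ hw']⟩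

end basic

end Cfsg.Agent.H42.N81
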