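import Cfsg.Agent.H42.N7KAl1
import Cfsg.Agent.H42.N7Defs

/-! The odd part of the centraliser of a `2`-group over `T₀`, and the alignment lemma. -/

set_option autoImplicit false

namespace Cfsg.Agent.H42.N42

open Subgroup Cfsg.Agent.H85 Cfsg.Agent.H42.N7 Cfsg.Agent.H42.N3

universe u

variable {G : Type u} [Group G] [Finite G]

omit [Finite G] in
theorem odd_order {O : Subgroup G} (hO : Odd (Nat.card O)) {o : G} (ho : o ∈ O) :
    Odd (orderOf o) := hO.of_dvd_nat (by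
  simpa using orderOf_dvd_natCard (⟨o, ho⟩ : O))

/-- an element of odd order centralising `T₀` and normalising `Q` centralises `Q` -/
theorem cent_of_odd {h : Hyp G} (k : Kit h) {Q : Subgroup G} (pQ : IsPGroup 2 Q) (h1 : h.T0 ≤ Q)
    (h2 : Q ≤ normalizer (h.T0 : Set G)) {o : G} (ho : Odd (orderOf o))
    (hc : o ∈ centralizer (h.T0 : Set G)) (hn : o ∈ normalizer (Q : Set G)) :
    o ∈ centralizer (Q : Set G) := by
  have tT : h.t ∈ h.T0 := Z_T0 h (tZ h)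
  have ot : Commute h.t o := hc _ tT
  set R := Q ⊓ centralizer {h.t}
  have pR : IsPGroup 2 R := pQ.to_inf_left
  have TR : h.T0 ≤ R := le_inf h1 (T0_ct h)
  have oR : ∀ x ∈ R, cn x o ∈ R := fun x hx => ⟨cn_mem hn hx.1, ct.2 (by
    have := comm_cn (ct.1 hx.2) o
    rwa [cn_comm ot] at this)⟩
  have cR : o ∈ centralizer (R : Set G) := by
    rcases k.cT2 R pR TR inf_le_right with e | ⟨-, e, -⟩
    · rwa [e]
    · intro x hx
      by_cases hx0 : x ∈ h.T0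
      · exact hc x hx0
      · refine comm_of_odd (pT0 h) ho hc (mul_mem_of_card TR (by rw [e, k.cT0]) (inv_mem hx)
          (oR x hx) (fun l => hx0 (inv_mem_iff.1 l)) fun l => hx0 ?_)
        exact cn_mem' (centralizer_le_normalizer _ hc) l
  intro q (hq : q ∈ Q)
  refine comm_of_odd pR ho cR (mem_inf.2 ⟨mul_mem (inv_mem hq) (cn_mem hn hq), ct.2 ?_⟩)
  have e1 : cn (cn h.t q⁻¹) o = cn h.t q⁻¹ := cn_comm (hc _ (cn_mem (h2 (inv_mem hq)) tT))
  refine comm_of_cn ?_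
  calc cn h.t (q⁻¹ * cn q o) = cn (cn (cn (cn h.t q⁻¹) o⁻¹) q) o := by simp only [cn]; group
    _ = h.t := by
      have e2 : cn (cn h.t q⁻¹) o⁻¹ = cn h.t q⁻¹ := by
        nth_rw 1 [← e1]; simp only [cn]; group
      rw [e2, ← cn_mul h.t, inv_mul_cancel]
      simpa [cn] using cn_comm ot

theorem o1 (hk : KitStmt.{u}) : O1Stmt.{u} := by
  intro G _ _ h Q pQ h1 h2 h3
  have K := hk G h
  have k := kitA_of K
  obtain ⟨O0, e0, o0, d0⟩ := exists_odd_compl (sylZ k) fun x hx v hv => (hx v (Z_T0 h hv)).symm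
  obtain ⟨O, hO, hN⟩ := exists_O1 k h1
  have le0 : O ≤ O0 := fun o ho => (e0 o).2 ⟨centralizer_le h1 ((hO o).1 ho).1, ((hO o).1 ho).2⟩
  refine ⟨O, o0.of_dvd_nat (card_dvd_of_le le0), fun o ho => ((hO o).1 ho).1, hN, ?_, ?_⟩
  · intro c hc
    obtain ⟨u, hu, o, ho, rfl⟩ := d0 c (centralizer_le h1 hc)
    have uQ : u ∈ Q := h1 (Z_T0 h hu)
    refine ⟨u, uQ, o, (hO o).2 ⟨cent_of_odd K pQ h1 h2 ((e0 o).1 ho).2 ((e0 o).1 ho).1 ?_,
      ((e0 o).1 ho).2⟩, rfl⟩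
    exact (mul_mem_cancel_left (le_normalizer uQ)).1 (centralizer_le_normalizer _ hc)
  · intro c c1 c2 c3
    obtain ⟨O', p1, p2, -, p4⟩ := K.nT0
    obtain ⟨u, hu, o, ho, rfl⟩ := p4 c c1 c3
    exact ⟨u, hu, o, (hO o).2 ⟨cent_of_odd K pQ h1 h2 (odd_order p1 ho) (p2 ho)
      ((mul_mem_cancel_left (h3 hu)).1 c2), odd_order p1 ho⟩, rfl⟩

/-- The last clause of `O1Stmt` for an element which also centralises `f`: the `T`-part lies in
`T₀`. -/
theorem mem_T0O {h : Hyp G} (K : Kit h) {Q O : Subgroup G} (h1 : h.T0 ≤ Q)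
    (OC : O ≤ centralizer (Q : Set G))
    (h5 : ∀ c ∈ centralizer ({h.t} : Set G), c ∈ normalizer (Q : Set G) →
      c ∈ normalizer (h.T0 : Set G) → ∃ u ∈ h.T, ∃ o ∈ O, c = u * o)
    (hC : ∀ x ∈ Q, Commute h.t x → x ∈ h.T0) {c : G} (ct' : Commute h.t c) (cf : Commute h.f c)
    (cN : c ∈ normalizer (Q : Set G)) : ∃ u ∈ h.T0, ∃ o ∈ O, c = u * o := by
  have fT : h.f ∈ h.T0 := Z_T0 h (fZ h)
  obtain ⟨u, hu, o, ho, rfl⟩ := h5 c (ct.2 ct') cN (mem_N fun x hx => hC _ (cn_mem cN (h1 hx)) (by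
    have := comm_cn (ct.1 (T0_ct h hx)) c
    rwa [cn_comm ct'] at this))
  refine ⟨u, (mem_T (kitA_of K) hu).resolve_right fun e => h.z1 ?_, o, ho, rfl⟩
  have c1 : Commute h.f o := OC ho _ (h1 fT)
  have c2 : Commute h.f u := by simpa using cf.mul_right c1.inv_right
  have c3 : Commute h.f (u * h.e⁻¹) := (Z_cent h (fZ h) _ e.2).symm
  have c4 : Commute h.f h.e := by simpa using (c3.inv_right.mul_right c2)
  simpa using (cn_comm c4).symm.trans (e_of h e.1).2.2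

/-- ALIGNMENT.  `c` acts on `Q` as `(m g)³`, `c² = τ`, `c ^ m = σ c⁻¹` with the explicit
`σ = g² · (m² g²)^(m g) · (m² g²)^((m g)²) · (m²)^((m g)³)` in `Q`. -/
theorem alignment {Q O : Subgroup G} (pQ : IsPGroup 2 Q) (oO : Odd (Nat.card O))
    (OC : O ≤ centralizer (Q : Set G)) (NO : normalizer (Q : Set G) ≤ normalizer (O : Set G))
    {m g τ o : G} (hm : m ∈ normalizer (Q : Set G)) (hg : g ∈ normalizer (Q : Set G))
    (mm : m * m ∈ Q) (gg : g * g ∈ Q) (hτ : τ ∈ Q) (ho : o ∈ O) (h6 : (m * g) ^ 6 = τ * o) :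
    ∃ c : G, (∃ o' ∈ O, c = (m * g) ^ 3 * o') ∧ c ∈ normalizer (Q : Set G) ∧
      (∀ u ∈ Q, cn u c = cn u ((m * g) ^ 3)) ∧ c * c = τ ∧ cn τ (m * g) = τ ∧
      cn c m = (g * g * cn (m * m * (g * g)) (m * g) * cn (m * m * (g * g)) ((m * g) ^ 2) *
        cn (m * m) ((m * g) ^ 3)) * c⁻¹ ∧
      IsPGroup 2 ((Q ⊔ zpowers m) ⊔ zpowers c : Subgroup G) := by
  have g0N : m * g ∈ normalizer (Q : Set G) := mul_mem hm hg
  have cN : (m * g) ^ 3 ∈ normalizer (Q : Set G) := pow_mem g0N 3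
  have hσ : g * g * cn (m * m * (g * g)) (m * g) * cn (m * m * (g * g)) ((m * g) ^ 2) *
      cn (m * m) ((m * g) ^ 3) ∈ Q := mul_mem (mul_mem (mul_mem gg (cn_mem g0N (mul_mem mm gg)))
        (cn_mem (pow_mem g0N 2) (mul_mem mm gg))) (cn_mem cN mm)
  have eσ : g * g * cn (m * m * (g * g)) (m * g) * cn (m * m * (g * g)) ((m * g) ^ 2) *
      cn (m * m) ((m * g) ^ 3) = cn ((m * g) ^ 3) m * (m * g) ^ 3 := by
    simp only [cn, pow_succ, pow_zero, one_mul]; group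
  generalize g * g * cn (m * m * (g * g)) (m * g) * cn (m * m * (g * g)) ((m * g) ^ 2) *
      cn (m * m) ((m * g) ^ 3) = σ at hσ eσ ⊢
  have e6 : (m * g) ^ 3 * (m * g) ^ 3 = τ * o := by rw [← pow_add, h6]
  have τ0 : cn τ (m * g) = τ := by
    have e1 : cn (τ * o) (m * g) = τ * o := by
      rw [← h6]; exact cn_comm (Commute.refl _ |>.pow_left 6)
    rw [cn_mul'] at e1
    have e2 : τ⁻¹ * cn τ (m * g) = o * (cn o (m * g))⁻¹ := by
      rw [eq_mul_inv_iff_mul_eq, mul_assoc, e1, inv_mul_cancel_left]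
    have := eq_one_of pQ (mul_mem (inv_mem hτ) (cn_mem g0N hτ))
      (e2 ▸ odd_order oO (mul_mem ho (inv_mem (cn_mem (NO g0N) ho))))
    exact (inv_mul_eq_one.1 this).symm
  generalize (m * g) ^ 3 = d at cN eσ e6 ⊢
  have nB : normalizer (Q : Set G) ≤ normalizer ((O ⊔ Q : Subgroup G) : Set G) :=
    le_normalizer_sup NO le_rfl
  have q1 := pquot_sup pQ (le_normalizer.trans NO)
  set B := O ⊔ Q
  have q2 := q1.trans (pquot_zp (nB hm) (k := 1) (by rw [pow_one, pow_two]; exact mem_sup_right mm))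
  have dN : d ∈ normalizer ((B ⊔ zpowers m : Subgroup G) : Set G) :=
    N_sup (fun v hv => mem_sup_left (cn_mem (nB cN) hv)) (by
      have e : cn m d = (τ * o)⁻¹ * m * σ := by rw [← e6, eσ]; simp only [cn]; group
      rw [e]
      exact mul_mem (mul_mem (inv_mem (mem_sup_left (mul_mem (mem_sup_right hτ) (mem_sup_left ho))))
        (mem_sup_right (mem_zpowers m))) (mem_sup_left (mem_sup_right hσ)))
  have q3 := q2.trans (pquot_zp dN (k := 1) (by
    rw [pow_one, pow_two, e6]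
    exact mem_sup_left (mul_mem (mem_sup_right hτ) (mem_sup_left ho))))
  set Γ := B ⊔ zpowers m ⊔ zpowers d
  have hΓ : Γ ≤ normalizer (O : Set G) := le_trans (sup_le (sup_le (sup_le
    (fun o ho => centralizer_le_normalizer _ (OC ho)) le_normalizer) (zpowers_le_of_mem hm))
    (zpowers_le_of_mem cN)) NO
  have pm : IsPGroup 2 (Q ⊔ zpowers m : Subgroup G) :=
    (pquot_zp hm (k := 1) (by rw [pow_one, pow_two]; exact mm)).isPGroup pQ
  obtain ⟨S, hS, hQS⟩ := exists_isSyl_ge (H := Γ) pm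
    ((sup_le_sup_right le_sup_right _).trans le_sup_left)
  have OΓ : O ≤ Γ := (le_sup_left.trans le_sup_left).trans le_sup_left
  obtain ⟨o1, ho1, c, hc, e⟩ := (mem_sup_of_le_normalizer (hS.le.trans hΓ)).1
    ((hS.sup_eq_of_pquot OΓ hΓ q3).ge (mem_sup_right (mem_zpowers d)))
  have ho' : cn o1⁻¹ d ∈ O := cn_mem (NO cN) (inv_mem ho1)
  have ec : c = d * cn o1⁻¹ d := by rw [← e]; simp only [cn]; group
  generalize cn o1⁻¹ d = o' at ho' ec
  have QS : Q ≤ S := le_sup_left.trans hQS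
  have mS : m ∈ S := hQS (mem_sup_right (mem_zpowers m))
  have one : ∀ x ∈ S, x ∈ O → x = 1 := fun x h1 h2 => eq_one_of hS.isPGroup h1 (odd_order oO h2)
  refine ⟨c, ⟨o', ho', ec⟩, ec ▸ mul_mem cN (centralizer_le_normalizer _ (OC ho')), fun u hu => ?_,
    ?_, τ0, ?_, hS.isPGroup.to_le (sup_le hQS (zpowers_le_of_mem hc))⟩
  · rw [ec, cn_mul, cn_comm (OC ho' _ (cn_mem cN hu))]
  · refine (inv_mul_eq_one.1 (one _ (mul_mem (inv_mem (QS hτ)) (mul_mem hc hc)) ?_)).symm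
    have : τ⁻¹ * (c * c) = o * (cn o' d * o') := by
      rw [ec, eq_mul_inv_of_mul_eq e6.symm]; simp only [cn]; group
    exact this ▸ mul_mem ho (mul_mem (cn_mem (NO cN) ho') ho')
  · rw [eq_mul_inv_iff_mul_eq]
    refine (inv_mul_eq_one.1 (one _ (mul_mem (inv_mem (QS hσ))
      (mul_mem (cn_mem (le_normalizer mS) hc) hc)) ?_)).symm
    have : σ⁻¹ * (cn c m * c) = cn (cn o' m) d * o' := by
      rw [ec, eσ]; simp only [cn]; group
    exact this ▸ mul_mem (cn_mem (NO cN) (cn_mem (NO hm) ho')) ho'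

end Cfsg.Agent.H42.N42
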