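import Cfsg.Agent.H42.N7KS3
import Cfsg.Agent.H36.LTS4

/-! The side analysis in case (c). -/

set_option autoImplicit false

namespace Cfsg.Agent.H42.N36

open Subgroup Cfsg.Agent.H36.LTS Cfsg.Agent.H85 Cfsg.Agent.H42.N7 Cfsg.Agent.H42.N81

universe u

variable {G : Type u} [Group G] [Finite G] {y Y α β p : G}

theorem sideC {h : Hyp G} (k : Kit h) (D : Y0 h.t h.z h.f h.a h.b y Y α β)
    (DP : ∀ u ∈ h.P, ¬ IsConj h.t u) : ∃ ρ R, Sd h.t h.z h.f h.a h.b ρ R ∧ y ∈ R ∧ Y ∈ R := by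
  have B := b1 h
  have z0 : h.z ∈ closure ({h.t, h.f, h.a, h.b} : Set G) := zT h (by memc) (by memc)
  have z1 : h.z ∈ closure ({y, h.t, h.f, h.a, h.b} : Set G) := zT h (by memc) (by memc)
  have yY : cv y Y = y * (y⁻¹ * cv y Y) := by simp
  have yZ : y⁻¹ * cv y Y ∈ closure ({y, h.t, h.f, h.a, h.b} : Set G) :=
    (closure_le _).2 (by rintro _ (rfl | rfl | rfl) <;> memc) D.yZ
  generalize y⁻¹ * cv y Y = d at yY yZ
  obtain ⟨ρ, R, S, e⟩ := side (b0 k) (rr h) k.sylE1 k.aut1 (hA_of B (rr h) fun n _ e => by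
      obtain ⟨w, hw, e | e⟩ := B.memZ e
      · exact (DP w hw (e ▸ isConj_cv _ n)).elim
      · rw [e]
        rcases B.memP hw with rfl | rfl | rfl | rfl
        on_goal 1 => refine ⟨1, ?_, ?_⟩
        on_goal 3 => refine ⟨y, ?_, ?_⟩
        on_goal 5 => refine ⟨y * Y, ?_, ?_⟩
        on_goal 7 => refine ⟨Y, ?_, ?_⟩
        all_goals rcases D.hα with rfl | rfl <;> (try unfold Gd) <;>
          en B [true_and, D.Ay.rw, D.AY.rw] <;> refine ⟨?_, ?_, ?_⟩ <;> memc)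
    (T := closure (insert Y (insert y {h.t, h.f, h.a, h.b})))
    (pg_ins (pg_ins (IsPGroup.of_card (n := 5) k.cT0)
      ((closure_le _).2 (by rintro _ (rfl | rfl) <;> memc) D.yP)
      (by rintro _ (rfl | rfl | rfl | rfl) <;> rcases D.hβ with rfl | rfl <;>
            en B [D.Ay.rw, D.yb] <;> memc))
      ((closure_le _).2 (by rintro _ (rfl | rfl) <;> memc) D.YP)
      (by rintro _ (rfl | rfl | rfl | rfl | rfl) <;> rcases D.hα with rfl | rfl <;>
            en B [D.AY.rw, D.Yb, yY] <;> memc))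
    ((closure_le _).2 (Set.insert_subset
      (nE D.AY (by memc) m2 (by rcases D.hα with rfl | rfl <;> memc))
      (Set.insert_subset (nE D.Ay (by memc) m2 (by memc)) (T0N h)))) (by memc)
  exact ⟨ρ, R, S, e y m2 (.inl D.Ay.hz) (.inl D.Ay.ha), e Y m1 (.inl D.AY.hz)
    (D.hα.imp (fun e => by rw [D.AY.ha, e, one_mul]) fun e => by rw [D.AY.ha, e])⟩

omit [Finite G] in
theorem eact (h : Hyp G) (e : h.e ≠ 1) : cv h.t h.e = h.t ∧ cv h.z h.e = h.z ∧
    cv h.f h.e = h.f * h.z ∧ cv h.a h.e = h.b ∧ cv h.b h.e = h.a :=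
  let ⟨e1, e2, e3, _⟩ := h.he.resolve_left e
  ⟨cv_of h.te, ze h, e3, e1, e2⟩

omit [Finite G] in
theorem Ye (h : Hyp G) (e : h.e ≠ 1) (A : Ac h.t h.z h.f h.a y (h.t * h.f) h.z h.a)
    (ye : cv y h.e = Y) : cv Y h.e = y ∨ cv Y h.e = y * h.f := by
  have B := b1 h
  rw [← ye, ← cv_cv]
  refine (h.he.resolve_left e).2.2.2.imp (fun k => by rw [k, cv_one']) fun k => ?_
  rw [k, cvd]; en B [A.rw]

set_option maxHeartbeats 1000000 in
theorem ncT (hk : KitStmt.{u}) (h : Hyp G) (D : Y1 h.t h.z h.f h.a h.b y Y 1 1 p)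
    (hp : p = 1 ∨ p = h.z) (ye : h.e ≠ 1 → cv y h.e = Y) (DP : ∀ u ∈ h.P, ¬ IsConj h.t u)
    {ρ : G} {R : Subgroup G} (S : Sd h.t h.z h.f h.a h.b ρ R) (hy : y ∈ R) (hY : Y ∈ R)
    (yr : cv y ρ = y) :
    (∃ k : EE0 G, Same h k.toHyp) ∨ ∃ k : HH G, Same h k.toHyp := by
  have K := hk G h
  have K' := hk G (mir h)
  have B := b0 K
  have B' := B.toB1
  have B2 : B0 h.t h.z (h.f * h.z) h.b h.a := b0 K'
  have Ay := D.Ay
  have AY := D.AY
  have D' := D.mir B'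
  have yb := D.yb
  have Yy := D'.yY
  obtain ⟨τ, hτ⟩ : ∃ τ, p = 1 ∧ τ = 1 ∨ p = h.z ∧ τ = h.t :=
    hp.elim (fun e => ⟨_, .inl ⟨e, rfl⟩⟩) fun e => ⟨_, .inr ⟨e, rfl⟩⟩
  obtain ⟨c, m, l, hc, N, ty⟩ := coreN B S (x := y * Y * τ)
    (mul_mem (mul_mem hy hY) (S.ER (by rcases hτ with ⟨-, rfl⟩ | ⟨-, rfl⟩ <;> memc)))
    (by rcases hτ with ⟨rfl, rfl⟩ | ⟨rfl, rfl⟩ <;> en B' [rk D.yY, ri D.yy, ri D.YY, Ay.rw, AY.rw])
    (by rcases hτ with ⟨-, rfl⟩ | ⟨-, rfl⟩ <;> constructor <;> en B' [Ay.rw, AY.rw])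
    (by rcases hτ with ⟨-, rfl⟩ | ⟨-, rfl⟩ <;> en B' [yb, D.Yb])
  obtain ⟨x, ex⟩ : ∃ x, y * Y * τ * c = x := ⟨_, rfl⟩
  rw [ex] at N ty
  obtain ⟨σ, π, n, k, v, N', ty', hπ, hv, Yσ, sw⟩ : ∃ σ π n k v,
      SN h.t h.z (h.f * h.z) h.b h.a σ (x * π) n k ∧ (n * k = x * π ∨ n * k = x * π * (h.t * h.b)) ∧
      π ∈ closure ({h.z, h.f} : Set G) ∧ (v = 1 ∨ v = h.z) ∧ cv (Y * v) σ = Y * v ∧
      (h.e ≠ 1 → cv x h.e = x * π ∧ cv ρ h.e = σ) := by
    by_cases e : h.e = 1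
    · obtain ⟨σ, R', S', hY', hy'⟩ := sideC K' D'.toY0 fun u hu => DP u ((mir_P h).le hu)
      replace S' : Sd h.t h.z (h.f * h.z) h.b h.a σ R' := S'
      obtain ⟨v, vs, hv⟩ := ystar B2 S' hY' D'.Ay D.YY D'.yb D'.hβ
      obtain ⟨c', n, k, hc', N', ty'⟩ := coreN B2 S' (x := x) (ex ▸ mul_mem (mul_mem
          (mul_mem hy' hY') (S'.ER (by rcases hτ with ⟨-, rfl⟩ | ⟨-, rfl⟩ <;> memc)))
          (S'.ER (WE (PW (B'.P_le (by rcases hc with rfl | rfl <;> memc)))))) N.xx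
        ⟨N.A.ht, N.A.hz, by en B' [N.A.rw], N.bx⟩ N.A.ha
      exact ⟨σ, c', n, k, v, N', ty', by rcases hc' with rfl | rfl <;> memc,
        (hv.resolve_right fun e => by eno B [] e.1).2, vs, absurd e⟩
    · obtain ⟨e1, e2, e3, e4, e5⟩ := eact h e
      have N' := N.cj h.e
      rw [e1, e2, e3, e4, e5] at N'
      have e6 : cv x h.e = x * (x⁻¹ * cv x h.e) := by simp
      refine ⟨_, x⁻¹ * cv x h.e, _, _, 1, e6 ▸ N', ?_, ?_, .inl rfl, ?_, fun _ => ⟨e6, rfl⟩⟩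
      · rw [← e6, ← cv_mul]
        exact ty.imp (fun k => by rw [k]) fun k => by rw [k, cv_mul, cv_mul, e1, e4]
      · rw [← ex]
        rcases Ye h e Ay (ye e) with e7 | e7 <;> rcases hτ with ⟨rfl, rfl⟩ | ⟨rfl, rfl⟩ <;>
          rcases hc with rfl | rfl <;>
          en B' [ye e, e1, e2, e3, e7, rk D.yY, ri D.yy, ri D.YY, Ay.rw, AY.rw] <;> memc
      · rw [mul_one, ← ye e, cv_conj, yr]
  have fX := trivial
  have z0 : h.z ∈ closure ({h.t, h.f, h.a, h.b, x, y} : Set G) := zT h (by memc) (by memc)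
  have le : closure ({h.z, h.f} : Set G) ≤ closure ({h.t, h.f, h.a, h.b, x, y} : Set G) :=
    (closure_le _).2 (by rintro _ (rfl | rfl) <;> memc)
  have xg : cn x h.e ∈ closure ({h.t, h.f, h.a, h.b, x, y} : Set G) := by
    by_cases e : h.e = 1
    · rw [e, cn_of (.one_right _)]; memc
    · have := le hπ
      rw [show cn x h.e = _ from (sw e).1]; memc
  have yg : cn y h.e ∈ closure ({h.t, h.f, h.a, h.b, x, y} : Set G) := by
    by_cases e : h.e = 1
    · rw [e, cn_of (.one_right _)]; memc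
    · rw [show cn y h.e = _ from ye e, show Y = y⁻¹ * x * c⁻¹ * τ⁻¹ by rw [← ex]; group]
      rcases hτ with ⟨-, rfl⟩ | ⟨-, rfl⟩ <;> rcases hc with rfl | rfl <;> memc
  have gg : h.e * h.e ∈ closure ({h.t, h.f, h.a, h.b, x, y} : Set G) := by
    rcases h.he with e | ⟨-, -, -, e | e⟩ <;> rw [e] <;> memc
  have wx : x⁻¹ * (x * π) ∈ h.P := by rwa [inv_mul_cancel_left]
  have An := N'.Am B'.mir
  have fn : cv h.f n = h.f := by simpa only [cv_mul, An.hz, mul_left_inj] using An.hf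
  have fσ : cv h.f σ = h.b * (h.z * h.f) := by
    rw [← mul_left_inj h.b, ← N'.zr, ← cv_mul, N'.fr, N'.zr]; en B' []
  have Yt : cv Y h.t = Y * (h.z * h.f) := by rw [cvd]; en B' [AY.rw]
  have yt : cv y h.t = y * h.f := by rw [cvd]; en B' [Ay.rw]
  have cy := fun u (k : cv u y = u) => cv_of' (cm_of k)
  have cY := fun u (k : cv u Y = u) => cv_of' (cm_of k)
  have y1 := And.intro (cy _ Ay.hz) (And.intro (cy _ Ay.hf) (And.intro (cY _ AY.hz) (cY _ AY.hf)))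
  have c0 : c ∈ closure ({h.z, h.f} : Set G) := by rcases hc with rfl | rfl <;> memc
  have v0 : v ∈ closure ({h.z, h.f} : Set G) := by rcases hv with rfl | rfl <;> memc
  obtain ⟨q, hq, eq⟩ : ∃ q ∈ closure ({h.z, h.f} : Set G), y = x * π * τ * (Y * v) * q :=
    ⟨(x * π * τ * (Y * v))⁻¹ * y, by
      rw [← ex]
      rcases B'.memP hπ with rfl | rfl | rfl | rfl <;> rcases hτ with ⟨rfl, rfl⟩ | ⟨rfl, rfl⟩ <;>
        rcases hc with rfl | rfl <;> rcases hv with rfl | rfl <;>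
        en B' [rk D.yY, ri D.yy, ri D.YY, Ay.rw, AY.rw] <;> memc,
      (mul_inv_cancel_left _ _).symm⟩
  have qn : cv q n = q := by rcases B'.memP hq with rfl | rfl | rfl | rfl <;> en B' [fn, An.hz]
  rcases hτ with ⟨rfl, rfl⟩ | ⟨rfl, rfl⟩
  · have yx : cv y x = y := by rw [← ex]; rcases hc with rfl | rfl <;> en B' [D.yY, y1]
    have uw : cv (Y * v) (x * π) = Y * v := by
      rw [← ex]
      rcases B'.memP hπ with rfl | rfl | rfl | rfl <;> rcases hc with rfl | rfl <;>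
        rcases hv with rfl | rfl <;> en B' [Yy, y1, Ay.rw, AY.rw]
    have E := ty.resolve_right (tyE B N yr yt (cy _ Ay.ha) yx)
    have E' := ty'.resolve_right (tyE B2 N' Yσ (by rcases hv with rfl | rfl <;> en B' [Yt])
      (by rcases hv with rfl | rfl <;> en B' [cY _ D.Yb]) uw)
    have un : cv (Y * v) n = Y * v := by simpa only [Yσ, N'.xr] using cv_tr uw σ
    have wn := (N'.cE B'.mir E').2.1
    have Aw := N'.A
    have xr := N'.xr
    refine .inl ((finE h N E N' E' D.yy (cm_of Ay.hf).symm (cm_of Ay.ha).symm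
      (cm_of (yb.trans (mul_one _))).symm wx (.inr (.inr ⟨Ay.ht, rfl, DP⟩)) xg yg gg fX
      (cm_of yx).symm (cm_of yr).symm (cm_of ?_).symm ?_ sw).imp fun _ k => k.1)
    · rw [eq, cv_mul, cv_mul, mul_one, wn, un, qn]
    · have fw : cv h.f (x * π) = h.f := by simpa only [cv_mul, Aw.hz, mul_left_inj] using Aw.hf
      generalize x * π = w at eq uw xr fw Aw
      generalize Y * v = u at eq uw un Yσ
      change y⁻¹ * cv y σ ∈ _
      have : y⁻¹ * cv y σ = w⁻¹ * (cv q⁻¹ w⁻¹ * (n * cv q σ)) := by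
        rw [eq]; simp only [cv_mul, xr, Yσ, mul_one]
        rw [← (cm_of un).eq, (cm_of uw).symm.eq, cvd q⁻¹]
        group
      rw [this]
      rcases B'.memP hq with rfl | rfl | rfl | rfl <;>
        en B' [cv_inv_of fw, cv_inv_of Aw.hz, fσ, N'.zr, rk fn, rk An.hz] <;> memc
  · have yx : cv y x = y * (h.z * h.f) := by
      rw [← ex]; rcases hc with rfl | rfl <;> en B' [D.yY, y1, yt]
    have uw : cv (Y * v) (x * π) = Y * v * (h.z * (h.f * h.z)) := by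
      rw [← ex]
      rcases B'.memP hπ with rfl | rfl | rfl | rfl <;> rcases hc with rfl | rfl <;>
        rcases hv with rfl | rfl <;> en B' [Yy, y1, Ay.rw, AY.rw, Yt]
    have E := ty.resolve_left (tyH B N yr yx)
    have E' := ty'.resolve_left (tyH B2 N' Yσ uw)
    obtain ⟨-, -, -, -, d1, -⟩ := SN_hh N B' E
    obtain ⟨Al, -, d2, -, d3, -⟩ := SN_hh N' B'.mir E'
    refine .inr ((finH h N E N' E' D.yy (cm_of Ay.hf).symm (cm_of Ay.ha).symm
      (cm_of (yb.trans (mul_one _))).symm wx (.inr (.inr ⟨Ay.ht, rfl, DP⟩)) xg yg gg fX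
      (fun _ => ?_) (fun _ => ?_) (cm_of yr).symm (fun _ => ?_) fun _ => ⟨c * v, mul_mem c0 v0,
        (cm_of ?_).symm⟩).imp fun _ k => k.1)
    · change cv _ _ = _
      rw [← ex]; rcases hc with rfl | rfl <;> en B' [Yy, Ay.rw, AY.rw]
    · have := cv_tr (show cv y (x * h.t) = y * h.z by en B' [yx, yt]) ρ
      rwa [d1, yr, cv_mul, yr, N.zr] at this
    · have := cv_tr (show cv (Y * v) (x * π * h.t) = Y * v * h.z by
        rw [cv_cv, uw]; rcases hv with rfl | rfl <;> en B' [Yt]) σ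
      rw [d3, Yσ, cv_mul _ h.z, Yσ, N'.zr] at this
      have qt : cv q (n * h.t) = q := by rw [cv_cv, qn, B'.cE (WE (PW hq)) m1]
      have qb : cv q h.b = q := by rcases B'.memP hq with rfl | rfl | rfl | rfl <;> en B' []
      change cv _ _ = _
      rw [eq, cv_mul, cv_mul, cv_mul _ h.t, d2, this, qt, Al.ht]
      en B' [rk qb]
    · rwa [show y * x * h.t * (c * v) = Y * v by
        rw [← ex]; rcases hc with rfl | rfl <;> en B' [ri D.yy]]

theorem ncX' (hk : KitStmt.{u}) (h : Hyp G) (D : Y1 h.t h.z h.f h.a h.b y Y h.f (h.z * h.f) h.z)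
    (ye : h.e ≠ 1 → cv y h.e = Y) (DP : ∀ u ∈ h.P, ¬ IsConj h.t u) {m : G} (mm : m * m = 1)
    (Am : Ac h.t h.z h.f h.a m (h.t * (h.f * h.a)) (h.z * h.f) h.a) (Ym : cv Y m = Y)
    (bm : cv h.b m = h.b * Y ∨ cv h.b m = h.b * (Y * h.f)) (ym : cv y m = y * h.a)
    (c : IsConj Y m) : ∃ k : XX G, Same h k.toHyp := by
  have K' := hk G (mir h)
  have B := b0 (hk G h)
  have B' := B.toB1
  have Ay := D.Ay
  have AY := D.AY
  obtain ⟨n, nn, An, an, yn, Yn, me⟩ : ∃ n, n * n = 1 ∧ Ac h.t h.z (h.f * h.z) h.b n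
      (h.t * (h.f * h.z * h.b)) (h.z * (h.f * h.z)) h.b ∧
      (h.a * y)⁻¹ * cv h.a n ∈ closure ({h.z, h.f} : Set G) ∧
      y⁻¹ * cv y n ∈ closure ({h.z, h.f} : Set G) ∧
      (h.b * Y)⁻¹ * cv Y n ∈ closure ({h.z, h.f} : Set G) ∧ (h.e ≠ 1 → cv m h.e = n) := by
    by_cases e : h.e = 1
    · have D' := D.mir B'
      obtain ⟨σ, R', S', hY', hy'⟩ := sideC K' D'.toY0 fun u hu => DP u ((mir_P h).le hu)
      obtain ⟨n, -, nn, An, yn, an, k⟩ := sideX (t := h.t) (z := h.z) (f := h.f * h.z) (a := h.b)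
        (b := h.a) (b0 K') S' hY' hy' D' B'.fz.eq.symm
      refine ⟨n, nn, An, ?_, by rw [yn, inv_mul_cancel]; exact one_mem _, ?_, absurd e⟩
      · rcases an with k | k <;> en B' [k] <;> memc
      · rcases k with ⟨k, -⟩ | ⟨-, k⟩ | ⟨-, k | k⟩
        · eno B [] k
        · eno B [] k
        all_goals en B' [k, rk D.Yb, AY.rw, ri D.YY]; memc
    · obtain ⟨e1, e2, e3, e4, e5⟩ := eact h e
      have t1 := cv_tr Am.ht h.e
      have t2 := cv_tr Am.hz h.e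
      have t3 := cv_tr Am.hf h.e
      have t4 := cv_tr Am.ha h.e
      have t5 := cv_tr ym h.e
      have t6 := cv_tr Ym h.e
      have t7 := bm.imp (cv_tr · h.e) (cv_tr · h.e)
      simp only [cv_mul, e1, e2, e3, e4, e5, ye e] at t1 t2 t4 t5 t7
      rw [e3] at t3
      have nn : cv m h.e * cv m h.e = 1 := by rw [← cv_mul, mm, cv_one]
      generalize cv m h.e = n at *
      have fn : cv h.f n = h.z := by
        rw [cv_mul, t2, ← eq_mul_inv_iff_mul_eq] at t3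
        rw [t3]; en B' []
      refine ⟨n, nn, ⟨t1, t2, t3, t4⟩, ?_, ?_, ?_, fun _ => rfl⟩
      · rcases Ye h e Ay (ye e) with k | k <;> rcases t7 with t7 | t7 <;> en B' [k, t7] <;> memc
      · rcases Ye h e Ay (ye e) with k | k <;> rw [k] at t6
        · rw [t6, inv_mul_cancel]; exact one_mem _
        · rw [cv_mul, fn, ← eq_mul_inv_iff_mul_eq] at t6
          en B' [t6]; memc
      · en B' [t5, rk D.Yb, ri D.YY]; memc
  exact ⟨
    { h with
      y := y, Y := Y, m := m, n := n, ty := Ay.ht, tY := AY.ht.trans (by en B' [])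
      yf := (cm_of Ay.hf).symm, Yf := (cm_of AY.hf).symm, yz := (cm_of Ay.hz).symm
      Yz := (cm_of AY.hz).symm, ya := (cm_of Ay.ha).symm, Yb := (cm_of D.Yb).symm
      aY := AY.ha.trans h.fa.eq, «by» := D.yb.trans (by en B' []), yy := D.yy, YY := D.YY
      yY := D.yY, ye := fun e => ⟨ye e, me e⟩, DP := DP, mm := mm, zm := Am.hz
      mf := (cm_of Am.hf).symm, ma := (cm_of Am.ha).symm, tm := Am.ht.trans (mul_assoc _ _ _).symm
      ym := ym.trans (cm_of Ay.ha).eq.symm, mY := (cm_of Ym).symm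
      bm := bm.imp_right fun k => k.trans (by en B' [AY.rw]), mY' := c, nn := nn
      zn := An.hz.trans (by en B' []), nb := (cm_of An.ha).symm, tn := An.ht.trans (by en B' [])
      an := an, yn := yn, Yn := Yn }, rfl, rfl, rfl⟩

theorem ncX (hk : KitStmt.{u}) (h : Hyp G) (D : Y1 h.t h.z h.f h.a h.b y Y h.f (h.z * h.f) h.z)
    (ye : h.e ≠ 1 → cv y h.e = Y) (DP : ∀ u ∈ h.P, ¬ IsConj h.t u) :
    ∃ k : XX G, Same h k.toHyp := by
  have B := b0 (hk G h)
  have B' := B.toB1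
  obtain ⟨ρ, R, S, hy, hY⟩ := sideC (hk G h) D.toY0 DP
  obtain ⟨m, hm, mm, Am, Ym, bm, k⟩ := sideX B S hy hY D rfl
  have c0 : IsConj Y (Y * h.z) := (D.mir B').yY ▸ isConj_cv Y y
  have c1 := isConj_cv Y ρ
  have c2 := c0.trans (isConj_cv _ ρ)
  rw [cv_mul, S.zr] at c2
  have c : IsConj Y m ∧ IsConj Y (m * h.a) := by
    rcases hm with rfl | rfl
    exacts [⟨c1, c2⟩, ⟨c2, by rwa [mul_assoc, h.aa, mul_one]⟩]
  rcases k with ⟨k, -⟩ | ⟨-, k⟩ | ⟨-, k | k⟩
  · eno B [] k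
  · eno B [] k
  · exact ncX' hk h D ye DP mm Am Ym bm k c.1
  · have Ya : cv Y h.a = Y * h.f := by rw [cvd]; en B' [D.AY.rw]
    refine ncX' hk h (D.ren B' m1 m1) (fun e => by rw [cv_mul, ye e, (eact h e).2.1]) DP
      (m := m * h.a) (by en B' [Am.rw, ri mm]) (by constructor <;> en B' [Am.rw])
      (by en B' [Am.rw, Ym, Ya]) ?_ (by en B' [Am.rw, k, cv_of' (cm_of D.Ay.ha)])
      (c0.symm.trans c.2)
    rcases bm with k | k <;> en B' [k, Ya, B'.ba, D.AY.rw, true_or, or_true]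

set_option maxHeartbeats 1000000 in
theorem ncQ (hk : KitStmt.{u}) (h : Hyp G) (D : Y1 h.t h.z h.f h.a h.b y Y 1 (h.z * h.f) h.f)
    (e1 : h.e = 1) (DP : ∀ u ∈ h.P, ¬ IsConj h.t u) : ∃ k : TQ0 G, Same h k.toHyp := by
  have K := hk G h
  have K' := hk G (mir h)
  have B := b0 K
  have B' := B.toB1
  have Ay := D.Ay
  have AY := D.AY
  have D' := D.mir B'
  obtain ⟨ρ, R, S, hy, hY⟩ := sideC K D.toY0 DP
  obtain ⟨m, v, w, hv, vr, kr, hw, mr, mm, Am, ym, Ym, bm⟩ := sideQ B S hy hY D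
  obtain ⟨σ, R', S', hY', hy'⟩ := sideC K' D'.toY0 fun u hu => DP u ((mir_P h).le hu)
  obtain ⟨n, hn, nn, An, yn, an, k⟩ := sideX (t := h.t) (z := h.z) (f := h.f * h.z) (a := h.b)
    (b := h.a) (b0 K') S' hY' hy' D' B'.fz.eq.symm
  have Yn : cv Y n = Y * h.b ∨ cv Y n = Y * (h.f * h.z * h.b) := by
    rcases k with ⟨-, k⟩ | ⟨k, -⟩ | ⟨-, k⟩
    · eno B [] k
    · eno B [] k
    · exact k
  have zn : cv h.z n = h.f := An.hz.trans (by en B' [])
  have fn : cv h.f n = h.z := by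
    have := An.hf
    rw [cv_mul, zn, ← eq_mul_inv_iff_mul_eq] at this
    rw [this]; en B' []
  have cX : ∀ u g : G, u⁻¹ * cv u g ∈ h.X := fun u g => by
    simpa [cv, mul_assoc] using K.cmX u g
  have fX : h.f ∈ h.X := by simpa [Ay.ht] using cX h.t y
  have yX : y ∈ h.X := by
    have := cX h.a n
    rcases an with k | k <;> rw [k, inv_mul_cancel_left] at this
    exacts [this, (mul_mem_cancel_right (mul_mem fX K.aX.2.2)).1 this]
  have nX : n ∈ h.X := by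
    have : cv y σ ∈ h.X := h.Xn.conj_mem' y yX σ
    rcases hn with rfl | rfl
    exacts [this, mul_mem this K.aX.2.1]
  have ya := cv_of' (cm_of Ay.ha)
  have Ya := cv_of' (cm_of (AY.ha.trans (one_mul _)))
  obtain ⟨π, κ, ι, hπ, hκ, hι, an', Yn', bm'⟩ : ∃ π κ ι, (π = 1 ∨ π = h.z * h.f) ∧
      κ ∈ closure ({h.z, h.f} : Set G) ∧ (ι = 1 ∨ ι = h.a) ∧ cv h.a n = h.a * (y * π) ∧
      cv (Y * κ) n = h.b * (Y * κ) ∧ cv h.b (m * ι) = h.b * h.t * (y * π) * (Y * κ) := by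
    rcases an with k1 | k1 <;> rcases Yn with k2 | k2 <;> rcases bm with k3 | k3
    on_goal 1 => refine ⟨1, 1, 1, ?_⟩
    on_goal 2 => refine ⟨1, h.z * h.f, h.a, ?_⟩
    on_goal 3 => refine ⟨1, h.z, h.a, ?_⟩
    on_goal 4 => refine ⟨1, h.f, 1, ?_⟩
    on_goal 5 => refine ⟨h.z * h.f, h.z * h.f, 1, ?_⟩
    on_goal 6 => refine ⟨h.z * h.f, 1, h.a, ?_⟩
    on_goal 7 => refine ⟨h.z * h.f, h.f, h.a, ?_⟩
    on_goal 8 => refine ⟨h.z * h.f, h.z, 1, ?_⟩
    all_goals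
      en B' [k1, k2, k3, zn, fn, ya, Ya, B'.ba, Ay.rw, AY.rw, rk D.yb, rk D.Yb, rk D.yY, true_or,
        or_true, true_and, and_true]
      memc
  have π0 : π ∈ closure ({h.z, h.f} : Set G) := by rcases hπ with rfl | rfl <;> memc
  have E := D.ren B' π0 hκ
  have A' : Ac h.t h.z h.f h.a (m * ι) (h.t * h.a) h.z h.a := by
    rcases hι with rfl | rfl <;> constructor <;> en B' [Am.rw]
  have yr : cv y ρ = y * v * (cv v ρ)⁻¹ := by rw [← vr, cv_mul, mul_inv_cancel_right]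
  refine ⟨
    { setR h S.toRr (rr (mir h)) with
      y := y * π, Y := Y * κ, m := m * ι, n := n, e1 := e1, ty := E.Ay.ht
      tY := E.AY.ht.trans (show _ = h.t * h.f * h.z by en B' [])
      yf := (cm_of E.Ay.hf).symm, Yf := (cm_of E.AY.hf).symm
      yz := (cm_of E.Ay.hz).symm, Yz := (cm_of E.AY.hz).symm, ya := (cm_of E.Ay.ha).symm
      Yb := (cm_of E.Yb).symm, Ya := (cm_of (E.AY.ha.trans (one_mul _))).symm
      «by» := E.yb.trans (show _ = h.b * h.f * h.z by en B' [])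
      yy := E.yy, YY := E.YY, yY := E.yY, DP := DP
      mm := show _ = h.f * h.a by rcases hι with rfl | rfl <;> en B' [Am.rw, rs mm]
      mz := (cm_of A'.hz).symm, mf := (cm_of A'.hf).symm, ma := (cm_of A'.ha).symm
      my := (cm_of ?_).symm, tm := A'.ht.trans h.ta.eq, Ym := ?_, bm := bm', yr := ?_, rU := ?_
      nn := nn, zn := zn, nb := (cm_of An.ha).symm, ny := (cm_of ?_).symm
      tn := An.ht.trans (show _ = h.z * h.f * h.b * h.t by en B' []), an := an', Yn := Yn'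
      nX := nX }, rfl, rfl, rfl⟩
  · rw [cv_mul, A'.W (PW π0)]
    rcases hι with rfl | rfl <;> en B' [ym, ya]
  · change cv _ _ = h.f * h.a * _
    rw [cv_mul, A'.W (PW hκ)]
    rcases hι with rfl | rfl <;> en B' [Ym, Ya, AY.rw]
  · change Commute ρ (y * π * h.a) ∨ Commute ρ (y * π * h.a * h.z)
    have H : ∀ u, u = y * v ∨ u = y * v * h.f → Commute ρ u := by
      rintro _ (rfl | rfl)
      exacts [(cm_of vr).symm, ((cm_of vr).mul_left (cm_of S.fr)).symm]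
    rcases hπ with rfl | rfl <;> rcases hv with rfl | rfl
    exacts [.inl (H _ (.inl (by en B' []))), .inr (H _ (.inl (by en B' []))),
      .inr (H _ (.inr (by en B' []))), .inl (H _ (.inr (by en B' [])))]
  · change ρ ∈ normalizer ((closure {h.z, h.f, h.a, y * π, y * π * (Y * κ) * h.t, m * ι} :
      Subgroup G) : Set G)
    have q : ∃ q ∈ closure ({h.z, h.f} : Set G), y * π * (Y * κ) * h.t = y * Y * h.t * q :=
      ⟨π * κ, mul_mem π0 hκ, by
        en B' [rk ((one_mul h.a ▸ AY).W (PW π0)), B'.wr (WE (PW π0)), B'.wr (WE (PW hκ))]⟩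
    obtain ⟨q, hq, e⟩ := q
    rw [e]
    generalize y * Y * h.t = k at kr mr
    set U := closure {h.z, h.f, h.a, y * π, k * q, m * ι}
    have WU : closure ({h.z, h.f, h.a} : Set G) ≤ U :=
      closure_mono (by rintro _ (rfl | rfl | rfl) <;> simp)
    have Wr : ∀ u ∈ closure ({h.z, h.f, h.a} : Set G), cv u ρ ∈ U := fun u hu => WU (cv_closure (by
      rintro _ (rfl | rfl | rfl) <;> en B' [S.toRr.rw] <;> memc) hu)
    have ι0 : ι ∈ closure ({h.z, h.f, h.a} : Set G) := by rcases hι with rfl | rfl <;> memc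
    have v0 : v ∈ closure ({h.z, h.f, h.a} : Set G) := by rcases hv with rfl | rfl <;> memc
    have yU : y ∈ U := (mul_mem_cancel_right (WU (PW π0))).1 (subset_closure (by simp))
    have kU : k ∈ U := (mul_mem_cancel_right (WU (PW hq))).1 (subset_closure (by simp))
    have mU : m ∈ U := (mul_mem_cancel_right (WU ι0)).1 (subset_closure (by simp))
    refine nrm_of fun _ => cv_closure ?_
    rintro _ (rfl | rfl | rfl | rfl | rfl | rfl)
    · exact Wr _ m1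
    · exact Wr _ m2
    · exact Wr _ (by memc)
    · rw [cv_mul, yr]
      exact mul_mem (mul_mem (mul_mem yU (WU v0)) (inv_mem (Wr _ v0))) (Wr _ (PW π0))
    · rw [cv_mul, kr]; exact mul_mem mU (Wr _ (PW hq))
    · rw [cv_mul, mr]; exact mul_mem (mul_mem (mul_mem mU kU) (WU hw)) (Wr _ ι0)
  · rcases hπ with rfl | rfl <;> en B' [yn, zn, fn]

theorem nc1 (hk : KitStmt.{u}) (h : Hyp G) (D : Y1 h.t h.z h.f h.a h.b y Y α β p)
    (ye : h.e ≠ 1 → cv y h.e = Y) (DP : ∀ u ∈ h.P, ¬ IsConj h.t u) :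
    (∃ k : EE0 G, Same h k.toHyp) ∨ (∃ k : HH G, Same h k.toHyp) ∨
      (∃ k : XX G, Same h k.toHyp) ∨ ∃ k : TQ0 G, Same h k.toHyp := by
  have K := hk G h
  have K' := hk G (mir h)
  have B := b0 K
  have B' := B.toB1
  have B2 : B0 h.t h.z (h.f * h.z) h.b h.a := b0 K'
  have D' := D.mir B'
  have DP' : ∀ u ∈ (mir h).P, ¬ IsConj h.t u := fun u hu => DP u ((mir_P h).le hu)
  obtain ⟨ρ, R, S, hy, hY⟩ := sideC K D.toY0 DP
  obtain ⟨σ, R', S', hY', hy'⟩ := sideC K' D'.toY0 DP'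
  replace S' : Sd h.t h.z (h.f * h.z) h.b h.a σ R' := S'
  have he : α * h.a = h.a * cv β h.e ∨ h.e = 1 := or_iff_not_imp_right.2 fun e => by
    have := cv_tr D.yb h.e
    rwa [ye e, cv_mul, (eact h e).2.2.2.2, D.AY.ha] at this
  rcases D.hα with rfl | rfl <;> rcases D.hβ with rfl | rfl
  · obtain ⟨v, vr, hv⟩ := ystar B S hy D.Ay D.yy D.yb D.hβ
    replace hv := (hv.resolve_right fun e => by eno B [] e.1).2
    have v0 : v ∈ closure ({h.z, h.f} : Set G) := by rcases hv with rfl | rfl <;> memc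
    have vR := S.ER (WE (PW v0))
    refine (ncT hk h (D.ren B' v0 v0) (by simpa using typeT B S hy hY D rfl) (fun e => ?_) DP S
      (mul_mem hy vR) (mul_mem hY vR) vr).imp_right .inl
    rcases hv with rfl | rfl <;> en B' [ye e, (eact h e).2.1]
  · obtain ⟨_, -, -, -, -, -, k⟩ := sideX B2 S' hY' hy' D' B'.fz.eq.symm
    obtain rfl : p = h.f := by
      rcases typeT B S hy hY D rfl with e | e <;>
        rcases k with ⟨-, k⟩ | ⟨k, -⟩ | ⟨⟨-, k⟩ | ⟨k, -⟩, -⟩ <;>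
        first
        | (rw [e]; en B' []; done)
        | (rw [k]; en B' []; done)
        | (eno B [] k; done)
        | eno B [] (e.symm.trans k)
    refine .inr (.inr (.inr (ncQ hk h D (by_contra fun e => ?_) DP)))
    have k := he.resolve_right e
    en B' [eact h e] at k
    eno B [] k
  · obtain ⟨_, -, -, -, -, -, k⟩ := sideX B S hy hY D rfl
    obtain rfl : p = h.f * h.z := by
      rcases typeT B2 S' hY' hy' D' rfl with e | e <;>
        rcases k with ⟨-, k⟩ | ⟨k, -⟩ | ⟨⟨-, k⟩ | ⟨k, -⟩, -⟩ <;>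
        first
        | exact e
        | (rw [k]; en B' []; done)
        | (eno B [] k; done)
        | eno B [] (e.symm.trans k)
    refine .inr (.inr (.inr (ncQ hk (mir h) (y := Y) (Y := y) ?_ (by_contra fun e => ?_) DP')))
    · change Y1 h.t h.z (h.f * h.z) h.b h.a Y y 1 (h.z * (h.f * h.z)) (h.f * h.z)
      rwa [show h.z * (h.f * h.z) = h.f by en B' []]
    · have k := he.resolve_right e
      eno B [] k
  · obtain ⟨_, -, -, -, -, -, k⟩ := sideX B S hy hY D rfl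
    obtain ⟨_, -, -, -, -, -, e⟩ := sideX B2 S' hY' hy' D' B'.fz.eq.symm
    obtain rfl : p = h.z := by
      rcases k with ⟨k, -⟩ | ⟨-, k⟩ | ⟨⟨k, -⟩ | ⟨-, k⟩, -⟩ <;>
        rcases e with ⟨e, -⟩ | ⟨-, e⟩ | ⟨⟨e, -⟩ | ⟨-, e⟩, -⟩ <;>
        first
        | exact k
        | exact e
        | (eno B [] k; done)
        | (eno B [] e; done)
        | eno B [] (e.symm.trans k)
    exact .inr (.inr (.inl (ncX hk h D ye DP)))

theorem nc (hk : KitStmt.{u}) : NCStmt.{u} := by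
  intro G _ _ h
  have K := hk G h.toHyp
  have K' := hk G (mir h.toHyp)
  have B := b0 K
  have B' := B.toB1
  obtain ⟨α, hα, eα⟩ : ∃ α, (α = 1 ∨ α = h.f) ∧ cv h.a h.Y = α * h.a :=
    h.aY.elim (fun e => ⟨1, .inl rfl, by rwa [one_mul]⟩) fun e => ⟨_, .inr rfl, e.trans h.fa.eq.symm⟩
  obtain ⟨β, hβ, eβ⟩ : ∃ β, (β = 1 ∨ β = h.z * h.f) ∧ cv h.b h.y = h.b * β :=
    h.by.elim (fun e => ⟨1, .inl rfl, by rwa [mul_one]⟩) fun e =>
      ⟨_, .inr rfl, e.trans (by en B' [])⟩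
  have D : Y0 h.t h.z h.f h.a h.b h.y h.Y α β :=
    ⟨⟨h.ty, cv_of' h.yz, cv_of' h.yf, cv_of' h.ya⟩,
      ⟨h.tY.trans (by en B' []), cv_of' h.Yz, cv_of' h.Yf, eα⟩, eβ, cv_of' h.Yb, hα, hβ, h.yy, h.YY,
      by simpa only [cv, mul_assoc, H42.N7.Pre.Z] using h.yY⟩
  have D' := D.mir B'
  obtain ⟨ρ, R, S, hy, -⟩ := sideC K D h.DP
  obtain ⟨σ, R', S', hY', -⟩ := sideC K' D' fun u hu => h.DP u ((mir_P _).le hu)
  have he : h.e ≠ 1 → h.Y * h.Y = cv (h.y * h.y) h.e := fun e => by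
    rw [cv_mul, show cv h.y h.e = _ from h.ye e]
  have t1 : h.y * h.y = h.f → h.y * h.t * (h.y * h.t) = 1 := fun e => by en B' [D.Ay.rw, rs e]
  have t2 : h.Y * h.Y = h.f * h.z → h.Y * h.t * (h.Y * h.t) = 1 := fun e => by
    en B' [D.AY.rw, rs e]
  rcases ysq B S hy D.Ay D.yP with e1 | e1 <;>
    rcases ysq (f := h.f * h.z) (b0 K') S' hY' D'.Ay D'.yP with e2 | e2
  · obtain ⟨p, E⟩ := D.y1 B e1 e2
    exact nc1 hk _ E h.ye h.DP
  · obtain ⟨p, E⟩ := (D.t2 B').y1 B e1 (t2 e2)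
    refine nc1 hk _ E (fun e => ?_) h.DP
    have k := he e
    rw [e1, e2, cv_one] at k
    eno B [] k
  · obtain ⟨p, E⟩ := (D.t1 B').y1 B (t1 e1) e2
    refine nc1 hk _ E (fun e => ?_) h.DP
    have k := he e
    rw [e1, e2, (eact _ e).2.2.1] at k
    eno B [] k
  · obtain ⟨p, E⟩ := ((D.t1 B').t2 B').y1 B (t1 e1) (t2 e2)
    exact nc1 hk _ E (fun e => by rw [cv_mul, (eact _ e).1, show cv h.y h.e = _ from h.ye e]) h.DP

end Cfsg.Agent.H42.N36
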