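import Cfsg.Agent.H42.N7KO1
import Cfsg.Agent.H36.LTS1

/-! Type H on both sides: the group `R = K⟨t⟩` and its points. -/

set_option autoImplicit false
set_option linter.unusedSimpArgs false

namespace Cfsg.Agent.H42.N75

open Subgroup Cfsg.Agent.H85 Cfsg.Agent.H42.N7 Cfsg.Agent.H42.N3 Cfsg.Agent.H36.LTS

universe u

variable {G : Type u} [Group G] (h : HH G)

theorem B : B1 h.t h.z h.f h.a h.b :=
  ⟨h.tt, h.zz, h.ff, h.aa, h.bb, (tz h.toHyp).symm, h.tf.symm, h.ta.symm, h.tb, fz h.toHyp,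
    h.za.symm, h.zb, h.fa.symm, h.fb, h.ab.trans h.za.eq.symm⟩

theorem xz : Commute h.x h.z := comm_z h.toHyp h.xa h.xb
theorem yz : Commute h.y h.z := comm_z h.toHyp h.ya h.yb

theorem ty (hy : h.y ≠ 1) : cv h.t h.y = h.t * h.f := by
  rcases h.alt with e | e | e
  exacts [absurd e.1 hy, absurd e.1 hy, e.1]

theorem tx : cv h.t h.x = h.t * h.z := h.tx
theorem xy (hy : h.y ≠ 1) : cv h.x h.y = h.x * h.f * h.z := h.xy hy
theorem tm : cv h.t h.m = h.t * h.a := h.tm
theorem xm : cv h.x h.m = h.x * h.a := h.xm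
theorem ym (hy : h.y ≠ 1) : cv h.y h.m = h.y * h.a := h.ym hy

/-- normal form `y x b t z f a` -/
macro "nf" h:term:max "[" ls:Lean.Parser.Tactic.simpLemma,* "]"
    loc:(Lean.Parser.Tactic.location)? : tactic =>
  `(tactic| en (B $h) [cv, ri (TT.xx (HH.toTT $h)), ri (TT.yy (HH.toTT $h)), rl (tx $h),
    rc (xz $h).symm, rc (TT.xf (HH.toTT $h)).symm, rc (TT.xa (HH.toTT $h)).symm,
    rc (TT.xb (HH.toTT $h)).symm, rc (yz $h).symm, rc (TT.yf (HH.toTT $h)).symm,
    rc (TT.ya (HH.toTT $h)).symm, rc (TT.yb (HH.toTT $h)).symm, $ls,*] $(loc)?)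

theorem κ_one (hy : h.y = 1) : h.κ = 1 := if_pos hy
theorem κ_ne (hy : h.y ≠ 1) : h.κ = h.y * h.t := if_neg hy

theorem kk : h.x * h.t * (h.x * h.t) = h.z := by nf h []
theorem κκ (hy : h.y ≠ 1) : h.y * h.t * (h.y * h.t) = h.f := by nf h [rl (ty h hy)]
theorem km : Commute (h.x * h.t) h.m := cm_of (by rw [cv_mul, xm, tm]; nf h [])
theorem mt : cv h.m h.t = h.m⁻¹ := by
  have := tm h
  rw [← h.mm, cv, mul_assoc, inv_mul_eq_iff_eq_mul, ← mul_assoc, ← mul_assoc,
    mul_left_inj] at this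
  rw [cv, eq_inv_iff_mul_eq_one, (ri h.tt).1, mul_assoc, mul_assoc, ← mul_assoc h.m, ← this, h.tt]

theorem cK {c : G} (h1 : Commute c h.z) (h2 : Commute c h.f) (h3 : Commute c h.a)
    (h4 : Commute c (h.x * h.t)) (h5 : Commute c h.m) (h6 : h.y ≠ 1 → Commute c (h.y * h.t)) :
    c ∈ centralizer (h.K : Set G) := by
  rw [TT.K, centralizer_closure]
  rintro v (rfl | rfl | rfl | rfl | rfl | rfl)
  exacts [h1.symm, h2.symm, h3.symm, h4.symm, h5.symm, by
    by_cases hy : h.y = 1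
    · rw [κ_one h hy]; exact Commute.one_left _
    · rw [κ_ne h hy]; exact (h6 hy).symm]

theorem κm (hy : h.y ≠ 1) : Commute (h.y * h.t) h.m := cm_of (by rw [cv_mul, ym h hy, tm]; nf h [])

/-- `K` is abelian -/
theorem K_ab : h.K ≤ centralizer (h.K : Set G) := (closure_le _).2 (by
  rintro v (rfl | rfl | rfl | rfl | rfl | rfl)
  · exact cK h (.refl _) (fz h.toHyp).symm h.za (cm_of (by nf h [])) h.mz.symm
      fun _ => cm_of (by nf h [])
  · exact cK h (fz h.toHyp) (.refl _) h.fa (cm_of (by nf h [])) h.mf.symm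
      fun _ => cm_of (by nf h [])
  · exact cK h h.za.symm h.fa.symm (.refl _) (cm_of (by nf h [])) h.ma.symm
      fun _ => cm_of (by nf h [])
  · exact cK h (cm_of (by nf h [])) (cm_of (by nf h [])) (cm_of (by nf h [])) (.refl _) (km h)
      fun hy => cm_of (by nf h [rl (ty h hy), rl (xy h hy)])
  · exact cK h h.mz h.mf h.ma (km h).symm (.refl _) fun hy => (κm h hy).symm
  · by_cases hy : h.y = 1
    · rw [κ_one h hy]; exact one_mem _
    · rw [κ_ne h hy]
      exact cK h (cm_of (by nf h [])) (cm_of (by nf h [])) (cm_of (by nf h []))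
        (cm_of (by nf h [rl (ty h hy), rl (xy h hy)])) (κm h hy) fun _ => .refl _)

theorem cmK {u v : G} (hu : u ∈ h.K) (hv : v ∈ h.K) : Commute u v := K_ab h hv u hu

/-- `t` inverts `K` -/
theorem K_inv {u : G} (hu : u ∈ h.K) : cv u h.t = u⁻¹ := by
  induction hu using closure_induction with
  | mem s hs =>
    rcases hs with rfl | rfl | rfl | rfl | rfl | rfl
    iterate 4 nf h []
    · exact mt h
    · by_cases hy : h.y = 1
      · rw [κ_one h hy, cv_one, inv_one]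
      · rw [κ_ne h hy]; nf h []
  | one => rw [cv_one, inv_one]
  | mul x y h1 h2 e1 e2 => rw [cv_mul, e1, e2, ← mul_inv_rev, (cmK h h1 h2).eq]
  | inv x _ e => rw [cv_inv, e]

theorem zK : h.z ∈ h.K := by unfold TT.K; memc
theorem fK : h.f ∈ h.K := by unfold TT.K; memc
theorem aK : h.a ∈ h.K := by unfold TT.K; memc
theorem kK : h.x * h.t ∈ h.K := by unfold TT.K; memc
theorem mK : h.m ∈ h.K := by unfold TT.K; memc
theorem κK (hy : h.y ≠ 1) : h.y * h.t ∈ h.K := by rw [← κ_ne h hy]; unfold TT.K; memc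
theorem W_K : h.W1 ≤ h.K := (closure_le _).2 (by
  rintro v (rfl | rfl | rfl)
  exacts [zK h, fK h, aK h])
theorem tR : h.t ∈ h.R := by unfold TT.R; memc
theorem K_R : h.K ≤ h.R := (closure_le _).2 (by
  rintro v (rfl | rfl | rfl | rfl | rfl | rfl)
  iterate 5 · unfold TT.R; memc
  by_cases hy : h.y = 1
  · rw [κ_one h hy]; exact one_mem _
  · rw [κ_ne h hy]; unfold TT.R; memc)

theorem R_cases {u : G} (hu : u ∈ h.R) : u ∈ h.K ∨ h.t * u ∈ h.K := by
  have m0 : ∀ v ∈ h.K, v ∈ closure (insert h.t (h.K : Set G)) := fun v hv =>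
    subset_closure (.inr hv)
  have : h.R ≤ closure (insert h.t (h.K : Set G)) := (closure_le _).2 (by
    rintro v (rfl | rfl | rfl | rfl | rfl | rfl | rfl)
    exacts [m0 _ (zK h), m0 _ (fK h), m0 _ (aK h),
      (mul_mem_cancel_right m1).1 (m0 _ (kK h)), by
        by_cases hy : h.y = 1
        · rw [hy]; exact one_mem _
        · exact (mul_mem_cancel_right m1).1 (m0 _ (κK h hy)), m0 _ (mK h), m1])
  rcases mem_ins (h.tt ▸ one_mem _) (fun s hs => by
    rw [K_inv h hs]; exact inv_mem (subset_closure hs)) (this hu) with k | ⟨w, k, rfl⟩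
  · exact .inl (by simpa using k)
  · exact .inr (by rw [← mul_assoc, h.tt, one_mul]; simpa using k)

theorem W_sq {u : G} (hu : u ∈ h.W1) : u * u = 1 := by
  rcases (B h).memW hu with rfl | rfl | rfl | rfl | rfl | rfl | rfl | rfl <;> nf h []

theorem Wt {u : G} (hu : u ∈ h.W1) : Commute u h.t :=
  cm_of ((K_inv h (W_K h hu)).trans (ri (W_sq h hu)).1)

/-- `W` is central in `R` -/
theorem W_cent {u v : G} (hu : u ∈ h.W1) (hv : v ∈ h.R) : Commute u v := by
  rcases R_cases h hv with k | k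
  · exact cmK h (W_K h hu) k
  · simpa [h.tt, ← mul_assoc] using (Wt h hu).mul_right (cmK h (W_K h hu) k)

theorem V_L : h.V1 ≤ h.L := (closure_le _).2 (by
  rintro v (rfl | rfl)
  exacts [zL h.toHyp, (h.LiT.ge (subset_closure (by simp))).1])

theorem fV : h.f ∉ h.V1 := fun k => h.fL (V_L h k)

theorem za1 : h.z * h.a ≠ 1 := fun e => (a_ne h.toHyp).2 (by
  rw [← mul_one h.z, ← h.aa, ← mul_assoc, e, one_mul])

/-- the involutions of `K` lie in `W` -/
theorem K_omega {u : G} (hu : u ∈ h.K) (h2 : u * u = 1) : u ∈ h.W1 := by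
  have sq : ∀ {c w}, c ∈ h.K → w ∈ h.K → c * w * (c * w) = c * c * (w * w) := fun h1 h2 =>
    (cmK h h2 h1).mul_mul_mul_comm _ _
  have sub : ∀ {c : G} {S : Set G}, c ∈ h.K → (∀ s ∈ S, s ∈ h.K) → ∀ s ∈ S, cv s c ∈ closure S :=
    fun h1 h2 s hs => by rw [cv_of (cmK h (h2 s hs) h1)]; exact subset_closure hs
  have l1 : ∀ s ∈ ({h.z, h.f, h.a} : Set G), s ∈ h.K := fun s hs => W_K h (subset_closure hs)
  have l2 : ∀ s ∈ (insert h.m {h.z, h.f, h.a} : Set G), s ∈ h.K := by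
    rintro s (rfl | hs); exacts [mK h, l1 s hs]
  have l3 : ∀ s ∈ (insert (h.x * h.t) (insert h.m {h.z, h.f, h.a}) : Set G), s ∈ h.K := by
    rintro s (rfl | hs); exacts [kK h, l2 s hs]
  have k1 : ∀ u ∈ closure (insert h.m {h.z, h.f, h.a} : Set G), u ∈ h.W1 ∨ u * u = h.a :=
    fun u hu => (mem_ins (by rw [h.mm]; memc) (sub (mK h) l1) hu).imp_right (by
      rintro ⟨w, hw, rfl⟩
      rw [sq (mK h) (W_K h hw), W_sq h hw, h.mm, mul_one])
  have k2 : ∀ u ∈ closure (insert (h.x * h.t) (insert h.m {h.z, h.f, h.a}) : Set G),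
      u ∈ h.W1 ∨ u * u ∈ h.V1 ∧ u * u ≠ 1 := fun u hu => by
    rcases mem_ins (by rw [kk]; memc) (sub (kK h) l2) hu with k | ⟨w, hw, rfl⟩
    · exact (k1 u k).imp_right fun e => by rw [e]; exact ⟨aV h.toHyp, (a_ne h.toHyp).1⟩
    · right
      rw [sq (kK h) ((closure_le _).2 l2 hw), kk]
      rcases k1 w hw with e | e
      · rw [W_sq h e, mul_one]; exact ⟨zV h.toHyp, h.z1⟩
      · rw [e]; exact ⟨mul_mem (zV h.toHyp) (aV h.toHyp), za1 h⟩
  have hκ : h.κ ∈ h.K := by unfold TT.K; memc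
  have : h.K ≤ closure (insert h.κ (insert (h.x * h.t) (insert h.m {h.z, h.f, h.a}))) :=
    closure_mono (by intro v; simp; tauto)
  rcases mem_ins (by
    by_cases hy : h.y = 1
    · rw [κ_one h hy, one_mul]; exact one_mem _
    · rw [κ_ne h hy, κκ h hy]; memc) (sub hκ l3) (this hu) with k | ⟨w, hw, rfl⟩
  · exact (k2 u k).resolve_right fun e => e.2 h2
  · by_cases hy : h.y = 1
    · rw [κ_one h hy, one_mul] at h2 ⊢
      exact (k2 w hw).resolve_right fun e => e.2 h2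
    · rw [sq hκ ((closure_le _).2 l3 hw), κ_ne h hy, κκ h hy] at h2
      refine (fV h ?_).elim
      rw [eq_inv_of_mul_eq_one_left h2]
      rcases k2 w hw with e | e
      · rw [W_sq h e]; simp
      · exact inv_mem e.1

theorem W_E : h.W1 ≤ h.E1 := closure_mono fun _ k => Or.inr k
theorem E_R : h.E1 ≤ h.R := (closure_le _).2 (by
  rintro v (rfl | hv)
  exacts [tR h, K_R h (W_K h (subset_closure hv))])

theorem C_R {u : G} (hu : u ∈ h.R) (c : Commute u h.t) : u ∈ h.E1 := by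
  have k : ∀ v ∈ h.K, Commute v h.t → v ∈ h.E1 := fun v hv c => W_E h (K_omega h hv (by
    nth_rw 1 [← cv_of c]; rw [K_inv h hv, inv_mul_cancel]))
  rcases R_cases h hu with e | e
  · exact k u e c
  · exact (mul_mem_cancel_left (Z_E1 h.toHyp (tZ _))).1 (k _ e ((Commute.refl _).mul_left c))

theorem W_cases {u : G} (hu : u ∈ h.W1) : u ∈ h.V1 ∨ h.f * u ∈ h.V1 := by
  unfold Pre.V1
  rcases (B h).memW hu with rfl | rfl | rfl | rfl | rfl | rfl | rfl | rfl
  all_goals first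
    | (left; memc; done)
    | (right; nf h []; memc)
    | (right; nf h [])

theorem tf_ne : h.t * h.f ≠ h.t ∧ h.t * h.f ≠ h.t * h.z ∧ h.t * (h.z * h.f) ≠ h.t ∧
    h.t * (h.z * h.f) ≠ h.t * h.z := by
  have k : ∀ {u}, u ∈ h.V1 → h.f ≠ u := fun hu e => fV h (e ▸ hu)
  refine ⟨fun e => k (one_mem _) (by simpa using e), fun e => k (zV h.toHyp) (by simpa using e),
    fun e => k (inv_mem (zV h.toHyp)) (eq_inv_of_mul_eq_one_right (by simpa using e)),
    fun e => k (one_mem _) (by simpa using e)⟩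

variable [Finite G]

theorem noF0 (K : Kit h.toHyp) (hy : h.y = 1) {c : G} (hc : c ∈ normalizer (h.E1 : Set G))
    (e : cv h.t c = h.t * h.f ∨ cv h.t c = h.t * (h.z * h.f)) : False := by
  have hZ : cv h.t c ∈ h.Z := by
    rcases e with e | e <;> rw [e]
    exacts [mul_mem (tZ _) (fZ _), mul_mem (tZ _) (mul_mem (zZ _) (fZ _))]
  have : cv h.t c = h.t ∨ cv h.t c = h.t * h.z := by
    rcases h.alt with a | a | a
    · exact a.2.2 _ hZ (isConj_cv _ _)
    · obtain ⟨m, hm, em⟩ := K.tr1 c hc hZ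
      exact (a.2.2.2.2.2.2.2 m hm).imp em.symm.trans em.symm.trans
    · have := a.1
      rw [hy] at this
      exact ((tf_ne h).1 (by simpa using this.symm)).elim
  obtain ⟨n1, n2, n3, n4⟩ := tf_ne h
  rcases e with e | e <;> rcases this with k | k <;> rw [e] at k <;> contradiction

theorem noF (K : Kit h.toHyp) (hy : h.y = 1) {c : G} (hc : c ∈ normalizer (h.E1 : Set G))
    (e : h.f * (h.t⁻¹ * cv h.t c) ∈ h.V1) : False := by
  have r1 : cv h.t h.r = h.t := cv_of' h.rt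
  have r2 : cv h.f h.r = h.f := cv_of' h.rf
  have r3 : cv h.z h.r = h.a := h.zr
  have r4 : cv h.a h.r = h.a * h.z := h.ar
  have hr := r_N h.toHyp
  have k : ∀ v, h.f * (h.t⁻¹ * cv h.t c) = v → cv h.t c = h.t * (h.f * v) := fun v e => by
    rw [← e]; nf h []
  rcases mem_V1 h.toHyp e with e | e | e | e <;> replace e := k _ e
  · exact noF0 h K hy hc (.inl (by rw [e, mul_one]))
  · exact noF0 h K hy hc (.inr (by rw [e]; nf h []))
  · refine noF0 h K hy (mul_mem (mul_mem hc hr) hr) (.inr ?_)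
    simp only [cv_cv, e, cv_mul, r1, r2, r3, r4]; nf h []
  · refine noF0 h K hy (mul_mem hc hr) (.inr ?_)
    simp only [cv_cv, e, cv_mul, r1, r2, r3, r4]; nf h []

omit [Finite G] in
theorem t_K {k : G} (hk : k ∈ h.K) : cv h.t k = h.t * (k * k) := by
  have := K_inv h (inv_mem hk)
  rw [inv_inv, cv, mul_assoc, inv_mul_eq_iff_eq_mul] at this
  rw [cv, this, mul_assoc]

omit [Finite G] in
theorem sqV {v : G} (hv : v ∈ h.V1) : ∃ k ∈ h.K, k * k = v := by
  rcases mem_V1 h.toHyp hv with rfl | rfl | rfl | rfl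
  exacts [⟨1, one_mem _, one_mul 1⟩, ⟨_, kK h, kk h⟩, ⟨_, mK h, h.mm⟩,
    ⟨_, mul_mem (mK h) (kK h), by rw [(km h).mul_mul_mul_comm, h.mm, kk]⟩]

theorem N_E {c : G} (hc : c ∈ normalizer (h.R : Set G)) (e : h.t⁻¹ * cv h.t c ∈ h.W1) :
    c ∈ normalizer (h.E1 : Set G) := nrm_of fun u hu => C_R h (cv_nrm (E_R h hu) hc) (by
  have h1 : Commute (cv u c) (cv h.t c) := cm_cv (cm_of ((B h).cE hu (Z_E1 h.toHyp (tZ _)))) c
  have h2 := (W_cent h e (cv_nrm (E_R h hu) hc)).symm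
  simpa using (h1.mul_right h2.inv_right).inv_right)

/-- **SP** -/
theorem sp (hk : KitStmt.{u}) : SPStmt.{u} := by
  intro G _ _ h c hc e
  have K := hk G h.toHyp
  have hE := N_E h hc e
  obtain ⟨k, hk, ek⟩ : ∃ k ∈ h.K, k * k = h.t⁻¹ * cv h.t c := by
    rcases W_cases h e with e' | e'
    · exact sqV h e'
    · by_cases hy : h.y = 1
      · exact (noF h K hy hE e').elim
      · obtain ⟨k, hk, ek⟩ := sqV h e'
        refine ⟨_, mul_mem (κK h hy) hk, ?_⟩
        rw [(cmK h hk (κK h hy)).mul_mul_mul_comm, κκ h hy, ek, ← mul_assoc, h.ff, one_mul]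
        rfl
  have h1 : cv h.t (c * k⁻¹) = h.t := by
    rw [cv_cv, ← mul_inv_cancel_left h.t (cv h.t c), ← ek, ← t_K h hk, ← cv_cv, mul_inv_cancel,
      cv_one']
  have h2 : k ∈ normalizer (h.E1 : Set G) :=
    N_E h (le_normalizer (K_R h hk)) (by rw [t_K h hk, inv_mul_cancel_left, ek]; exact e)
  obtain ⟨v, hv, ev⟩ := K.aut1 (c * k⁻¹) (ct.2 (cm_of h1)) (mul_mem hE (inv_mem h2))
  exact ⟨_, inv_mem hk, v, hv, ev⟩

end Cfsg.Agent.H42.N75
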