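/-
The action of `N(T₀)` on `Z`.
-/
import Mathlib
import Cfsg.Agent.H42.N7KMir

set_option autoImplicit false

namespace Cfsg.Agent.H42.N81

open Subgroup Cfsg.Agent.H85 Cfsg.Agent.H42.N7
open Cfsg.Agent.H24.MH hiding Pre

universe u

variable {G : Type u} [Group G]

/-- The possible actions of `N₀` on `E₁`. -/
def AL : List ℕ := [33810, 33811, 33825, 33827, 33833, 33835, 33842, 33946, 33961, 34345, 34347,
  34714, 34729, 35858, 35859, 35873, 35875, 35881, 35883, 35890, 35994, 36009, 36393, 36395, 36762,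
  36777]

/-- The action of `⟨b, r⟩`. -/
def S3L : List ℕ := [18465, 19489, 33825, 35873, 50209, 51233]

/-- Letters. -/
def lt (M x : ℕ) : ℕ := if x = 0 then M else if x = 1 then 35873 else 19489

theorem lin_dec : ∀ c0 ∈ Zc, ∀ c1 ∈ Zc, ∀ c2 < 16, ∀ M, M = c0 + 16 * c1 + 256 * c2 + 4096 * 8 →
    (∀ v < 16, mm M v = 0 → v = 0) → M ∈ AL ∨ ∃ w ∈ [[0, 2, 0, 2, 0, 2, 0, 0, 2, 2, 0],
      [0, 2, 0, 2, 2, 0, 0, 0, 2, 0], [0, 0, 2, 1, 0, 2, 0, 0, 2, 0], [0, 0, 0, 2, 0, 2, 0, 0, 0, 2, 0],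
      [0, 2, 0, 2, 2, 0, 2, 0, 0], [0, 0, 2, 1, 0, 0, 2, 0], [0, 2, 1, 0, 0, 2, 0],
      [0, 2, 0, 0, 2, 0, 0, 2, 0, 0]], mm (mw (lt M) w) 1 = 1 ∧ mw (lt M) w ∉ S3L := by
  simp only [forall_eq]
  decide +kernel

theorem cn_one {x g : G} (e : cn x g = 1) : x = 1 := cn_inj (e.trans (by simp [cn]))

/-- `g` interchanges `E₁` and `E₂`. -/
def Sw (h : Hyp G) (g : G) : Prop := cj g h.E1 = h.E2 ∧ cj g h.E2 = h.E1

section
variable {h : Hyp G}

theorem n0_iff {n : G} : h.N0 n ↔ cj n h.E1 = h.E1 ∧ cj n h.E2 = h.E2 :=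
  and_congr cj_eq_iff_mem_normalizer.symm cj_eq_iff_mem_normalizer.symm

theorem n0_mul {m n : G} (a : h.N0 m) (b : h.N0 n) : h.N0 (m * n) := ⟨mul_mem a.1 b.1, mul_mem a.2 b.2⟩
theorem n0_inv {n : G} (a : h.N0 n) : h.N0 n⁻¹ := ⟨inv_mem a.1, inv_mem a.2⟩
theorem Sw.sw {g k : G} (a : Sw h g) (b : Sw h k) : h.N0 (g * k) :=
  n0_iff.2 ⟨by rw [cj_mul, b.1, a.2], by rw [cj_mul, b.2, a.1]⟩
theorem Sw.n0 {g n : G} (a : Sw h g) (b : h.N0 n) : Sw h (g * n) :=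
  ⟨by rw [cj_mul, (n0_iff.1 b).1, a.1], by rw [cj_mul, (n0_iff.1 b).2, a.2]⟩
theorem Sw.n0' {g n : G} (a : Sw h g) (b : h.N0 n) : Sw h (n * g) :=
  ⟨by rw [cj_mul, a.1, (n0_iff.1 b).2], by rw [cj_mul, a.2, (n0_iff.1 b).1]⟩
theorem Sw.inv {g : G} (a : Sw h g) : Sw h g⁻¹ :=
  ⟨by rw [← a.2, cj_inv_cj], by rw [← a.1, cj_inv_cj]⟩
theorem Sw.mir {g : G} (a : Sw h g) : Sw (mir h) g := by
  rw [Sw, mir_E1, mir_E2]; exact a.symm
theorem Sw.conj {g n : G} (a : Sw h g) (b : n ∈ normalizer (h.E2 : Set G)) :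
    g * n * g⁻¹ ∈ normalizer (h.E1 : Set G) := by
  rw [← cj_eq_iff_mem_normalizer, cj_mul, cj_mul, a.inv.1, cj_eq_of_mem_normalizer b, a.2]
theorem Sw.m1 {g x : G} (a : Sw h g) (hx : x ∈ h.E1) : cn x g ∈ h.E2 := mem_cj.1 (a.2.symm ▸ hx)
theorem Sw.m2 {g x : G} (a : Sw h g) (hx : x ∈ h.E2) : cn x g ∈ h.E1 := mem_cj.1 (a.1.symm ▸ hx)

theorem nT0 {g : G} (a : h.N0 g ∨ Sw h g) : g ∈ normalizer (h.T0 : Set G) := by
  rw [← cj_eq_iff_mem_normalizer, T0_eq, cj_sup]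
  rcases a with a | a
  · rw [(n0_iff.1 a).1, (n0_iff.1 a).2]
  · rw [a.1, a.2, sup_comm]

theorem n0_conj {g n : G} (a : h.N0 g ∨ Sw h g) (b : h.N0 n) : h.N0 (g⁻¹ * n * g) :=
  a.elim (fun a => n0_mul (n0_mul (n0_inv a) b) a) fun a => (a.inv.n0 b).sw a

theorem zfix {g : G} (a : h.N0 g ∨ Sw h g) : cn h.z g = h.z := by
  have e : cn (cn h.a g) (cn h.b g) = cn h.a g * cn h.z g := by
    rw [← cn_mul, ← h.ab]; simp [mul_assoc]
  have : cn (cn h.a g) (cn h.b g) = cn h.a g ∨ cn (cn h.a g) (cn h.b g) = cn h.a g * h.z := by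
    rcases a with a | a
    · exact comm12 h (cn_mem a.1 (aE1 h)) (E2_T0 h (cn_mem a.2 (bE2 h)))
    · exact comm12 (mir h) (mir_E1 h ▸ a.m1 (aE1 h)) (mir_T0 h ▸ E1_T0 h (a.m2 (bE2 h)))
  rw [e, mul_right_inj] at this
  exact this.resolve_left fun r => h.z1 (cn_one (mul_eq_left.1 r))

variable [Finite G] (k : Kit h)
include k

theorem s_inj {u v : ℕ} (hu : u < 16) (hv : v < 16) (e : σ h u = σ h v) : u = v := by
  have : Function.Surjective fun u : Fin 16 => (⟨σ h u, s_mem h u⟩ : h.E1) := fun ⟨x, hx⟩ => by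
    obtain ⟨u, hu, rfl⟩ := of_E1 h hx
    exact ⟨⟨u, hu⟩, rfl⟩
  exact congrArg Fin.val ((this.bijective_of_nat_card_le (by simp [k.cE.1])).1
    (a₁ := ⟨u, hu⟩) (a₂ := ⟨v, hv⟩) (Subtype.ext e))

theorem ac_uq {n : G} {M N : ℕ} (a : Act (σ h) n M) (b : Act (σ h) n N) : M = N := by
  have key : ∀ v < 16, mm M v = mm N v := fun v hv =>
    s_inj k (mm_vec_lt _ hv) (mm_vec_lt _ hv) ((a.2 v hv).symm.trans (b.2 v hv))
  apply eq_of_col a.1 b.1
  exacts [by rw [← mm_e0, ← mm_e0, key 1 (by norm_num)], by rw [← mm_e1, ← mm_e1, key 2 (by norm_num)],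
    by rw [← mm_e2, ← mm_e2, key 4 (by norm_num)], by rw [← mm_e3, ← mm_e3, key 8 (by norm_num)]]

theorem inZ {x : G} (h1 : x ∈ h.E1) (c : Commute x h.b) : x ∈ h.Z := by
  obtain ⟨v, hv, rfl⟩ := of_E1 h h1
  exact s_Z h ((by decide : ∀ v < 16, mm 35873 v = v → v ∈ Zc) v hv
    (s_inj k (mm_vec_lt _ hv) hv ((ac_cn h (acB h) hv).symm.trans (cn_of c))))

theorem Zpres {g x : G} (a : h.N0 g ∨ Sw h g) (hx : x ∈ h.Z) : cn x g ∈ h.Z :=
  a.elim (fun a => inZ k (cn_mem a.1 (ZE1 h hx)) (ea_comm k.cE.2.2.2 (cn_mem a.2 (ZE2 h hx)) (bE2 h)))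
    fun a => inZ k (a.m2 (ZE2 h hx)) (ea_comm k.cE.2.2.2 (a.m1 (ZE1 h hx)) (bE2 h))

theorem bE1 : h.b ∉ h.E1 := fun r => ncomm h (ea_comm k.cE.2.2.1 (aE1 h) r)

theorem Sw.not {g : G} (a : Sw h g) : ¬ h.N0 g := fun b =>
  bE1 k ((n0_iff.1 b).1 ▸ a.1.symm ▸ bE2 h)

theorem dich {g : G} (h1 : cj g h.T0 ≤ h.T) : h.N0 g ∨ Sw h g := by
  have j : ∀ E ≤ h.T0, Nat.card E = 16 → EA E → cj g E = h.E1 ∨ cj g E = h.E2 := fun E l c e =>
    k.j16 _ ((cj_mono g l).trans h1) (by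
      rintro _ ⟨x, hx, rfl⟩; rw [← map_mul, e x hx, map_one]) (by rw [card_cj, c])
  have ne : cj g h.E1 ≠ cj g h.E2 := fun e => bE1 k (cj_inj g e ▸ bE2 h)
  rcases j _ (E1_T0 h) k.cE.1 k.cE.2.2.1 with a | a <;>
    rcases j _ (E2_T0 h) k.cE.2.1 k.cE.2.2.2 with b | b
  exacts [absurd (a.trans b.symm) ne, Or.inl (n0_iff.2 ⟨a, b⟩), Or.inr ⟨a, b⟩,
    absurd (a.trans b.symm) ne]

theorem dich' {g : G} (hg : g ∈ normalizer (h.T0 : Set G)) : h.N0 g ∨ Sw h g :=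
  dich k ((cj_eq_of_mem_normalizer hg).le.trans (T0_T h))

theorem dichT {g : G} (hg : g ∈ normalizer (h.T : Set G)) : h.N0 g ∨ Sw h g :=
  dich k (cj_le_of_mem_normalizer (T0_T h) hg)

theorem swe (he : h.e ≠ 1) : Sw h h.e :=
  (dichT k (le_normalizer (eT h))).resolve_left fun r =>
    bE1 k ((h.he.resolve_left he).1 ▸ cn_mem r.1 (aE1 h))

theorem idx2 {A B : Subgroup G} (l : A ≤ B) (c : Nat.card B = 2 * Nat.card A) {x y : G} (hx : x ∈ B)
    (hy : y ∈ B) (nx : x ∉ A) (ny : y ∉ A) : x * y ∈ A := by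
  have i : (A.subgroupOf B).index = 2 := by
    have := (A.subgroupOf B).card_mul_index
    rw [Nat.card_congr (subgroupOfEquivOfLe l).toEquiv, c, mul_comm] at this
    exact Nat.eq_of_mul_eq_mul_right Nat.card_pos this
  exact ((mul_mem_iff_of_index_two i (a := ⟨x, hx⟩) (b := ⟨y, hy⟩)).2 (iff_of_false nx ny) :)

theorem n0_T0 {u : G} (hu : u ∈ h.T0) : h.N0 u := by
  refine (dich' k (le_normalizer hu)).resolve_right fun r => ncomm h ?_
  rcases comm12 h (aE1 h) hu with e | e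
  · exact ea_comm k.cE.2.2.2 (e ▸ r.m1 (aE1 h)) (bE2 h)
  · exact ea_comm k.cE.2.2.2 ((mul_mem_cancel_right (ZE2 h (PZ h (zP h)))).1 (e ▸ r.m1 (aE1 h)))
      (bE2 h)

theorem T_n0 {u : G} (hu : u ∈ h.T) (a : h.N0 u) : u ∈ h.T0 := by
  rcases k.cT with ⟨-, e⟩ | ⟨e1, e2, c⟩
  · exact e ▸ hu
  · by_contra r
    exact Sw.not k ((swe k e1).n0' a) (n0_T0 k (idx2 k (T0_T h) (by rw [c, k.cT0]) hu (eT h) r e2))

theorem inE1 {u : G} (hu : u ∈ h.T0) (c : Commute u h.a) : u ∈ h.E1 := by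
  by_contra r
  have := ea_comm k.cE.2.2.1 (idx2 k (E1_T0 h) (by rw [k.cT0, k.cE.1]) hu (E2_T0 h (bE2 h)) r
    (bE1 k)) (aE1 h)
  exact ncomm h (by simpa using (c.inv_left.mul_left this).symm)

theorem aut {c : G} {M : ℕ} (ct : cn h.t c = h.t) (a : Act (σ h) c⁻¹ M) : M ∈ S3L := by
  obtain ⟨w, hw, e⟩ := k.aut1 c (mem_centralizer_singleton_iff.2 (of_cn ct).symm) (ac_norm h a)
  obtain ⟨N, hN, b⟩ := ac_cl h S3L (by decide) (by decide) (by
    rintro _ (rfl | rfl)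
    exacts [⟨_, by decide, acB h⟩, ⟨_, by decide, acR h⟩]) hw
  rwa [ac_uq k a (⟨b.1, fun v hv => by
    rw [inv_inv, ← cn, e _ (s_mem h v), ac_cn h b hv]⟩ : Act (σ h) c⁻¹ N)]

theorem word {n : G} {M : ℕ} (a : Act (σ h) n⁻¹ M) (w : List ℕ) :
    ∃ c : G, Act (σ h) c⁻¹ (mw (lt M) w) := by
  induction w with
  | nil => exact ⟨1, by rw [inv_one]; exact Act.one⟩
  | cons x w ih =>
    obtain ⟨c, b⟩ := ih
    obtain ⟨d, e⟩ : ∃ d : G, Act (σ h) d⁻¹ (lt M x) := by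
      unfold lt; split_ifs; exacts [⟨_, a⟩, ⟨_, acB h⟩, ⟨_, acR h⟩]
    exact ⟨c * d, by rw [mul_inv_rev, mw_cons]; exact e.mul b⟩

theorem lin {n : G} (hn : h.N0 n) : ∃ M ∈ AL, Act (σ h) n⁻¹ M := by
  obtain ⟨c0, l0, e0⟩ := of_Z h (Zpres k (Or.inl hn) (tZ h))
  obtain ⟨c1, l1, e1⟩ := of_Z h (Zpres k (Or.inl hn) (PZ h (fP h)))
  obtain ⟨c2, l2, e2⟩ := of_E1 h (cn_mem hn.1 (aE1 h))
  have l : ∀ c ∈ Zc, c < 16 := by decide
  have a := ac_of h (l _ l0) (l _ l1) l2 (show 8 < 16 by decide) e0.symm e1.symm e2.symm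
    ((zfix (Or.inl hn)).trans (vecL_8 ..).symm)
  refine ⟨_, (lin_dec _ l0 _ l1 _ l2 _ rfl fun v hv e => ?_).resolve_right ?_, a⟩
  · have := ac_cn h a hv
    rw [e, (pre h).zero] at this
    exact s_inj k hv (by decide) ((cn_one this).trans (pre h).zero.symm)
  · rintro ⟨w, -, e, r⟩
    obtain ⟨c, b⟩ := word k a w
    exact r (aut k (by simpa only [e, s_val h] using ac_cn h b (show 1 < 16 by decide)) b)

theorem autz {c : G} (hc : c ∈ normalizer (h.E1 : Set G)) (ct : cn h.t c = h.t) :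
    cn h.f c = h.f ∧ (cn h.z c = h.z ∨ cn h.z c = h.a ∨ cn h.z c = h.a * h.z) := by
  obtain ⟨M, a⟩ := exists_ac h hc
  obtain ⟨e1, e2⟩ := (by decide : ∀ M ∈ S3L, mm M 2 = 2 ∧ (mm M 8 = 8 ∨ mm M 8 = 4 ∨ mm M 8 = 12)) M
    (aut k ct a)
  have a2 := ac_cn h a (show 2 < 16 by decide)
  have a8 := ac_cn h a (show 8 < 16 by decide)
  exact ⟨by simpa only [e1, s_val h] using a2, by
    rcases e2 with e | e | e <;> simp only [e, s_val h] at a8 <;> simp only [a8, true_or, or_true]⟩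

theorem fixr {u : G} (hu : u ∈ h.Z) (e : cn u h.r = u) :
    u = 1 ∨ u = h.t ∨ u = h.f ∨ u = h.t * h.f := by
  obtain ⟨v, hv, rfl⟩ := of_Z h hu
  have l := (by decide : ∀ c ∈ Zc, c < 16) v hv
  rcases (by decide : ∀ v ∈ Zc, mm 19489 v = v → v = 0 ∨ v = 1 ∨ v = 2 ∨ v = 3) v hv
    (s_inj k (mm_vec_lt _ l) l ((ac_cn h (acR h) l).symm.trans e)) with r | r | r | r <;>
    simp only [r, s_val h, true_or, or_true]

theorem orb {n : G} (hn : n ∈ normalizer (h.E1 : Set G)) :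
    ∃ (i : ℕ) (m : G), h.N0 m ∧ cn h.t m = cn h.t (n * h.r ^ i) := by
  obtain ⟨v, hv, e⟩ := of_E1 h (cn_mem hn (ZE1 h (tZ h)))
  have rN := ac_norm h (acR h)
  have : ∃ i : ℕ, cn h.t (n * h.r ^ i) ∈ h.Z := by
    rcases (by decide : ∀ v < 16, v ∈ Zc ∨ mm 19489 v ∈ Zc ∨ mm 19489 (mm 19489 v) ∈ Zc) v hv with
      r | r | r
    · exact ⟨0, by rw [pow_zero, mul_one, ← e]; exact s_Z h r⟩
    · exact ⟨1, by rw [pow_one, cn_cn, ← e, ac_cn h (acR h) hv]; exact s_Z h r⟩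
    · exact ⟨2, by
        rw [pow_two, cn_cn, cn_cn, ← e, ac_cn h (acR h) hv, ac_cn h (acR h) (mm_vec_lt _ hv)]
        exact s_Z h r⟩
  obtain ⟨i, hi⟩ := this
  exact ⟨i, k.tr1 _ (mul_mem hn (pow_mem rN i)) hi⟩

theorem tP : h.t ∉ h.P := fun r => by
  rcases of_P h r with e | e | e | e
  · exact h.t1 e
  exacts [absurd (s_inj k (u := 1) (v := 2) (by decide) (by decide) (by simpa only [s_val h])) (by decide),
    absurd (s_inj k (u := 1) (v := 8) (by decide) (by decide) (by simpa only [s_val h])) (by decide),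
    absurd (s_inj k (u := 1) (v := 10) (by decide) (by decide) (by simpa only [s_val h])) (by decide)]

theorem f1 : h.f ≠ 1 := fun e => h.fL (e ▸ one_mem _)

theorem swH (he : h.e = 1) {g : G} (a : Sw h g) : cn h.t g ≠ h.t := fun e => by
  obtain ⟨O, -, c, -, d⟩ := k.nT0
  obtain ⟨u, hu, o, ho, rfl⟩ := d g (mem_centralizer_singleton_iff.2 (of_cn e).symm) (nT0 (Or.inr a))
  refine Sw.not k a (n0_mul (n0_T0 k (((k.cT.resolve_right fun r => r.1 he).2) ▸ hu)) ⟨?_, ?_⟩)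
  exacts [centralizer_le_normalizer _ (centralizer_le (E1_T0 h) (c ho)),
    centralizer_le_normalizer _ (centralizer_le (E2_T0 h) (c ho))]

theorem exists_move : ∃ g, (h.N0 g ∨ Sw h g) ∧ cn h.t g ≠ h.t := by
  obtain ⟨u, hu, ne, c⟩ := k.big
  obtain ⟨n, hn, rfl⟩ := k.trZ u hu c
  exact ⟨n, dich' k hn, ne⟩

variable (hf : ∀ n, h.N0 n → cn h.f n = h.f)
include hf

theorem lin_a {n : G} (hn : h.N0 n) :
    (cn h.t n = h.t ∨ cn h.t n = h.t * h.z ∨ cn h.t n = h.t * h.f ∨ cn h.t n = h.t * h.f * h.z) ∧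
    ((cn h.a n = h.a ∨ cn h.a n = h.a * h.z) ∧
      (cn h.t n = h.t * h.f * h.z → ∃ m, h.N0 m ∧ cn h.t m = h.t * h.z) ∨
    (cn h.a n = h.a * h.f ∨ cn h.a n = h.a * h.f * h.z) ∧
      ((∃ m, h.N0 m ∧ cn h.t m = h.t * h.f) ∧ cn h.t n = h.t * h.z ∨ cn h.t n = h.t * h.f * h.z)) := by
  obtain ⟨M, hM, a⟩ := lin k hn
  have a1 := ac_cn h a (show 1 < 16 by decide)
  have a4 := ac_cn h a (show 4 < 16 by decide)
  have e2 : mm M 2 = 2 := s_inj k (mm_vec_lt _ (by decide)) (by decide)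
    ((ac_cn h a (by decide)).symm.trans (by simpa only [s_val h] using hf n hn))
  have W : ∀ w, ∀ c ∈ Zc, mm (mw (lt M) w) 1 = c → ∃ m, h.N0 m ∧ cn h.t m = σ h c := fun w c hc e => by
    obtain ⟨d, b⟩ := word k a w
    have := ac_cn h b (show 1 < 16 by decide)
    rw [e, (s_val h).2.1] at this
    exact this ▸ k.tr1 d (ac_norm h b) (this ▸ s_Z h hc)
  obtain ⟨r1, r2⟩ := (by decide +kernel : ∀ M ∈ AL, mm M 2 = 2 →
    (mm M 1 = 1 ∨ mm M 1 = 9 ∨ mm M 1 = 3 ∨ mm M 1 = 11) ∧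
    ((mm M 4 = 4 ∨ mm M 4 = 12) ∧ (mm M 1 = 11 → ∃ w ∈ [[2, 0, 2, 0], [2, 0, 2, 2, 0]],
      mm (mw (lt M) w) 1 = 9) ∨ (mm M 4 = 6 ∨ mm M 4 = 14) ∧
      ((∃ w ∈ [[0, 2, 0, 2, 0], [0, 2, 0, 2, 2, 0]], mm (mw (lt M) w) 1 = 3) ∧ mm M 1 = 9 ∨
        mm M 1 = 11))) M hM e2
  have v := s_val h
  rw [v.2.1] at a1
  rw [v.2.2.2.2.1] at a4
  refine ⟨by rcases r1 with e | e | e | e <;> simp only [a1, e, v, true_or, or_true],
    r2.imp (fun ⟨p, q⟩ => ⟨by rcases p with e | e <;> simp only [a4, e, v, true_or, or_true],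
      fun e => ?_⟩) fun ⟨p, q⟩ => ⟨by rcases p with e | e <;> simp only [a4, e, v, true_or, or_true],
        q.imp (fun ⟨⟨w, _, c⟩, e⟩ => ⟨v.2.2.2.1 ▸ W w 3 (by decide) c, by simp only [a1, e, v]⟩)
          fun e => by simp only [a1, e, v]⟩⟩
  obtain ⟨w, -, c⟩ := q (s_inj k (mm_vec_lt _ (by decide)) (by decide)
    (a1.symm.trans (by simp only [e, v])))
  simpa only [v] using W w 9 (by decide) c

theorem lin_P {n : G} (hn : h.N0 n) : (∃ p ∈ h.P, cn h.t n = h.t * p) ∧ ∀ p ∈ h.P, cn p n = p := by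
  refine ⟨?_, fun p hp => ?_⟩
  · rcases (lin_a k hf hn).1 with e | e | e | e
    exacts [⟨1, one_mem _, by simpa using e⟩, ⟨_, zP h, e⟩, ⟨_, fP h, e⟩,
      ⟨_, mul_mem (fP h) (zP h), by rwa [← mul_assoc]⟩]
  · rcases of_P h hp with rfl | rfl | rfl | rfl
    exacts [by simp [cn], hf n hn, zfix (Or.inl hn), by rw [cn_mul, hf n hn, zfix (Or.inl hn)]]

theorem fixf {n : G} (hn : n ∈ normalizer (h.E1 : Set G)) : cn h.f n = h.f := by
  obtain ⟨i, m, hm, e⟩ := orb k hn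
  have := (autz k (mul_mem (mul_mem hn (pow_mem (ac_norm h (acR h)) i)) (inv_mem hm.1))
    (by rw [cn_cn, ← e, cn_inv rfl])).1
  rw [cn_cn, cn_cn] at this
  exact cn_inj ((cn_inj (this.trans (hf _ (n0_inv hm)).symm)).trans (cn_of (h.rf.pow_left i).symm).symm)

theorem exists_S : ∃ S : Subgroup G, h.T0 ≤ S ∧ h.e ∈ S ∧ (∀ s ∈ S, h.N0 s ∨ Sw h s) ∧
    (∀ s ∈ S, h.N0 s → cn h.t s = h.t → s ∈ h.T0) ∧ ∀ g, h.N0 g ∨ Sw h g →
      ∃ s ∈ S, cn h.t s = cn h.t g ∧ (h.N0 g → h.N0 s) ∧ (Sw h g → Sw h s) := by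
  obtain ⟨S, hS, l⟩ := exists_isSyl_ge h.syl.isPGroup
    (fun u hu => nT0 (dichT k (le_normalizer hu)) : h.T ≤ normalizer (h.T0 : Set G))
  refine ⟨S, (T0_T h).trans l, l (eT h), fun s hs => dich' k (hS.le hs), fun s hs a e => T_n0 k ?_ a,
    fun g hg => ?_⟩
  · exact (h.syl.eq_of_le hS.isPGroup.to_inf_left (le_inf l h.syl.le) inf_le_right).le
      ⟨hs, mem_centralizer_singleton_iff.2 (of_cn e).symm⟩
  let K := normalizer (h.E1 : Set G) ⊓ normalizer (h.E2 : Set G) ⊓ centralizer {h.t}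
  have mK : ∀ n, h.N0 n → cn h.t n = h.t → n ∈ K := fun n a e =>
    ⟨a, mem_centralizer_singleton_iff.2 (of_cn e).symm⟩
  have nK : normalizer (h.T0 : Set G) ≤ normalizer (K : Set G) := fun g hg =>
    mem_normalizer_of_cj_le fun n hn => by
      have d := dich' k hg
      have m := mem_cj.1 hn
      have a : h.N0 n := by simpa [mul_assoc] using n0_conj (dich' k (inv_mem hg)) m.1
      refine mK n a (cn_inj (g := g) ?_)
      obtain ⟨p, hp, e⟩ := Z_cases h (Zpres k d (tZ h))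
      have : cn (cn h.t g) (g⁻¹ * n * g) = cn h.t g := by
        rcases e with e | e <;> rw [e]
        · exact (lin_P k hf m.1).2 p hp
        · rw [cn_mul, (lin_P k hf m.1).2 p hp, cn_of (mem_centralizer_singleton_iff.1 m.2).symm]
      simpa [mul_assoc] using this
  have := hS.sup_eq_of_pquot (N := K) (fun n hn => nT0 (Or.inl hn.1)) nK fun g hg => ⟨2, by
    have a : h.N0 (g * g) := (dich' k hg).elim (fun a => n0_mul a a) fun a => a.sw a
    obtain ⟨⟨p, hp, e⟩, c⟩ := lin_P k hf a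
    rw [show g ^ 2 ^ 2 = g * g * (g * g) by simp [pow_succ, mul_assoc]]
    exact mK _ (n0_mul a a) (by
      rw [cn_cn, e, cn_mul, e, c p hp, mul_assoc, k.cE.2.2.1 p (ZE1 h (PZ h hp)), mul_one])⟩
  obtain ⟨c, hc, s, hs, rfl⟩ := (mem_sup_of_le_normalizer (hS.le.trans nK)).1 (this.ge (nT0 hg))
  exact ⟨s, hs, by rw [cn_cn, cn_of (mem_centralizer_singleton_iff.1 hc.2).symm],
    fun a => by simpa using n0_mul (n0_inv hc.1) a, fun a => by simpa using a.n0' (n0_inv hc.1)⟩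

theorem inP {u x : G} (hu : u ∈ h.T0) (ca : Commute u h.a) (cb : Commute u h.b) (hx : h.N0 x)
    (tx : cn h.t x ≠ h.t) (c : Commute u x) : u ∈ h.P := by
  obtain ⟨p, hp, rfl | rfl⟩ := Z_cases h (inZ k (inE1 k hu ca) cb)
  · exact hp
  · exact absurd (by simpa only [cn_mul, (lin_P k hf hx).2 p hp, mul_left_inj] using cn_of c) tx

theorem lin_b (k' : Kit (mir h)) {n : G} (hn : h.N0 n) :
    (cn h.b n = h.b ∨ cn h.b n = h.b * h.z) ∧
      (cn h.t n = h.t * h.f → ∃ m, h.N0 m ∧ cn h.t m = h.t * h.z) ∨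
    (cn h.b n = h.b * (h.f * h.z) ∨ cn h.b n = h.b * (h.f * h.z) * h.z) ∧
      ((∃ m, h.N0 m ∧ cn h.t m = h.t * h.f * h.z) ∧ cn h.t n = h.t * h.z ∨ cn h.t n = h.t * h.f) := by
  have := (lin_a k' (fun n a => (lin_P k hf ((mir_N0 h).1 a)).2 _ (mul_mem (fP h) (zP h)))
    ((mir_N0 h).2 hn)).2
  simp only [mir_N0] at this
  rw [mul_assoc h.t h.f, ← show h.t * (h.f * h.z) * h.z = h.t * h.f by rw [mul_assoc, fzz]]
  exact this

theorem t_mul {u m n p q : G} (hn : h.N0 n) (hp : p ∈ h.P) (a : cn u m = u * p)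
    (b : cn u n = u * q) : cn u (m * n) = u * q * p := by
  rw [cn_cn, a, cn_mul, b, (lin_P k hf hn).2 p hp]

theorem ra (x g : G) (S : Subgroup G) (l : h.T0 ≤ S) (d : ∀ s ∈ S, h.N0 s ∨ Sw h s)
    (m : ∀ s ∈ S, h.N0 s → cn h.t s = h.t → s ∈ h.T0) (xS : x ∈ S) (hx : h.N0 x) (gS : g ∈ S)
    (tx : cn h.t x = h.t * h.z) (n5 : ∀ n, h.N0 n → cn h.t n ≠ h.t * h.f)
    (n6 : ∀ n, h.N0 n → cn h.t n ≠ h.t * h.f * h.z) (k' : Kit (mir h))
    (alt : (g = h.e ∧ ∀ u ∈ h.Z, IsConj h.t u → u = h.t ∨ u = h.t * h.z) ∨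
      (h.e = 1 ∧ cn h.a g = h.b ∧ cn h.b g = h.a ∧ cn h.f g = h.f * h.z ∧
        cn h.t g = h.t * h.f * h.z ∧ ∀ u ∈ h.P, ¬ IsConj h.t u)) :
    ∃ r : RA G, Same h r.toHyp := by
  have orb : ∀ n, h.N0 n → cn h.t n = h.t ∨ cn h.t n = h.t * h.z := fun n hn =>
    (lin_a k hf hn).1.imp_right fun r => r.resolve_right (not_or.2 ⟨n5 n hn, n6 n hn⟩)
  have e1 := ((lin_a k hf hx).2.resolve_right fun r => r.2.elim
    (fun ⟨⟨n, a, b⟩, _⟩ => n5 n a b) (n6 x hx)).1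
  have e2 := ((lin_b k hf k' hx).resolve_right fun r => r.2.elim
      (fun ⟨⟨n, a, b⟩, _⟩ => n6 n a b) (n5 x hx)).1
  obtain ⟨c, hc, a1, b1⟩ := fix2 h (one_mem _) (one_mem _) (by simpa using e1) (by simpa using e2)
  have cT := D0_T0 h hc
  rw [← cn_cn, mul_one] at a1 b1
  have tx' : cn h.t (x * c) = h.t * h.z := by
    rw [cn_cn, tx, cen_T0 h (mul_mem (tZ h) (PZ h (zP h))) cT]
  have xS' := mul_mem xS (l cT)
  have hx' := n0_mul hx (n0_T0 k cT)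
  generalize x * c = y at *
  have ne : cn h.t y ≠ h.t := fun e => h.z1 (mul_eq_left.1 (tx'.symm.trans e))
  have T1 : ∀ u ∈ S, h.N0 u → u ∈ closure {h.t, h.f, h.a, h.b, y} := fun u hu a => by
    have l' : h.T0 ≤ closure {h.t, h.f, h.a, h.b, y} := closure_mono (by simp [Set.insert_subset_iff])
    rcases orb u a with e | e
    · exact l' (m u hu a e)
    · simpa using mul_mem (l' (m _ (mul_mem hu (inv_mem xS')) (n0_mul a (n0_inv hx'))
        (by rw [cn_cn, e, cn_inv tx']))) (Subgroup.subset_closure (by simp) : y ∈ _)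
  exact ⟨⟨h, y, g, tx', (of_cn (hf y hx')).symm, (of_cn a1).symm, (of_cn b1).symm,
    inP k hf (m _ (mul_mem xS' xS') (n0_mul hx' hx') (by
      rw [cn_cn, tx', cn_mul, tx', zfix (Or.inl hx'), mul_assoc, h.zz, mul_one]))
      ((of_cn a1).symm.mul_left (of_cn a1).symm) ((of_cn b1).symm.mul_left (of_cn b1).symm) hx' ne
      ((Commute.refl y).mul_left (Commute.refl y)), orb, alt,
    T1 _ (mul_mem (mul_mem (inv_mem gS) xS') gS) (n0_conj (d g gS) hx'),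
    T1 _ (mul_mem gS gS) ((d g gS).elim (fun a => n0_mul a a) fun a => a.sw a)⟩, rfl, rfl, rfl⟩

/-- The normalised element inducing `t ↦ t f`. -/
theorem exists_y (k' : Kit (mir h)) {S : Subgroup G} (l : h.T0 ≤ S) {x : G} (xS : x ∈ S)
    (hx : h.N0 x) (tx : cn h.t x = h.t * h.f) : ∃ y ∈ S, h.N0 y ∧ cn h.t y = h.t * h.f ∧
      cn h.a y = h.a ∧ (cn h.b y = h.b ∧ (∃ m, h.N0 m ∧ cn h.t m = h.t * h.z) ∨
        cn h.b y = h.b * h.f * h.z) := by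
  have fz := PZ h (mul_mem (fP h) (zP h))
  have e1 := ((lin_a k hf hx).2.resolve_right fun r => r.2.elim
    (fun e => h.fL (mul_left_cancel (tx.symm.trans e.2) ▸ zL h))
    fun e => h.z1 (mul_eq_left.1 (e.symm.trans tx))).1
  have key : ∀ w ∈ h.Z, cn h.b x = h.b * w ∨ cn h.b x = h.b * w * h.z → ∃ y ∈ S, h.N0 y ∧
      cn h.t y = h.t * h.f ∧ cn h.a y = h.a ∧ cn h.b y = h.b * w := fun w hw e => by
    obtain ⟨c, hc, a1, b1⟩ := fix2 h (one_mem _) hw (by simpa using e1) e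
    have cT := D0_T0 h hc
    exact ⟨x * c, mul_mem xS (l cT), n0_mul hx (n0_T0 k cT), by
      rw [cn_cn, tx, cen_T0 h (mul_mem (tZ h) (PZ h (fP h))) cT], by rw [cn_cn, a1, mul_one],
      by rw [cn_cn, b1]⟩
  rcases lin_b k hf k' hx with ⟨p, q⟩ | ⟨p, -⟩
  · obtain ⟨y, a, b, c, d, e⟩ := key 1 (one_mem _) (by simpa using p)
    exact ⟨y, a, b, c, d, Or.inl ⟨by simpa using e, q tx⟩⟩
  · obtain ⟨y, a, b, c, d, e⟩ := key _ fz p
    exact ⟨y, a, b, c, d, Or.inr (e.trans (mul_assoc _ _ _).symm)⟩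

theorem rb (k' : Kit (mir h)) (he : h.e = 1)
    (DZ : ∀ u ∈ h.Z, IsConj h.t u → ∃ n, h.N0 n ∧ cn h.t n = u) {x : G} (hx : h.N0 x)
    (tx : cn h.t x = h.t * h.f) (n6 : ∀ n, h.N0 n → cn h.t n ≠ h.t * h.f * h.z) :
    ∃ r : RB G, Same h r.toHyp := by
  obtain ⟨S, l, -, -, m, c⟩ := exists_S k hf
  obtain ⟨s, sS, e, hs, -⟩ := c x (Or.inl hx)
  have n3 : ∀ n, h.N0 n → cn h.t n ≠ h.t * h.z := fun n hn e =>
    n6 _ (n0_mul hn hx) (t_mul k hf hx (zP h) e tx)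
  obtain ⟨y, yS, hy, ty, ay, r⟩ := exists_y k hf k' l sS (hs hx) (e.trans tx)
  exact ⟨⟨h, y, he, ty, (of_cn (hf y hy)).symm, (of_cn ay).symm,
    r.resolve_left fun ⟨_, n, a, b⟩ => n3 n a b, m _ (mul_mem yS yS) (n0_mul hy hy) (by
      rw [t_mul k hf hy (fP h) ty ty, mul_assoc, h.ff, mul_one]), fun u hu cu => by
      obtain ⟨n, hn, rfl⟩ := DZ u hu cu
      exact (lin_a k hf hn).1.imp_right fun r =>
        (r.resolve_left (n3 n hn)).resolve_right (n6 n hn)⟩, rfl, rfl, rfl⟩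

theorem rc (k' : Kit (mir h)) (DZ : ∀ u ∈ h.Z, IsConj h.t u → ∃ n, h.N0 n ∧ cn h.t n = u) {x X : G}
    (hx : h.N0 x) (tx : cn h.t x = h.t * h.f) (hX : h.N0 X) (tX : cn h.t X = h.t * h.f * h.z) :
    ∃ r : RC G, Same h r.toHyp := by
  obtain ⟨S, l, eS, d, m, c⟩ := exists_S k hf
  obtain ⟨s, sS, e, hs, -⟩ := c x (Or.inl hx)
  obtain ⟨y, yS, hy, ty, ay, r⟩ := exists_y k hf k' l sS (hs hx) (e.trans tx)
  have fP := fP h
  have zP := zP h
  obtain ⟨Y, YS, hY, tY, bY, aY, ye⟩ : ∃ Y ∈ S, h.N0 Y ∧ cn h.t Y = h.t * h.f * h.z ∧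
      cn h.b Y = h.b ∧ (cn h.a Y = h.a ∨ cn h.a Y = h.a * h.f) ∧ (h.e ≠ 1 → cn y h.e = Y) := by
    by_cases he : h.e = 1
    · obtain ⟨s, sS, e, hs, -⟩ := c X (Or.inl hX)
      have e2 := ((lin_b k hf k' (hs hX)).resolve_right fun r => r.2.elim
        (fun r => f1 k (by simpa [mul_assoc] using (e.trans tX).symm.trans r.2))
        fun r => h.z1 (mul_eq_left.1 ((e.trans tX).symm.trans r))).1
      have key : ∀ w ∈ h.Z, cn h.a s = h.a * w ∨ cn h.a s = h.a * w * h.z → ∃ Y ∈ S, h.N0 Y ∧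
          cn h.t Y = h.t * h.f * h.z ∧ cn h.b Y = h.b ∧ cn h.a Y = h.a * w := fun w hw e' => by
        obtain ⟨c, hc, a1, b1⟩ := fix2 h hw (one_mem _) e' (by simpa using e2)
        have cT := D0_T0 h hc
        exact ⟨s * c, mul_mem sS (l cT), n0_mul (hs hX) (n0_T0 k cT), by
          rw [cn_cn, e, tX, cen_T0 h (mul_mem (mul_mem (tZ h) (PZ h fP)) (PZ h zP)) cT],
          by rw [cn_cn, b1, mul_one], by rw [cn_cn, a1]⟩
      rcases (lin_a k hf (hs hX)).2 with ⟨p, -⟩ | ⟨p, -⟩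
      · obtain ⟨Y, a, b, c, d, e⟩ := key 1 (one_mem _) (by simpa using p)
        exact ⟨Y, a, b, c, d, Or.inl (by simpa using e), fun r => absurd he r⟩
      · obtain ⟨Y, a, b, c, d, e⟩ := key _ (PZ h fP) p
        exact ⟨Y, a, b, c, d, Or.inr e, fun r => absurd he r⟩
    · obtain ⟨e1, e2, e3, -⟩ := h.he.resolve_left he
      refine ⟨_, mul_mem (mul_mem (inv_mem eS) yS) eS, n0_conj (d _ eS) hy, ?_, ?_, ?_, fun _ => rfl⟩
      · rw [cn_cn, cn_cn, cn_inv (cn_of h.te), ty, cn_mul, cn_of h.te, e3, mul_assoc]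
      · rw [cn_cn, cn_cn, cn_inv e1, ay, e1]
      · rw [cn_cn, cn_cn, cn_inv e2]
        exact r.imp (fun r => by rw [r.1, e2]) fun r => by
          rw [r, cn_mul, cn_mul, e2, e3, ze, mul_assoc, fzz]
  have r' := r.imp_left And.left
  have Py := (lin_P k hf hy).2
  have PY := (lin_P k hf hY).2
  have two : ∀ {u w p : G}, h.N0 w → p ∈ h.P → cn u w = u ∨ cn u w = u * p → cn u (w * w) = u :=
    fun hw hp r => r.elim (fun r => by rw [cn_cn, r, r]) fun r => by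
      rw [cn_cn, r, cn_mul, r, (lin_P k hf hw).2 _ hp, mul_assoc, k.cE.2.2.1 _ (ZE1 h (PZ h hp)), mul_one]
  have fz := mul_mem fP zP
  rw [mul_assoc] at tY r'
  have sq : ∀ w ∈ S, h.N0 w → ∀ p ∈ h.P, p ≠ 1 → cn h.t w = h.t * p → cn h.a (w * w) = h.a →
      cn h.b (w * w) = h.b → w * w ∈ h.P := fun w wS hw p hp p1 e a b =>
    inP k hf (m _ (mul_mem wS wS) (n0_mul hw hw) (two hw hp (Or.inr e))) (of_cn a).symm (of_cn b).symm
      hw (fun r => p1 (mul_eq_left.1 (e.symm.trans r))) ((Commute.refl w).mul_left (Commute.refl w))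
  have ee := fun p hp => k.cE.2.2.1 p (ZE1 h (PZ h hp))
  have iv : ∀ {u w p : G}, h.N0 w → p ∈ h.P → cn u w = u * p → cn u w⁻¹ = u * p := fun hw hp e =>
    cn_inv (by rw [cn_mul, e, (lin_P k hf hw).2 _ hp, mul_assoc, ee _ hp, mul_one])
  have cm : ∀ {u p q : G}, p ∈ h.P → q ∈ h.P → cn u y = u * p → cn u Y = u * q →
      cn u (y⁻¹ * Y⁻¹ * y * Y) = u := fun {u p q} hp hq a b => by
    have m := mul_mem hq hp
    rw [t_mul k hf hY (mul_mem hp m) ((t_mul k hf hy m ((t_mul k hf (n0_inv hY) hp (iv hy hp a)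
      (iv hY hq b)).trans (mul_assoc _ _ _)) a).trans (mul_assoc _ _ _)) b, mul_assoc u, ← mul_assoc q,
      ee _ m, mul_one]
  refine ⟨⟨h, y, Y, ty, tY.trans (mul_assoc _ _ _).symm, (of_cn (Py _ fP)).symm, (of_cn (PY _ fP)).symm,
    (of_cn (Py _ zP)).symm, (of_cn (PY _ zP)).symm, (of_cn ay).symm, (of_cn bY).symm, aY,
    r.imp_left And.left, sq y yS hy _ fP (f1 k) ty (two hy fP (Or.inl ay)) (two hy fz r'),
    sq Y YS hY _ fz (f1 k') tY (two hY fP aY) (two hY fP (Or.inl bY)), ?_, ye, fun u hu cu => ?_⟩,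
    rfl, rfl, rfl⟩
  · have o := one_mem h.P
    have a : cn h.a (y⁻¹ * Y⁻¹ * y * Y) = h.a := aY.elim
      (fun e => cm o o (by simpa) (by simpa)) fun e => cm o fP (by simpa) e
    have b : cn h.b (y⁻¹ * Y⁻¹ * y * Y) = h.b := r'.elim
      (fun e => cm o o (by simpa) (by simpa)) fun e => cm fz o e (by simpa)
    exact inZ k (inE1 k (m _ (mul_mem (mul_mem (mul_mem (inv_mem yS) (inv_mem YS)) yS) YS)
      (n0_mul (n0_mul (n0_mul (n0_inv hy) (n0_inv hY)) hy) hY) (cm fP fz ty tY)) (of_cn a).symm)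
      (of_cn b).symm
  · obtain ⟨n, hn, rfl⟩ := DZ u (PZ h hu) cu
    obtain ⟨p, hp, e⟩ := (lin_P k hf hn).1
    exact tP k ((mul_mem_cancel_right hp).1 (e ▸ hu))

theorem swf (k' : Kit (mir h)) {g x : G} (a : Sw h g) (hx : h.N0 x) (tx : cn h.t x ≠ h.t) :
    cn h.f g = h.f * h.z := by
  have c : ∀ n ∈ normalizer (h.E2 : Set G), cn (cn h.f g) n = cn h.f g := fun n hn => by
    simpa [mul_assoc] using congrArg (cn · g) (fixf k hf (a.conj hn))
  rcases fixr k' ((mir_Z h).symm ▸ Zpres k (Or.inr a) (PZ h (fP h)))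
    (c _ (mir_E1 h ▸ ac_norm (mir h) (acR (mir h)))) with e | e | e | e
  · exact absurd (cn_one e) (f1 k)
  · exact absurd (e ▸ c x hx.2 :) tx
  · exact e
  · have := c x hx.2
    rw [e, cn_mul, (lin_P k hf hx).2 (mir h).f (mul_mem (fP h) (zP h)), mul_left_inj] at this
    exact absurd this tx

theorem swa (k' : Kit (mir h)) {g : G} (a : Sw h g) (tg : cn h.t g = h.t * h.f * h.z)
    (fg : cn h.f g = h.f * h.z) : cn h.a g = h.b ∨ cn h.a g = h.b * h.z := by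
  have zg := zfix (Or.inr a)
  have e : cn (h.t * h.f) g = h.t := by rw [cn_mul, tg, fg, mul_assoc h.t, mul_assoc, fzfz, mul_one]
  have := (autz k' (c := g⁻¹ * h.r * g⁻¹⁻¹) (a.inv.mir.conj (mir_E2 h ▸ ac_norm h (acR h))) (by
    show cn h.t _ = h.t
    rw [cn_cn, cn_cn, cn_inv e, cn_of (h.rt.symm.mul_left h.rf.symm), inv_inv, e])).2
  rw [show cn (mir h).z (g⁻¹ * h.r * g⁻¹⁻¹) = cn h.a g by
    show cn h.z _ = _
    rw [cn_cn, cn_cn, cn_inv zg, h.zr, inv_inv]] at this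
  exact this.resolve_left fun r => ncomm h (cn_inj (r.trans zg.symm) ▸ h.zb)

theorem main (k' : Kit (mir h)) (k'' : Kit (mir (mir h))) : (∃ r : RA G, Same h r.toHyp) ∨
    (∃ r : RB G, Same h r.toHyp) ∨ ∃ r : RC G, Same h r.toHyp := by
  obtain ⟨S, l, eS, d, m, c⟩ := exists_S k hf
  have fP := fP h
  have zP := zP h
  have hf' : ∀ n, (mir h).N0 n → cn (mir h).f n = (mir h).f :=
    fun n a => (lin_P k hf ((mir_N0 h).1 a)).2 _ (mul_mem fP zP)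
  have sw : ∀ {g y p q}, Sw h g → h.N0 y → q ∈ h.P → cn h.t g = h.t * q → cn h.t y = h.t * p →
      cn h.t (g⁻¹ * y * g) = h.t * cn p g := fun {g y p q} a hy hq e e' => by
    have := congrArg (cn · g) e'
    simp only [cn_mul, e] at this
    have b := (lin_P k hf (n0_conj (Or.inr a) hy)).2 q hq
    have c : cn (h.t * q) (g⁻¹ * y * g) = h.t * q * cn p g := by rw [← this, ← e]; simp [mul_assoc]
    have pZ : cn p g ∈ h.E1 := (mul_mem_cancel_left (mul_mem (ZE1 h (tZ h)) (ZE1 h (PZ h hq)))).1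
      (c ▸ cn_mem (n0_conj (Or.inr a) hy).1 (mul_mem (ZE1 h (tZ h)) (ZE1 h (PZ h hq))))
    rw [cn_mul, b, mul_assoc h.t, (ea_comm k.cE.2.2.1 (ZE1 h (PZ h hq)) pZ).eq, ← mul_assoc h.t] at c
    exact mul_right_cancel c
  by_cases hs : h.e = 1 ∧ ∃ g, Sw h g
  · obtain ⟨he, g, a⟩ := hs
    have ne : ∀ {g}, Sw h g → ∀ n, h.N0 n → cn h.t g ≠ cn h.t n := fun a n hn e =>
      swH k he (a.n0 (n0_inv hn)) (by rw [cn_cn, e, cn_inv rfl])
    have tZ' := fun {g} (a : Sw h g) => Zpres k (Or.inr a) (tZ h)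
    obtain ⟨x, hx, tx⟩ : ∃ x, h.N0 x ∧ cn h.t x ≠ h.t := by
      by_contra! r
      have o : ∀ {h : Hyp G} (k : Kit h) (_ : ∀ x, h.N0 x → cn h.t x = h.t) {g}, Sw h g →
          cn (cn h.t g) h.s = cn h.t g := fun {h} k r g a => by
        obtain ⟨i, n, hn, e⟩ := orb k (a.conj (n := h.s) (mir_E1 h ▸ ac_norm (mir h) (acR (mir h))))
        rw [r n hn, cn_cn] at e
        simpa [mul_assoc] using congrArg (cn · g)
          (cn_inj (e.symm.trans (cn_of (h.rt.pow_left i).symm).symm))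
      have o2 := o k r a
      have zs : ¬ Commute h.f h.s := fun c => ncomm h (by
        have := cn_of ((c.inv_left.mul_left h.sf.symm))
        rw [inv_mul_cancel_left, h.zs] at this
        exact this ▸ h.za.symm)
      rcases fixr k (tZ' a) (o k' (fun x hx => r x ((mir_N0 h).1 hx)) a.mir) with e | e | e | e
      · exact h.t1 (cn_one e)
      · exact swH k he a e
      · exact zs (of_cn (e ▸ o2))
      · exact zs (by simpa using (h.st.symm.inv_left.mul_left (of_cn (e ▸ o2 : cn (h.t * h.f) h.s = _))))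
    have fg := fun {g} (a : Sw h g) => swf k hf k' a hx tx
    have tP' : ∀ {g}, Sw h g → ∃ q ∈ h.P, cn h.t g = h.t * q := fun {g} a => by
      obtain ⟨q, hq, e⟩ := Z_cases h (tZ' a)
      refine ⟨q, hq, e.resolve_left fun e => tx (cn_inj (g := g) ?_)⟩
      have b := (lin_P k hf (n0_conj (Or.inr a) hx)).2 q hq
      rw [← e] at b
      simpa [mul_assoc] using b
    obtain ⟨q, hq, e⟩ := tP' a
    have n56 : ∀ y Y, h.N0 y → h.N0 Y → cn h.t y = h.t * h.f → cn h.t Y ≠ h.t * h.f * h.z :=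
      fun y Y hy hY ty tY => by
        rcases of_P h hq with rfl | rfl | rfl | rfl
        · exact swH k he a (by simpa using e)
        · exact ne a y hy (e.trans ty.symm)
        · exact ne a _ (n0_mul hy hY) (by
            rw [e, t_mul k hf hY fP ty (tY.trans (mul_assoc _ _ _)), mul_assoc h.t, mul_assoc h.f,
              ← (fz h).eq, ← mul_assoc h.f, h.ff, one_mul])
        · exact ne a Y hY (e.trans (tY.trans (mul_assoc _ _ _)).symm)
    have n5 : ∀ n, h.N0 n → cn h.t n ≠ h.t * h.f := fun n hn r =>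
      n56 _ _ hn (n0_conj (Or.inr a) hn) r (by rw [sw a hn hq e r, fg a, mul_assoc])
    have n6 : ∀ n, h.N0 n → cn h.t n ≠ h.t * h.f * h.z := fun n hn r =>
      n56 _ _ (n0_conj (Or.inr a) hn) hn (by
        rw [sw a hn hq e (r.trans (mul_assoc _ _ _)), cn_mul, fg a, zfix (Or.inr a), fzz]) r
    have tx' := (((lin_a k hf hx).1.resolve_left tx).resolve_right (not_or.2 ⟨n5 x hx, n6 x hx⟩))
    obtain ⟨x, xS, ex, hx', -⟩ := c x (Or.inl hx)
    have hx := hx' hx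
    rw [← ex] at tx'
    obtain ⟨g, gS, a, tg⟩ : ∃ g ∈ S, Sw h g ∧ cn h.t g = h.t * h.f * h.z := by
      obtain ⟨s, sS, es, -, b⟩ := c g (Or.inr a)
      rw [← es] at e
      rcases of_P h hq with rfl | rfl | rfl | rfl
      · exact absurd (by simpa using e) (swH k he (b a))
      · exact ⟨s * x, mul_mem sS xS, (b a).n0 hx, by
          rw [t_mul k hf hx fP e tx', mul_assoc, mul_assoc, (fz h).eq]⟩
      · exact absurd (e.trans tx'.symm) (ne (b a) x hx)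
      · exact ⟨s, sS, b a, e.trans (mul_assoc _ _ _).symm⟩
    have a2 := a.inv.n0 hx
    have ag := swa k hf k' a tg (fg a)
    have bg : cn h.b g = h.a ∨ cn h.b g = h.a * h.z := by
      have e : cn (h.t * h.f) g = h.t := by
        rw [cn_mul, tg, fg a, mul_assoc h.t, mul_assoc, fzfz, mul_one]
      have b2 := ((lin_b k hf k' hx).resolve_right fun r => r.2.elim
        (fun ⟨⟨n, a, b⟩, _⟩ => n6 n a b) (n5 x hx)).1
      have zx := zfix (Or.inl hx)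
      have r : cn h.a g⁻¹ = h.b ∨ cn h.a g⁻¹ = h.b * h.z := by
        rcases swa k hf k' a2 (by
          rw [cn_cn, cn_inv e, cn_mul, tx', hf x hx, mul_assoc, mul_assoc, (fz h).eq]) (fg a2) with
          r | r <;> rw [cn_cn] at r <;> rcases b2 with b | b
        exacts [Or.inl (cn_inj (r.trans b.symm)), Or.inr (cn_inj (r.trans (by
          rw [cn_mul, b, zx, mul_assoc, h.zz, mul_one]))), Or.inr (cn_inj (r.trans (by
            rw [cn_mul, b, zx]))), Or.inl (cn_inj (r.trans b.symm))]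
      refine r.imp (fun r => by simpa using cn_inv r) fun r => ?_
      have := cn_inv r
      rw [inv_inv, cn_mul, zfix (Or.inr a)] at this
      rw [← this, mul_assoc, h.zz, mul_one]
    obtain ⟨u, hu, a1, b1⟩ := fix2 h (one_mem _) (one_mem _) (by simpa using bg) (by simpa using ag)
    have uT := D0_T0 h hu
    have a3 := a.n0 (n0_T0 k uT)
    refine Or.inl (ra k hf x (g * u) S l d m xS hx (mul_mem gS (l uT)) tx' n5 n6 k' (Or.inr ⟨he,
      by rw [cn_cn, b1, mul_one], by rw [cn_cn, a1, mul_one], fg a3, by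
        rw [cn_cn, tg, cen_T0 h (mul_mem (mul_mem (tZ h) (PZ h fP)) (PZ h zP)) uT],
      fun v hv cv => ?_⟩))
    obtain ⟨n, hn, rfl⟩ := k.trZ v (PZ h hv) cv
    obtain ⟨p, hp, e⟩ := (dich' k hn).elim (fun a => (lin_P k hf a).1) tP'
    exact tP k ((mul_mem_cancel_right hp).1 (e ▸ hv))
  have N : ∀ g, h.N0 g ∨ Sw h g → ∃ n, h.N0 n ∧ cn h.t n = cn h.t g := fun g hg =>
    hg.elim (fun a => ⟨g, a, rfl⟩) fun a => ⟨h.e * g, (swe k fun e => hs ⟨e, g, a⟩).sw a, by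
      rw [cn_cn, cn_of h.te]⟩
  have DZ : ∀ u ∈ h.Z, IsConj h.t u → ∃ n, h.N0 n ∧ cn h.t n = u := fun u hu cu => by
    obtain ⟨n, hn, rfl⟩ := k.trZ u hu cu
    exact N n (dich' k hn)
  have te : cn h.t h.e = h.t * 1 := by rw [cn_of h.te, mul_one]
  by_cases A5 : ∃ n, h.N0 n ∧ cn h.t n = h.t * h.f <;>
    by_cases A6 : ∃ n, h.N0 n ∧ cn h.t n = h.t * h.f * h.z
  · obtain ⟨x, a, b⟩ := A5
    obtain ⟨X, A, B⟩ := A6
    exact Or.inr (Or.inr (rc k hf k' DZ a b A B))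
  · obtain ⟨x, a, b⟩ := A5
    exact Or.inr (Or.inl (rb k hf k' (by_contra fun he => A6 ⟨_, n0_conj (d _ eS) a, by
      rw [sw (swe k he) a (one_mem _) te b, (h.he.resolve_left he).2.2.1, mul_assoc]⟩) DZ a b
      fun n hn e => A6 ⟨n, hn, e⟩))
  · obtain ⟨x, a, b⟩ := A6
    rw [mul_assoc] at b
    exact Or.inr (Or.inl (rb (h := mir h) k' hf' k'' (by_contra fun he => A5 ⟨_, n0_conj (d _ eS) a, by
      rw [sw (swe k he) a (one_mem _) te b, cn_mul, (h.he.resolve_left he).2.2.1, ze, fzz]⟩)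
      (fun u hu cu => (DZ u (mir_Z h ▸ hu) cu).imp fun _ r => ⟨(mir_N0 h).2 r.1, r.2⟩)
      ((mir_N0 h).2 a) b fun n hn e => A5 ⟨n, (mir_N0 h).1 hn,
        e.trans ((mul_assoc _ _ _).trans (congrArg _ (fzz h)))⟩))
  · have o : ∀ n, h.N0 n → cn h.t n = h.t ∨ cn h.t n = h.t * h.z := fun n hn =>
      (lin_a k hf hn).1.imp_right fun r => r.resolve_right
        (not_or.2 ⟨fun e => A5 ⟨n, hn, e⟩, fun e => A6 ⟨n, hn, e⟩⟩)
    obtain ⟨g, hg, e⟩ := exists_move k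
    obtain ⟨n, hn, e'⟩ := N g hg
    obtain ⟨x, xS, ex, hx, -⟩ := c n (Or.inl hn)
    exact Or.inl (ra k hf x h.e S l d m xS (hx hn) eS (ex.trans ((o n hn).resolve_left (e' ▸ e)))
      (fun n hn e => A5 ⟨n, hn, e⟩) (fun n hn e => A6 ⟨n, hn, e⟩) k' (Or.inl ⟨rfl, fun u hu cu => by
        obtain ⟨n, hn, rfl⟩ := DZ u hu cu
        exact o n hn⟩))

omit hf in
theorem wlog_f (k' : Kit (mir h)) :
    (∀ n, h.N0 n → cn h.f n = h.f) ∨ ∀ n, h.N0 n → cn (h.f * h.t) n = h.f * h.t := by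
  have key : ∀ n, h.N0 n → ∃ M, Act (σ h) n⁻¹ M ∧
      (mm M 1, mm M 2) ∈ [(1, 2), (2, 1), (10, 9), (9, 2), (9, 10), (3, 2), (11, 2)] ∧ mm M 8 = 8 :=
    fun n hn => by
      obtain ⟨M, hM, a⟩ := lin k hn
      obtain ⟨N, hN, b⟩ := lin k' ((mir_N0 h).2 hn)
      have s : ∀ v ∈ Zc, σ (mir h) v = σ h (mm 33953 v) := by
        simp only [Zc, List.forall_mem_cons, List.not_mem_nil, IsEmpty.forall_iff, implies_true,
          and_true, s_val, show mm 33953 0 = 0 ∧ mm 33953 1 = 1 ∧ mm 33953 2 = 10 ∧ mm 33953 3 = 11 ∧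
          mm 33953 8 = 8 ∧ mm 33953 9 = 9 ∧ mm 33953 10 = 2 ∧ mm 33953 11 = 3 by decide]
        exact ⟨trivial, rfl, rfl, (mul_assoc _ _ _).symm, rfl, rfl, fzz h,
          (mul_assoc _ _ _).trans (congrArg _ (fzz h))⟩
      have c : ∀ v ∈ [1, 2], mm 33953 (mm N v) = mm M (mm 33953 v) := fun v hv => by
        obtain ⟨l, z1, z2⟩ := (by decide : ∀ N ∈ AL, ∀ v ∈ [1, 2], v < 16 ∧ v ∈ Zc ∧ mm N v ∈ Zc) N hN v hv
        refine s_inj k (mm_vec_lt _ (mm_vec_lt _ l)) (mm_vec_lt _ (mm_vec_lt _ l)) ?_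
        rw [← s _ z2, ← ac_cn _ b l, s _ z1, ac_cn h a (mm_vec_lt _ l)]
      exact ⟨M, a, (by decide +kernel : ∀ M ∈ AL, ∀ N ∈ AL,
        (∀ v ∈ [1, 2], mm 33953 (mm N v) = mm M (mm 33953 v)) →
        (mm M 1, mm M 2) ∈ [(1, 2), (2, 1), (10, 9), (9, 2), (9, 10), (3, 2), (11, 2)] ∧ mm M 8 = 8)
        M hM N hN c⟩
  by_contra! r
  obtain ⟨⟨n, hn, e⟩, m, hm, e'⟩ := r
  obtain ⟨M, hM, a⟩ := lin k hn
  obtain ⟨N, hN, b⟩ := lin k hm
  obtain ⟨M', a', p, -⟩ := key n hn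
  obtain ⟨N', b', q, -⟩ := key m hm
  obtain ⟨_, c, r, -⟩ := key _ (n0_mul hm hn)
  obtain rfl := ac_uq k a a'
  obtain rfl := ac_uq k b b'
  obtain rfl := ac_uq k (a.mul b) (mul_inv_rev m n ▸ c)
  rcases (by decide +kernel : ∀ M ∈ AL, ∀ N ∈ AL, (∀ K ∈ [M, N, mm M N],
    (mm K 1, mm K 2) ∈ [(1, 2), (2, 1), (10, 9), (9, 2), (9, 10), (3, 2), (11, 2)]) →
    mm M 2 = 2 ∨ mm N 3 = 3) M hM N hN (by simp only [List.forall_mem_cons, p, q, r]; simp) with s | s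
  · exact e (by simpa only [s, s_val h] using ac_cn h a (show 2 < 16 by decide))
  · exact e' (by simpa only [s, s_val h, h.tf.eq] using ac_cn h b (show 3 < 16 by decide))

end

theorem sig (hk : KitStmt.{u}) : SigStmt.{u} := fun G _ _ h =>
  (wlog_f (hk G h) (hk G _)).elim (fun r => main (hk G h) r (hk G _) (hk G _))
    fun r => main (h := ft h) (hk G (ft h)) (fun n a => r n ((ft_N0 h).1 a)) (hk G _) (hk G _)

end Cfsg.Agent.H42.N81
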