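import Cfsg.Agent.H42.VpDefs

set_option autoImplicit false

namespace Cfsg.Agent.H42.Vp

open Subgroup Cfsg

universe u

theorem asm (t : TStmt.{u}) (n : NStmt.{u}) (m : MStmt.{u}) (f1 : F1Stmt.{u}) (f2 : F2Stmt.{u})
    {G : Type u} [Group G] [Finite G] (hna : ¬ IsMulCommutative G) (p : ℕ) [hp : Fact p.Prime]
    (hvan : ∀ g : G, (∃ χ : Cfsg.IrrCharacter G, (χ : G → ℂ) g = 0) →
      ∃ m : ℕ, 1 ≤ m ∧ orderOf g = p ^ m) :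
    IsPGroup p G ∨ (Subgroup.center G = Cfsg.pCore p G ∧
      ∃ H : Subgroup (G ⧸ Subgroup.center G), Cfsg.IsFrobeniusComplement H ∧ IsPGroup p H) := by
  have hv : ∀ g : G, Van g → ∃ m, orderOf g = p ^ m := by
    rintro g ⟨χ, hχ, h0⟩
    obtain ⟨m, -, hm⟩ := hvan g ⟨⟨χ, hχ⟩, h0⟩
    exact ⟨m, hm⟩
  obtain ⟨K, hK, hc, k, hk⟩ := t G p hp.out hv
  by_cases hb : K = ⊥
  · left
    rw [hb, Subgroup.index_bot] at hk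
    exact IsPGroup.of_card hk
  right
  have hl : Loc p K := m G p hp.out K hc ⟨k, hk⟩ hv
  obtain ⟨g, hg, hgz⟩ := n G hna
  obtain ⟨j, hj⟩ := hv g hg
  have hx : ∃ x : G, (∃ m, x ^ p ^ m = 1) ∧ x ∉ center G :=
    ⟨g, ⟨j, by rw [← hj]; exact pow_orderOf_eq_one g⟩, hgz⟩
  obtain ⟨h1, h2⟩ := f1 G p hp.out K hc ⟨k, hk⟩ hb hl hx
  exact ⟨h2, f2 G p hp.out K hc ⟨k, hk⟩ hb hl hx h1⟩

end Cfsg.Agent.H42.Vp
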